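import Cfsg.Agent.H35.CRc
import Cfsg.Agent.H68.CAEvenC

/-!
# Orders of centralizers in a simple group, part D: simple groups with three orders of centralizers
-/

set_option autoImplicit false
set_option linter.style.haveILetI false
set_option linter.unusedSectionVars false

namespace Cfsg.Agent.H35.CR

open Cfsg.Agent.SC Cfsg.Agent.H68.CA

universe u

variable {G : Type u} [Group G] [Finite G]

section Simple

variable [IsSimpleGroup G] (hna : ¬ ∀ a b : G, a * b = b * a)

include hna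

theorem case_c {n1 n2 n3 : ℕ} (hall : ∀ g : G, g ≠ 1 → c g = n1 ∨ c g = n2 ∨ c g = n3) {x2 x3 : G} (hx2 : x2 ≠ 1)
    (hc2 : c x2 = n2) (hx3 : x3 ≠ 1)
    (hc3 : c x3 = n3) (hd3 : n1 ∣ n3) (h31 : ¬ n3 ∣ n1) (h32 : ¬ n3 ∣ n2) (h21 : ¬ n2 ∣ n1) (h23 : ¬ n2 ∣ n3)
    (h12 : ¬ n1 ∣ n2) (h2G : 2 ∣ Nat.card G) : ∀ t : G, orderOf t = 2 → SelfCent (cz t) := by
  classical
  have hmin2 : ∀ g : G, g ≠ 1 → c g ∣ n2 → c g = n2 := by
    intro g hg h
    rcases hall g hg with h1 | h1 | h1
    · exact absurd (h1 ▸ h) h12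
    · exact h1
    · exact absurd (h1 ▸ h) h32
  have hmax2 : ∀ g : G, g ≠ 1 → n2 ∣ c g → c g = n2 := by
    intro g hg h
    rcases hall g hg with h1 | h1 | h1
    · exact absurd (h1 ▸ h) h21
    · exact h1
    · exact absurd (h1 ▸ h) h23
  obtain ⟨p, k, hp, hpk⟩ := exists_prime_power hx2
  set x : G := x2 ^ k with hx
  have hx1 := ne_one_of_prime hp hpk
  have hcx : c x = n2 := hmax2 x hx1 (hc2 ▸ c_dvd (cz_le_pow x2 k))
  by_cases hq : ∃ q : ℕ, q.Prime ∧ q ≠ p ∧ q ∣ n2
  · obtain ⟨q, hq, hqp, hqn⟩ := hq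
    haveI : Fact q.Prime := ⟨hq⟩
    obtain ⟨w, hw⟩ := exists_prime_orderOf_dvd_card' (G := cz x) q (by
      rw [← hcx] at hqn; exact hqn)
    have hA : SelfCent (cz x) := selfCent_of hp hq (Ne.symm hqp) hpk (w := (w : G))
      (by rw [Subgroup.orderOf_coe]; exact hw) w.2 (by rw [hcx]; exact hmin2) (by rw [hcx]; exact hmax2)
    by_cases h2A : 2 ∣ Nat.card (cz x)
    · intro t ht
      haveI : Fact (Nat.Prime 2) := ⟨Nat.prime_two⟩
      have ht1 := ne_one_of_prime Nat.prime_two ht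
      obtain ⟨S, hS⟩ := hA.exists_sylow_le h2A
      obtain ⟨z, P, hz, htP, hPz, -⟩ := exists_full_comm Nat.prime_two ht1 (k := 1) (by
        rw [pow_one, ← ht, pow_orderOf_eq_one])
      obtain ⟨g, hg⟩ := MulAction.exists_smul_eq G P S
      have h1 : g * t * g⁻¹ ∈ (S : Subgroup G) := by
        rw [← hg]
        exact Subgroup.smul_mem_pointwise_smul _ (MulAut.conj g) _ htP
      have h2 := hA _ (hS h1) (conj_ne_one ht1)
      have h3 : cz t = (cz x).map (MulAut.conj g⁻¹).toMonoidHom := by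
        rw [← h2]
        show _ = (Subgroup.centralizer ({g * t * g⁻¹} : Set G)).map (MulAut.conj g⁻¹).toMonoidHom
        rw [← conj_centralizer]
        congr 2
        group
      rw [h3]
      exact hA.map g⁻¹
    · exfalso
      refine case_odd hna hall hx3 hc3 hd3 h31 h32 h21 (fun h => h23 (h ▸ dvd_refl _)) hA hcx ?_ h2A h2G
      intro h
      have := self_mem x
      rw [h, Subgroup.mem_bot] at this
      exact hx1 this
  · exfalso
    push Not at hq
    -- the index of `cz x3` is a power of `p`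
    have h1 : (cz x3).index = p ^ (cz x3).index.primeFactorsList.length := by
      apply Nat.eq_prime_pow_of_unique_prime_dvd (Subgroup.index_ne_zero_of_finite)
      intro q hq' hqi
      by_contra hqp
      have hqG : q ∣ Nat.card G := hqi.trans (cz x3).index_dvd_card
      obtain ⟨z, hz, hzk⟩ := exists_full hq' hqG
      rcases hall z (ne_one_of_prime hq' hz) with h | h | h
      · exact not_dvd_index hq' (fun k hk => (hzk k hk).trans (by rw [h, hc3]; exact hd3)) hqi
      · have h2 := hzk 1 (by rw [pow_one]; exact hqG)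
        rw [pow_one, h] at h2
        exact hq q hq' hqp h2
      · exact not_dvd_index hq' (fun k hk => (hzk k hk).trans (by rw [h, hc3])) hqi
    exact not_prime_power_index hna hx3 hp h1

/-- **the involution centralizers are self-centralizing** -/
theorem main_three {n1 n2 n3 : ℕ} (h12 : n1 ≠ n2) (h13 : n1 ≠ n3) (h23 : n2 ≠ n3)
    (hall : ∀ g : G, g ≠ 1 → c g = n1 ∨ c g = n2 ∨ c g = n3) {x1 x2 x3 : G} (hx1 : x1 ≠ 1) (hx2 : x2 ≠ 1)
    (hx3 : x3 ≠ 1) (hc1 : c x1 = n1) (hc2 : c x2 = n2) (hc3 : c x3 = n3) (h2G : 2 ∣ Nat.card G) :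
    ∀ t : G, orderOf t = 2 → SelfCent (cz t) := by
  classical
  -- the case of a divisibility
  have key : ∀ {n1 n2 n3 : ℕ}, n1 ≠ n2 → n1 ≠ n3 → n2 ≠ n3 → (∀ g : G, g ≠ 1 → c g = n1 ∨ c g = n2 ∨ c g = n3) →
      ∀ {x2 x3 : G}, x2 ≠ 1 → x3 ≠ 1 → c x2 = n2 → c x3 = n3 → n1 ∣ n3 →
      ∀ t : G, orderOf t = 2 → SelfCent (cz t) := by
    intro n1 n2 n3 h12 h13 h23 hall x2 x3 hx2 hx3 hc2 hc3 hd
    have e1 : ¬ n3 ∣ n2 := by
      intro h
      apply not_all_dvd hna hx2
      intro g hg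
      rw [hc2]
      rcases hall g hg with h1 | h1 | h1
      · rw [h1]; exact hd.trans h
      · rw [h1]
      · rw [h1]; exact h
    have e2 : ¬ n2 ∣ n3 := by
      intro h
      apply not_all_dvd hna hx3
      intro g hg
      rw [hc3]
      rcases hall g hg with h1 | h1 | h1
      · rw [h1]; exact hd
      · rw [h1]; exact h
      · rw [h1]
    have e3 : ¬ n2 ∣ n1 := fun h => e2 (h.trans hd)
    have e4 : ¬ n3 ∣ n1 := fun h => h13 (Nat.dvd_antisymm hd h)
    by_cases e5 : n1 ∣ n2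
    · exact (case_a hna h12 h13 h23 hall hx2 hx3 hc2 hc3 e5 hd).elim
    · exact case_c hna hall hx2 hc2 hx3 hc3 hd e4 e1 e3 e2 e5 h2G
  by_cases hanti : ∀ g h : G, g ≠ 1 → h ≠ 1 → c g ∣ c h → c g = c h
  · exact anti hanti
  · push Not at hanti
    obtain ⟨g, h, hg, hh, hdvd, hne⟩ := hanti
    rcases hall g hg with h1 | h1 | h1 <;> rcases hall h hh with h2 | h2 | h2 <;> rw [h1, h2] at hdvd hne
    · exact absurd rfl hne
    · exact key h13 h12 (Ne.symm h23) (fun g hg => by rcases hall g hg with h | h | h <;> tauto) hx3 hx2 hc3 hc2 hdvd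
    · exact key h12 h13 h23 hall hx2 hx3 hc2 hc3 hdvd
    · exact key h23 (Ne.symm h12) (Ne.symm h13) (fun g hg => by rcases hall g hg with h | h | h <;> tauto) hx3 hx1 hc3 hc1 hdvd
    · exact absurd rfl hne
    · exact key (Ne.symm h12) h23 h13 (fun g hg => by rcases hall g hg with h | h | h <;> tauto) hx1 hx3 hc1 hc3 hdvd
    · exact key (Ne.symm h23) (Ne.symm h13) (Ne.symm h12) (fun g hg => by rcases hall g hg with h | h | h <;> tauto) hx2 hx1 hc2 hc1 hdvd
    · exact key (Ne.symm h13) (Ne.symm h23) h12 (fun g hg => by rcases hall g hg with h | h | h <;> tauto) hx1 hx2 hc1 hc2 hdvd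
    · exact absurd rfl hne

end Simple

/-- a simple group of even order in which the centralizer of every involution is self-centralizing is `PSL₂(2^f)` -/
theorem psl_of_inv [IsSimpleGroup G] (hna : ¬ IsMulCommutative G) (hkey : ∀ t : G, orderOf t = 2 → SelfCent (cz t))
    (h2 : 2 ∣ Nat.card G) : ∃ (F : Type) (_ : Field F) (_ : Fintype F) (f : ℕ), 2 ≤ f ∧ Fintype.card F = 2 ^ f ∧
      Nonempty (G ≃* Matrix.ProjectiveSpecialLinearGroup (Fin 2) F) := by
  classical
  have hp2 : Fact (Nat.Prime 2) := ⟨Nat.prime_two⟩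
  obtain ⟨t, ht⟩ := exists_prime_orderOf_dvd_card' 2 h2
  have key : ∀ t : G, orderOf t = 2 → ES (Subgroup.centralizer {t}) := by
    intro t ht
    refine es_of_simple hna (hkey t ht) ?_
    rw [← ht]
    exact (cz t).orderOf_dvd_natCard (self_mem t)
  have h := key t ht
  obtain ⟨S, hS⟩ := h.sc.exists_sylow_le h.two
  have hA2 : IsPGroup 2 (Subgroup.centralizer {t}) := by
    intro x
    refine ⟨1, ?_⟩
    apply Subtype.ext
    rw [pow_one, sq]
    exact h.all_inv x x.2
  have hSA : (S : Subgroup G) = Subgroup.centralizer {t} := (S.is_maximal' hA2 hS).symm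
  have he := h.one_lt
  have hJ := h.card_J
  have hcS : Nat.card S = Nat.card (Subgroup.centralizer {t}) := by
    rw [← hSA]
  have hS3 : 3 ≤ Nat.card S := by omega
  have hSc : ¬ IsCyclic (S : Subgroup G) := by
    intro hcyc
    obtain ⟨g, hg⟩ := hcyc.exists_generator
    have h3 : Nat.card S = orderOf g := by
      rw [← Nat.card_zpowers]
      have : Subgroup.zpowers g = ⊤ := by
        rw [eq_top_iff]; intro x _; exact hg x
      rw [this, Subgroup.card_top]
    have h4 : orderOf g ∣ 2 := by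
      apply orderOf_dvd_of_pow_eq_one
      apply Subtype.ext
      rw [sq]
      exact h.all_inv g (by rw [← hSA]; exact g.2)
    have := Nat.le_of_dvd (by norm_num) h4
    omega
  have hSn : ¬ (S : Subgroup G).Normal := by
    intro hn
    apply h.ne_top
    rw [← hSA]
    exact Subgroup.normalizer_eq_top_iff.2 hn
  obtain ⟨F, iF, iFF, hF, hG⟩ := Cfsg.Agent.S1230.result S hSc hSn (by
    intro u hu
    have h1 := key u hu
    refine ⟨⟨⟨fun x y => Subtype.ext (h1.sc.comm x.2 y.2)⟩⟩, ?_⟩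
    intro c hc
    rw [sq]
    exact h1.all_inv c hc)
  obtain ⟨f, hf⟩ := IsPGroup.iff_card.1 S.isPGroup'
  refine ⟨F, iF, iFF, f, ?_, by rw [hF, hf], hG⟩
  by_contra hcon
  have h3 : f ≤ 1 := by omega
  have h4 : 2 ^ f ≤ 2 ^ 1 := Nat.pow_le_pow_right (by norm_num) h3
  rw [← hf] at h4
  omega

end Cfsg.Agent.H35.CR
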