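import Cfsg.Agent.H35.PSa
import Cfsg.Agent.H67.ConjCover
import Cfsg.Agent.H68.FourOrbits

/-!
# Groups whose class sizes have at most two prime divisors, part A: labels
-/

set_option autoImplicit false
set_option linter.style.haveILetI false
set_option linter.unusedSectionVars false

namespace Cfsg.Agent.H35.TP

open Cfsg.Agent.SC Cfsg.Agent.H35.CR Cfsg.Agent.H35.PS

universe u

variable {G : Type u} [Group G] [Finite G]

/-- centralizer of a subgroup -/
abbrev CC (R : Subgroup G) : Subgroup G := Subgroup.centralizer (R : Set G)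
/-- normalizer of a subgroup -/
abbrev NN (R : Subgroup G) : Subgroup G := Subgroup.normalizer (R : Set G)

theorem mem_CC {R : Subgroup G} {x : G} : x ∈ CC R ↔ R ≤ cz x := by
  rw [Subgroup.mem_centralizer_iff]
  exact ⟨fun h y hy => mem_cz.2 (h y hy), fun h y hy => mem_cz.1 (h hy)⟩

theorem CC_le_NN (R : Subgroup G) : CC R ≤ NN R := by
  intro x hx
  rw [Subgroup.mem_centralizer_iff] at hx
  rw [Subgroup.mem_normalizer_iff]
  intro y
  constructor
  · intro hy
    rw [← hx y hy, mul_inv_cancel_right]; exact hy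
  · intro hy
    have h1 := hx _ hy
    have h2 : y = x * y * x⁻¹ := by
      have : x * y * x⁻¹ * x = x * (x * y * x⁻¹) := h1
      rw [inv_mul_cancel_right] at this
      exact mul_left_cancel this
    rw [h2]; exact hy

/-- transport of Sylow subgroups of a subgroup of index prime to `p` -/
theorem exists_sylow_map {p : ℕ} [Fact p.Prime] {H : Subgroup G} (h : ¬ p ∣ H.index) (Q : Sylow p H) :
    ∃ P : Sylow p G, (P : Subgroup G) = (Q : Subgroup H).map H.subtype := by
  have hQ : IsPGroup p ((Q : Subgroup H).map H.subtype) := Q.isPGroup'.map _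
  obtain ⟨P, hP⟩ := hQ.exists_le_sylow
  refine ⟨P, ?_⟩
  have h1 : Nat.card ((Q : Subgroup H).map H.subtype) = Nat.card Q :=
    Subgroup.card_map_of_injective H.subtype_injective
  have h2 : Nat.card Q = p ^ (Nat.card H).factorization p := Q.card_eq_multiplicity
  have h3 : Nat.card P = p ^ (Nat.card G).factorization p := P.card_eq_multiplicity
  have h4 : (Nat.card G).factorization p = (Nat.card H).factorization p := by
    rw [← Subgroup.card_mul_index H, Nat.factorization_mul Nat.card_pos.ne' Subgroup.index_ne_zero_of_finite,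
      Finsupp.add_apply, Nat.factorization_eq_zero_of_not_dvd h, add_zero]
  symm
  apply Subgroup.eq_of_le_of_card_ge hP
  rw [h1, h2, ← h4]
  exact h3.le

/-- a `p`-element of a subgroup of index prime to `p` lies in a Sylow subgroup of `G` in it -/
theorem exists_sylow_mem {p : ℕ} [Fact p.Prime] {H : Subgroup G} (h : ¬ p ∣ H.index) {x : G} (hx : x ∈ H)
    (hxp : Pel p x) : ∃ P : Sylow p G, (P : Subgroup G) ≤ H ∧ x ∈ (P : Subgroup G) := by
  have h1 : Pel p (⟨x, hx⟩ : H) := by
    obtain ⟨k, hk⟩ := hxp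
    exact ⟨k, Subtype.ext hk⟩
  obtain ⟨Q, hQ⟩ := h1.zpowers_isPGroup.exists_le_sylow
  obtain ⟨P, hP⟩ := exists_sylow_map h Q
  refine ⟨P, ?_, ?_⟩
  · rw [hP]; exact Subgroup.map_subtype_le _
  · rw [hP]; exact ⟨⟨x, hx⟩, hQ (Subgroup.mem_zpowers _), rfl⟩

/-- Sylow subgroups of `G` inside `H` are conjugate in `H` -/
theorem exists_conj_sylow {p : ℕ} [Fact p.Prime] {H : Subgroup G} {P Q : Sylow p G} (hP : (P : Subgroup G) ≤ H)
    (hQ : (Q : Subgroup G) ≤ H) : ∃ h ∈ H, ∀ x : G, x ∈ (P : Subgroup G) ↔ h * x * h⁻¹ ∈ (Q : Subgroup G) := by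
  obtain ⟨h, hh⟩ := MulAction.exists_smul_eq H (P.subtype hP) (Q.subtype hQ)
  refine ⟨h, h.2, fun x => ?_⟩
  have h1 : ∀ y : H, y ∈ (P.subtype hP : Subgroup H) ↔ h * y * h⁻¹ ∈ (Q.subtype hQ : Subgroup H) := by
    intro y
    rw [← hh, Sylow.coe_subgroup_smul, Subgroup.mem_pointwise_smul_iff_inv_smul_mem]
    have : (MulAut.conj h)⁻¹ • (h * y * h⁻¹) = y := by
      rw [← map_inv, MulAut.smul_def, MulAut.conj_apply]; group
    rw [this]
  constructor
  · intro hx
    exact (h1 ⟨x, hP hx⟩).1 hx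
  · intro hx
    have hxH : x ∈ H := by
      have h2 := H.mul_mem (H.mul_mem (H.inv_mem h.2) (hQ hx)) h.2
      have h3 : (h : G)⁻¹ * (h * x * (h : G)⁻¹) * h = x := by group
      rwa [h3] at h2
    exact (h1 ⟨x, hxH⟩).2 hx

theorem label_iff {p : ℕ} [Fact p.Prime] {x : G} : ¬ p ∣ (cz x).index ↔ ∃ R : Sylow p G, x ∈ CC (R : Subgroup G) := by
  constructor
  · intro h
    obtain ⟨P, hP⟩ := exists_sylow_le h
    exact ⟨P, mem_CC.2 hP⟩
  · rintro ⟨R, hR⟩ h
    exact R.not_dvd_index (h.trans (Subgroup.index_dvd_of_le (mem_CC.1 hR)))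

theorem card_CC_eq {p : ℕ} [Fact p.Prime] (R R' : Sylow p G) :
    Nat.card (CC (R : Subgroup G)) = Nat.card (CC (R' : Subgroup G)) := by
  obtain ⟨h, -, hh⟩ := exists_conj_sylow (H := ⊤) (P := R) (Q := R') le_top le_top
  have h1 : (CC (R : Subgroup G)).map (MulAut.conj h).toMonoidHom = CC (R' : Subgroup G) := by
    ext y
    constructor
    · rintro ⟨x, hx, rfl⟩
      rw [SetLike.mem_coe, Subgroup.mem_centralizer_iff] at hx
      rw [Subgroup.mem_centralizer_iff]
      intro z hz
      have h2 : h⁻¹ * z * h ∈ (R : Subgroup G) := by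
        rw [hh]
        have : h * (h⁻¹ * z * h) * h⁻¹ = z := by group
        rw [this]; exact hz
      have h3 := hx _ h2
      show z * (h * x * h⁻¹) = (h * x * h⁻¹) * z
      calc z * (h * x * h⁻¹) = h * ((h⁻¹ * z * h) * x) * h⁻¹ := by group
        _ = h * (x * (h⁻¹ * z * h)) * h⁻¹ := by rw [h3]
        _ = _ := by group
    · intro hy
      rw [Subgroup.mem_centralizer_iff] at hy
      refine ⟨h⁻¹ * y * h, ?_, ?_⟩
      · rw [SetLike.mem_coe, Subgroup.mem_centralizer_iff]
        intro z hz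
        have h3 := hy _ ((hh z).1 hz)
        calc z * (h⁻¹ * y * h) = h⁻¹ * ((h * z * h⁻¹) * y) * h := by group
          _ = h⁻¹ * (y * (h * z * h⁻¹)) * h := by rw [h3]
          _ = _ := by group
      · show h * (h⁻¹ * y * h) * h⁻¹ = y
        group
  rw [← h1, Subgroup.card_map_of_injective (MulAut.conj h).injective]

open Classical in
/-- counting the elements that centralize a Sylow subgroup -/
theorem count_label {p : ℕ} [Fact p.Prime] (R : Sylow p G) :
    Nat.card {x : G // x ≠ 1 ∧ ¬ p ∣ (cz x).index} + (NN (R : Subgroup G)).index ≤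
      (NN (R : Subgroup G)).index * Nat.card (CC (R : Subgroup G)) := by
  haveI := Fintype.ofFinite G
  haveI : Fintype (Sylow p G) := Fintype.ofFinite _
  have h1 : Nat.card {x : G // x ≠ 1 ∧ ¬ p ∣ (cz x).index} =
      (Finset.univ.filter (fun x : G => x ≠ 1 ∧ ¬ p ∣ (cz x).index)).card := by
    rw [Nat.card_eq_fintype_card, Fintype.card_subtype]
  have h2 : (Finset.univ.filter (fun x : G => x ≠ 1 ∧ ¬ p ∣ (cz x).index)) ⊆
      (Finset.univ : Finset (Sylow p G)).biUnion
        (fun Q => Finset.univ.filter (fun x : G => x ≠ 1 ∧ x ∈ CC (Q : Subgroup G))) := by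
    intro x hx
    rw [Finset.mem_filter] at hx
    obtain ⟨Q, hQ⟩ := label_iff.1 hx.2.2
    rw [Finset.mem_biUnion]
    exact ⟨Q, Finset.mem_univ _, by rw [Finset.mem_filter]; exact ⟨Finset.mem_univ _, hx.2.1, hQ⟩⟩
  have h3 : ∀ Q : Sylow p G, (Finset.univ.filter (fun x : G => x ≠ 1 ∧ x ∈ CC (Q : Subgroup G))).card =
      Nat.card (CC (R : Subgroup G)) - 1 := by
    intro Q
    have h4 : (Finset.univ.filter (fun x : G => x ≠ 1 ∧ x ∈ CC (Q : Subgroup G))) =
        (Finset.univ.filter (fun x : G => x ∈ CC (Q : Subgroup G))).erase 1 := by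
      ext x; simp
    rw [h4, Finset.card_erase_of_mem (by simp), card_CC_eq R Q, Nat.card_eq_fintype_card,
      Fintype.card_subtype]
  have h5 := (Finset.card_le_card h2).trans Finset.card_biUnion_le
  rw [Finset.sum_congr rfl (fun Q _ => h3 Q), Finset.sum_const, Finset.card_univ, smul_eq_mul,
    ← Nat.card_eq_fintype_card (α := Sylow p G), R.card_eq_index_normalizer] at h5
  rw [h1]
  have h6 : 1 ≤ Nat.card (CC (R : Subgroup G)) := Nat.card_pos
  calc _ ≤ (NN (R : Subgroup G)).index * (Nat.card (CC (R : Subgroup G)) - 1) + (NN (R : Subgroup G)).index := by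
        exact Nat.add_le_add_right h5 _
    _ = (NN (R : Subgroup G)).index * Nat.card (CC (R : Subgroup G)) := by
        rw [← Nat.mul_succ]; congr 1; omega

theorem count_label' {p : ℕ} [Fact p.Prime] (R : Sylow p G) :
    (CC (R : Subgroup G)).relIndex (NN (R : Subgroup G)) *
      (Nat.card {x : G // x ≠ 1 ∧ ¬ p ∣ (cz x).index} + (NN (R : Subgroup G)).index) ≤ Nat.card G := by
  have h1 := count_label R
  have h2 : (CC (R : Subgroup G)).relIndex (NN (R : Subgroup G)) *
      ((NN (R : Subgroup G)).index * Nat.card (CC (R : Subgroup G))) = Nat.card G := by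
    have h3 := Subgroup.relIndex_mul_index (CC_le_NN (R : Subgroup G))
    have h4 := Subgroup.card_mul_index (CC (R : Subgroup G))
    rw [← h4, ← h3]; ring
  rw [← h2]
  exact Nat.mul_le_mul_left _ h1

theorem NN_index_pos (R : Subgroup G) : 1 ≤ (NN R).index := Nat.one_le_iff_ne_zero.2 Subgroup.index_ne_zero_of_finite

/-- Burnside transfer -/
theorem al_ge_two [IsSimpleGroup G] (hna : ¬ ∀ a b : G, a * b = b * a) {p : ℕ} [Fact p.Prime] (hp : p ∣ Nat.card G)
    (R : Sylow p G) : 2 ≤ (CC (R : Subgroup G)).relIndex (NN (R : Subgroup G)) := by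
  by_contra h
  have h0 : (CC (R : Subgroup G)).relIndex (NN (R : Subgroup G)) ≠ 0 := Subgroup.index_ne_zero_of_finite
  have h1 : (CC (R : Subgroup G)).relIndex (NN (R : Subgroup G)) = 1 := by omega
  have h2 : NN (R : Subgroup G) ≤ CC (R : Subgroup G) := Subgroup.relIndex_eq_one.1 h1
  have h3 := MonoidHom.ker_transferSylow_isComplement' R h2
  rcases (inferInstance : (MonoidHom.transferSylow R h2).ker.Normal).eq_bot_or_eq_top with h4 | h4
  · rw [h4] at h3
    have h5 : (R : Subgroup G) = ⊤ := by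
      have := h3.card_mul_card
      rw [Subgroup.card_bot, one_mul] at this
      exact Subgroup.eq_top_of_card_eq _ this
    apply hna
    intro a b
    have ha : a ∈ (R : Subgroup G) := by rw [h5]; trivial
    have hb : b ∈ (R : Subgroup G) := by rw [h5]; trivial
    have h6 := h2 (Subgroup.le_normalizer hb)
    rw [Subgroup.mem_centralizer_iff] at h6
    exact h6 a ha
  · rw [h4] at h3
    have h5 := h3.card_mul_card
    rw [Subgroup.card_top] at h5
    have h6 : Nat.card (R : Subgroup G) = 1 := by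
      have : 0 < Nat.card G := Nat.card_pos
      exact Nat.eq_of_mul_eq_mul_left this (by rw [h5, mul_one])
    exact R.ne_bot_of_dvd_card hp (Subgroup.card_eq_one.1 h6)

end Cfsg.Agent.H35.TP
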