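import Cfsg.Agent.H35.TPa

/-!
# Groups whose class sizes have at most two prime divisors, part B: simple groups have three primes
-/

set_option autoImplicit false
set_option linter.style.haveILetI false
set_option linter.unusedSectionVars false

namespace Cfsg.Agent.H35.TP

open Cfsg.Agent.SC Cfsg.Agent.H35.CR Cfsg.Agent.H35.PS

universe u

/-- all class sizes have at most two prime divisors -/
def TwoPr (G : Type u) [Group G] : Prop := ∀ x : G, (cz x).index.primeFactors.card ≤ 2

/-- three primes, and each nontrivial element centralizes Sylow subgroups for exactly one prime -/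
structure Tri (G : Type u) [Group G] [Finite G] : Prop where
  h3 : (Nat.card G).primeFactors.card = 3
  lab : ∀ x : G, x ≠ 1 → ∃ r, r.Prime ∧ r ∣ Nat.card G ∧ ¬ r ∣ (cz x).index
  uniq : ∀ (x : G) (r s : ℕ), x ≠ 1 → r.Prime → s.Prime → r ∣ Nat.card G → s ∣ Nat.card G →
    ¬ r ∣ (cz x).index → ¬ s ∣ (cz x).index → r = s

variable {G : Type u} [Group G] [Finite G]

theorem card_ne_one_sub [DecidableEq G] [Fintype G] :
    (Finset.univ.filter (fun x : G => x ≠ 1)).card = Nat.card G - 1 := by
  rw [Finset.filter_ne', Finset.card_erase_of_mem (Finset.mem_univ _), Finset.card_univ, Nat.card_eq_fintype_card]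

open Classical in
theorem double_count (hP : TwoPr G) :
    ((Nat.card G).primeFactors.card - 2) * (Nat.card G - 1) ≤
      ∑ r ∈ (Nat.card G).primeFactors, Nat.card {x : G // x ≠ 1 ∧ ¬ r ∣ (cz x).index} := by
  haveI := Fintype.ofFinite G
  have h1 : ∀ r : ℕ, Nat.card {x : G // x ≠ 1 ∧ ¬ r ∣ (cz x).index} =
      ∑ x ∈ Finset.univ.filter (fun x : G => x ≠ 1), if ¬ r ∣ (cz x).index then 1 else 0 := by
    intro r
    rw [← Finset.sum_filter, Finset.filter_filter, Finset.sum_const, smul_eq_mul, mul_one, Nat.card_eq_fintype_card,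
      Fintype.card_subtype]
  rw [Finset.sum_congr rfl (fun r _ => h1 r), Finset.sum_comm]
  have h2 : ∀ x ∈ Finset.univ.filter (fun x : G => x ≠ 1), (Nat.card G).primeFactors.card - 2 ≤
      ∑ r ∈ (Nat.card G).primeFactors, if ¬ r ∣ (cz x).index then 1 else 0 := by
    intro x _
    rw [← Finset.sum_filter, Finset.sum_const, smul_eq_mul, mul_one]
    have h3 : (Nat.card G).primeFactors.filter (fun r => ¬ r ∣ (cz x).index) =
        (Nat.card G).primeFactors \ (cz x).index.primeFactors := by
      ext r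
      rw [Finset.mem_filter, Finset.mem_sdiff, Nat.mem_primeFactors, Nat.mem_primeFactors]
      constructor
      · rintro ⟨ha, hb⟩
        exact ⟨ha, fun hc => hb hc.2.1⟩
      · rintro ⟨ha, hb⟩
        exact ⟨ha, fun hc => hb ⟨ha.1, hc, Subgroup.index_ne_zero_of_finite⟩⟩
    rw [h3]
    have h4 := Finset.le_card_sdiff (cz x).index.primeFactors (Nat.card G).primeFactors
    have h5 := hP x
    omega
  calc _ = ∑ x ∈ Finset.univ.filter (fun x : G => x ≠ 1), ((Nat.card G).primeFactors.card - 2) := by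
        rw [Finset.sum_const, card_ne_one_sub, smul_eq_mul, mul_comm]
    _ ≤ _ := Finset.sum_le_sum h2

variable [IsSimpleGroup G]

theorem tri_of_twoPr (hna : ¬ ∀ a b : G, a * b = b * a) (hns : ¬ Group.IsSolvable G) (hP : TwoPr G) : Tri G := by
  classical
  haveI := Fintype.ofFinite G
  have hc0 : 0 < Nat.card G := Nat.card_pos
  have hk3 : 3 ≤ (Nat.card G).primeFactors.card := by
    by_contra h
    exact hns (Cfsg.Agent.H68.FO.solvable_of_two (by omega))
  have hk : (Nat.card G).primeFactors.card = 3 := by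
    by_contra hk
    have hk4 : 4 ≤ (Nat.card G).primeFactors.card := by omega
    have h1 := double_count hP
    have h2 : ∀ r ∈ (Nat.card G).primeFactors, 2 * Nat.card {x : G // x ≠ 1 ∧ ¬ r ∣ (cz x).index} ≤ Nat.card G - 2 := by
      intro r hr
      have hrp := Nat.prime_of_mem_primeFactors hr
      haveI : Fact r.Prime := ⟨hrp⟩
      have hrd := Nat.dvd_of_mem_primeFactors hr
      have h3 := count_label' (p := r) (G := G) default
      have h4 := al_ge_two hna hrd (default : Sylow r G)
      have h5 := NN_index_pos ((default : Sylow r G) : Subgroup G)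
      have h6 := (Nat.mul_le_mul_right (Nat.card {x : G // x ≠ 1 ∧ ¬ r ∣ (cz x).index} +
        (NN ((default : Sylow r G) : Subgroup G)).index) h4).trans h3
      omega
    have h3 := Finset.sum_le_sum h2
    rw [← Finset.mul_sum, Finset.sum_const, smul_eq_mul] at h3
    obtain ⟨j, hj⟩ := Nat.exists_eq_add_of_le hk4
    obtain ⟨m, hm⟩ : ∃ m, Nat.card G = m + 2 := by
      have : 1 < Nat.card G := Finite.one_lt_card
      exact ⟨Nat.card G - 2, by omega⟩
    rw [hj] at h1 h3
    have e1 : Nat.card G - 1 = m + 1 := by omega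
    have e2 : Nat.card G - 2 = m := by omega
    have e3 : 4 + j - 2 = j + 2 := by omega
    rw [e1, e3] at h1
    rw [e2] at h3
    nlinarith
  have hlab : ∀ x : G, x ≠ 1 → ((Nat.card G).primeFactors \ (cz x).index.primeFactors).card = 1 := by
    intro x hx
    have h4 := hP x
    have h5 : 2 ≤ (cz x).index.primeFactors.card := by
      by_contra h6
      have hn : (cz x).index ≠ 0 := Subgroup.index_ne_zero_of_finite
      have h0 := Nat.prod_factorization_pow_eq_self hn
      rw [Finsupp.prod, Nat.support_factorization] at h0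
      have h1 : (cz x).index.primeFactors.card = 0 ∨ (cz x).index.primeFactors.card = 1 := by omega
      rcases h1 with h1 | h1
      · rw [Finset.card_eq_zero] at h1
        rw [h1, Finset.prod_empty] at h0
        exact not_prime_power_index hna hx Nat.prime_two (k := 0) (by rw [← h0, pow_zero])
      · obtain ⟨a, ha⟩ := Finset.card_eq_one.1 h1
        have hap : a.Prime := Nat.prime_of_mem_primeFactors (by rw [ha]; exact Finset.mem_singleton_self a)
        rw [ha, Finset.prod_singleton] at h0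
        exact not_prime_power_index hna hx hap h0.symm
    have h6 : (cz x).index.primeFactors ⊆ (Nat.card G).primeFactors :=
      Nat.primeFactors_mono (Subgroup.index_dvd_card _) hc0.ne'
    rw [Finset.card_sdiff_of_subset h6]
    omega
  refine ⟨hk, ?_, ?_⟩
  · intro x hx
    obtain ⟨r, hr⟩ := Finset.card_eq_one.1 (hlab x hx)
    have h1 : r ∈ (Nat.card G).primeFactors \ (cz x).index.primeFactors := by rw [hr]; simp
    rw [Finset.mem_sdiff] at h1
    have hrp := Nat.prime_of_mem_primeFactors h1.1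
    exact ⟨r, hrp, Nat.dvd_of_mem_primeFactors h1.1,
      fun h => h1.2 (Nat.mem_primeFactors.2 ⟨hrp, h, Subgroup.index_ne_zero_of_finite⟩)⟩
  · intro x r s hx hr hs hrd hsd hrx hsx
    apply Finset.card_le_one.1 (hlab x hx).le
    · rw [Finset.mem_sdiff]
      exact ⟨Nat.mem_primeFactors.2 ⟨hr, hrd, hc0.ne'⟩, fun h => hrx (Nat.dvd_of_mem_primeFactors h)⟩
    · rw [Finset.mem_sdiff]
      exact ⟨Nat.mem_primeFactors.2 ⟨hs, hsd, hc0.ne'⟩, fun h => hsx (Nat.dvd_of_mem_primeFactors h)⟩

omit [IsSimpleGroup G]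

/-- commuting nontrivial elements of coprime orders have the same label -/
theorem Tri.common (T : Tri G) {x y : G} (hx : x ≠ 1) (hy : y ∈ cz x)
    (hcop : (orderOf x).Coprime (orderOf y)) : ∃ r, r.Prime ∧ r ∣ Nat.card G ∧ ¬ r ∣ (cz x).index ∧ ¬ r ∣ (cz (x * y)).index := by
  have hc : x * y = y * x := (mem_cz.1 hy).symm
  have hne : x * y ≠ 1 := by
    intro h
    have h2 : y = x⁻¹ := (inv_eq_of_mul_eq_one_right h).symm
    rw [h2, orderOf_inv, Nat.coprime_self, orderOf_eq_one_iff] at hcop
    exact hx hcop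
  obtain ⟨r, hr, hrd, hrx⟩ := T.lab _ hne
  exact ⟨r, hr, hrd, fun h => hrx (h.trans (index_dvd_of_cz_le (cz_mul_le hc hcop))), hrx⟩

theorem Tri.common' (T : Tri G) {x y : G} (hx : x ≠ 1) (hy : y ∈ cz x)
    (hcop : (orderOf x).Coprime (orderOf y)) : ∃ r, r.Prime ∧ r ∣ Nat.card G ∧ ¬ r ∣ (cz x).index ∧ ¬ r ∣ (cz y).index := by
  have hc : x * y = y * x := (mem_cz.1 hy).symm
  obtain ⟨r, hr, hrd, hrx, hrxy⟩ := T.common hx hy hcop
  exact ⟨r, hr, hrd, hrx, fun h => hrxy (h.trans (index_dvd_of_cz_le (cz_mul_le' hc hcop)))⟩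

/-- elements of an abelian Sylow subgroup -/
theorem Tri.cz_eq (T : Tri G) {p : ℕ} [hp : Fact p.Prime] (R : Sylow p G)
    (hR : ∀ a ∈ (R : Subgroup G), ∀ b ∈ (R : Subgroup G), a * b = b * a) {x : G} (hxR : x ∈ (R : Subgroup G))
    (hx : x ≠ 1) : cz x = CC (R : Subgroup G) := by
  have hRx : (R : Subgroup G) ≤ cz x := fun y hy => mem_cz.2 (hR y hy x hxR)
  have hlx : ¬ p ∣ (cz x).index := label_iff.2 ⟨R, mem_CC.2 hRx⟩
  have hpd : p ∣ Nat.card G := by
    have h1 : (R : Subgroup G) ≠ ⊥ := by
      intro h; rw [h] at hxR; exact hx hxR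
    have h2 : Nat.card (R : Subgroup G) ≠ 1 := fun h => h1 (Subgroup.card_eq_one.1 h)
    obtain ⟨n, hn⟩ := IsPGroup.iff_card.1 R.isPGroup'
    have hn0 : n ≠ 0 := by rintro rfl; exact h2 (by rw [hn, pow_zero])
    exact ((dvd_pow_self p hn0).trans (dvd_of_eq hn.symm)).trans (Subgroup.card_subgroup_dvd_card _)
  have hxp : Pel p x := Pel.of_mem_sylow hxR
  have hCx : CC (R : Subgroup G) ≤ cz x := by
    intro y hy
    rw [Subgroup.mem_centralizer_iff] at hy
    exact mem_cz.2 (hy x hxR).symm
  have hcov : ((CC (R : Subgroup G)).subgroupOf (cz x)) = ⊤ := by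
    apply Cfsg.Agent.H67.eq_top_of_conj_cover
    rintro ⟨g, hg⟩
    obtain ⟨a, w, ha, hw, hgw, hap, hwp⟩ := split g hp.out
    have hzg : Subgroup.zpowers g ≤ cz x := by
      rw [Subgroup.zpowers_le]; exact hg
    have hwx : w ∈ cz x := hzg hw
    have hcop : (orderOf x).Coprime (orderOf w) := Pel.coprime hp.out hxp hwp
    obtain ⟨r, hr, hrd, hrx, hrxw⟩ := T.common hx hwx hcop
    have hrp : r = p := T.uniq x r p hx hr hp.out hrd hpd hrx hlx
    subst hrp
    have hc : x * w = w * x := (mem_cz.1 hwx).symm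
    have haw : a * w = w * a := by
      obtain ⟨i, rfl⟩ := Subgroup.mem_zpowers_iff.1 ha
      obtain ⟨j, rfl⟩ := Subgroup.mem_zpowers_iff.1 hw
      rw [← zpow_add, ← zpow_add, add_comm]
    have hax : a ∈ cz (x * w) := by
      have h1 := mem_cz.1 (hzg ha)
      rw [mem_cz]
      calc a * (x * w) = (a * x) * w := by group
        _ = x * (a * w) := by rw [h1]; group
        _ = x * w * a := by rw [haw]; group
    obtain ⟨R1, hR1, haR1⟩ := exists_sylow_mem hrxw hax hap
    obtain ⟨h, hh, hhR⟩ := exists_conj_sylow (H := cz x) (P := R1) (Q := R) (hR1.trans (cz_mul_le hc hcop)) hRx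
    -- `g` centralizes `R1`
    have hg1 : ∀ y ∈ (R1 : Subgroup G), y * g = g * y := by
      intro y hy
      have h1 : y * a = a * y := by
        have h2 := hR _ ((hhR y).1 hy) _ ((hhR a).1 haR1)
        have h3 : h * y * h⁻¹ * (h * a * h⁻¹) = h * (y * a) * h⁻¹ := by group
        have h4 : h * a * h⁻¹ * (h * y * h⁻¹) = h * (a * y) * h⁻¹ := by group
        rw [h3, h4] at h2
        exact mul_left_cancel (mul_right_cancel h2)
      have h2 : y * w = w * y := mem_cz.1 ((cz_mul_le' hc hcop) (hR1 hy))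
      rw [hgw]
      calc y * (a * w) = (y * a) * w := by group
        _ = a * (y * w) := by rw [h1]; group
        _ = a * w * y := by rw [h2]; group
    refine ⟨⟨h, hh⟩, ?_⟩
    rw [Subgroup.mem_subgroupOf]
    show h * g * h⁻¹ ∈ CC (R : Subgroup G)
    rw [Subgroup.mem_centralizer_iff]
    intro y hy
    have hy1 : h⁻¹ * y * h ∈ (R1 : Subgroup G) := by
      rw [hhR]
      have : h * (h⁻¹ * y * h) * h⁻¹ = y := by group
      rw [this]; exact hy
    have h2 := hg1 _ hy1
    calc y * (h * g * h⁻¹) = h * ((h⁻¹ * y * h) * g) * h⁻¹ := by group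
      _ = h * (g * (h⁻¹ * y * h)) * h⁻¹ := by rw [h2]
      _ = _ := by group
  apply le_antisymm _ hCx
  rw [Subgroup.subgroupOf_eq_top] at hcov
  exact hcov

end Cfsg.Agent.H35.TP
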