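import Cfsg.Agent.H35.TPb

/-!
# Groups whose class sizes have at most two prime divisors, part C: nonabelian Sylow 2-subgroups, I
-/

set_option autoImplicit false
set_option linter.style.haveILetI false
set_option linter.unusedSectionVars false

namespace Cfsg.Agent.H35.TP

open Cfsg.Agent.SC Cfsg.Agent.H35.CR Cfsg.Agent.H35.PS

universe u

theorem center_index_ge {P : Type u} [Group P] [Finite P] {p : ℕ} [hp : Fact p.Prime] (hP : IsPGroup p P)
    (hna : ¬ ∀ a b : P, a * b = b * a) : p ^ 2 ≤ (Subgroup.center P).index := by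
  obtain ⟨n, hn⟩ := IsPGroup.iff_card.1 (hP.to_quotient (Subgroup.center P))
  rw [Subgroup.index, hn]
  apply Nat.pow_le_pow_right hp.out.pos
  by_contra h
  have h1 : n = 0 ∨ n = 1 := by omega
  apply hna
  have hc : IsCyclic (P ⧸ Subgroup.center P) := by
    rcases h1 with h1 | h1
    · rw [h1, pow_zero] at hn
      haveI : Subsingleton (P ⧸ Subgroup.center P) := (Nat.card_eq_one_iff_unique.1 hn).1
      infer_instance
    · rw [h1, pow_one] at hn
      exact isCyclic_of_prime_card hn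
  have h2 := MonoidHom.isMulCommutative_of_isCyclic_of_ker_le_center (QuotientGroup.mk' (Subgroup.center P))
    (by rw [QuotientGroup.ker_mk'])
  exact h2.is_comm.comm

theorem sq_mem_center {P : Type u} [Group P] [Finite P] (hP : IsPGroup 2 P)
    (hna : ¬ ∀ a b : P, a * b = b * a) (h4 : (Subgroup.center P).index < 8) (a : P) : a ^ 2 ∈ Subgroup.center P := by
  obtain ⟨n, hn⟩ := IsPGroup.iff_card.1 (hP.to_quotient (Subgroup.center P))
  have h8 := h4
  rw [Subgroup.index, hn] at h4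
  have hn3 : n < 3 := by
    by_contra h
    have : 2 ^ 3 ≤ 2 ^ n := Nat.pow_le_pow_right (by norm_num) (by omega)
    omega
  by_contra ha
  have ha' : ((a : P ⧸ Subgroup.center P)) ^ 2 ≠ 1 := by
    rw [← QuotientGroup.mk_pow, Ne, QuotientGroup.eq_one_iff]; exact ha
  have h5 : orderOf (a : P ⧸ Subgroup.center P) ∣ 2 ^ n := by rw [← hn]; exact orderOf_dvd_natCard _
  obtain ⟨m, hm, hm'⟩ := (Nat.dvd_prime_pow Nat.prime_two).1 h5
  have hm2 : 2 ≤ m := by
    by_contra h
    apply ha'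
    rw [← orderOf_dvd_iff_pow_eq_one, hm']
    calc 2 ^ m ∣ 2 ^ 1 := pow_dvd_pow 2 (by omega)
      _ = 2 := by norm_num
  have hmn : m = n := by omega
  apply hna
  haveI : IsCyclic (P ⧸ Subgroup.center P) := isCyclic_of_orderOf_eq_card (a : P ⧸ Subgroup.center P) (by
    rw [hm', hn, hmn])
  have h2 := MonoidHom.isMulCommutative_of_isCyclic_of_ker_le_center (QuotientGroup.mk' (Subgroup.center P))
    (by rw [QuotientGroup.ker_mk'])
  exact h2.is_comm.comm

variable {G : Type u} [Group G] [Finite G]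

/-- commutative subgroup -/
def Ab (R : Subgroup G) : Prop := ∀ a ∈ R, ∀ b ∈ R, a * b = b * a

theorem Ab.of_comm {R : Subgroup G} (h : ∀ a b : R, a * b = b * a) : Ab R := fun a ha b hb =>
  congrArg Subtype.val (h ⟨a, ha⟩ ⟨b, hb⟩)

theorem Ab.conj {p : ℕ} [Fact p.Prime] {R : Sylow p G} (h : Ab (R : Subgroup G)) (Q : Sylow p G) :
    Ab (Q : Subgroup G) := by
  obtain ⟨g, -, hg⟩ := exists_conj_sylow (H := ⊤) (P := Q) (Q := R) le_top le_top
  intro a ha b hb
  have h2 := h _ ((hg a).1 ha) _ ((hg b).1 hb)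
  have h3 : g * a * g⁻¹ * (g * b * g⁻¹) = g * (a * b) * g⁻¹ := by group
  have h4 : g * b * g⁻¹ * (g * a * g⁻¹) = g * (b * a) * g⁻¹ := by group
  rw [h3, h4] at h2
  exact mul_left_cancel (mul_right_cancel h2)

theorem CC_subgroupOf (R : Subgroup G) : (CC R).subgroupOf R = Subgroup.center R := by
  ext x
  rw [Subgroup.mem_subgroupOf, Subgroup.mem_centralizer_iff, Subgroup.mem_center_iff]
  exact ⟨fun h y => Subtype.ext (h y y.2), fun h y hy => congrArg Subtype.val (h ⟨y, hy⟩)⟩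

theorem relIndex_CC (R : Subgroup G) : (CC R).relIndex R = (Subgroup.center R).index := by
  rw [Subgroup.relIndex, CC_subgroupOf]

theorem al_ge_relIndex (R : Subgroup G) : (CC R).relIndex R ≤ (CC R).relIndex (NN R) :=
  Subgroup.relIndex_le_of_le_right Subgroup.le_normalizer Subgroup.index_ne_zero_of_finite

theorem al_ge_sq {p : ℕ} [hp : Fact p.Prime] {R : Sylow p G} (h : ¬ Ab (R : Subgroup G)) :
    p ^ 2 ≤ (CC (R : Subgroup G)).relIndex (NN (R : Subgroup G)) := by
  refine le_trans ?_ (al_ge_relIndex _)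
  rw [relIndex_CC]
  exact center_index_ge R.isPGroup' (fun h1 => h (Ab.of_comm h1))

/-- the number of labelled elements -/
noncomputable def Lc (G : Type u) [Group G] (r : ℕ) : ℕ := Nat.card {x : G // x ≠ 1 ∧ ¬ r ∣ (cz x).index}

theorem Tri.primes (T : Tri G) (h2 : 2 ∣ Nat.card G) : ∃ u v : ℕ, u.Prime ∧ v.Prime ∧ u ≠ 2 ∧ v ≠ 2 ∧ u ≠ v ∧
    (Nat.card G).primeFactors = {2, u, v} := by
  classical
  have h1 : 2 ∈ (Nat.card G).primeFactors := Nat.mem_primeFactors.2 ⟨Nat.prime_two, h2, Nat.card_pos.ne'⟩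
  have h3 : ((Nat.card G).primeFactors.erase 2).card = 2 := by
    rw [Finset.card_erase_of_mem h1, T.h3]
  obtain ⟨u, v, huv, h⟩ := Finset.card_eq_two.1 h3
  have hu : u ∈ (Nat.card G).primeFactors.erase 2 := by rw [h]; simp
  have hv : v ∈ (Nat.card G).primeFactors.erase 2 := by rw [h]; simp
  rw [Finset.mem_erase] at hu hv
  refine ⟨u, v, Nat.prime_of_mem_primeFactors hu.2, Nat.prime_of_mem_primeFactors hv.2, hu.1, hv.1, huv, ?_⟩
  rw [← h, Finset.insert_erase h1]

open Classical in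
theorem Tri.sum_labels (T : Tri G) {r s t : ℕ} (h : (Nat.card G).primeFactors = {r, s, t}) :
    Nat.card G - 1 ≤ Lc G r + Lc G s + Lc G t := by
  haveI := Fintype.ofFinite G
  have h1 : ∀ r : ℕ, Lc G r = (Finset.univ.filter (fun x : G => x ≠ 1 ∧ ¬ r ∣ (cz x).index)).card := by
    intro r
    rw [Lc, Nat.card_eq_fintype_card, Fintype.card_subtype]
  have h2 : Finset.univ.filter (fun x : G => x ≠ 1) ⊆
      (Finset.univ.filter (fun x : G => x ≠ 1 ∧ ¬ r ∣ (cz x).index) ∪
        Finset.univ.filter (fun x : G => x ≠ 1 ∧ ¬ s ∣ (cz x).index)) ∪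
        Finset.univ.filter (fun x : G => x ≠ 1 ∧ ¬ t ∣ (cz x).index) := by
    intro x hx
    rw [Finset.mem_filter] at hx
    obtain ⟨a, ha, had, hax⟩ := T.lab x hx.2
    have h3 : a ∈ (Nat.card G).primeFactors := Nat.mem_primeFactors.2 ⟨ha, had, Nat.card_pos.ne'⟩
    rw [h] at h3
    simp only [Finset.mem_insert, Finset.mem_singleton] at h3
    simp only [Finset.mem_union, Finset.mem_filter, Finset.mem_univ, true_and]
    rcases h3 with rfl | rfl | rfl
    · exact Or.inl (Or.inl ⟨hx.2, hax⟩)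
    · exact Or.inl (Or.inr ⟨hx.2, hax⟩)
    · exact Or.inr ⟨hx.2, hax⟩
  have h3 := Finset.card_le_card h2
  rw [card_ne_one_sub] at h3
  have h4 := Finset.card_union_le (Finset.univ.filter (fun x : G => x ≠ 1 ∧ ¬ r ∣ (cz x).index) ∪
        Finset.univ.filter (fun x : G => x ≠ 1 ∧ ¬ s ∣ (cz x).index))
        (Finset.univ.filter (fun x : G => x ≠ 1 ∧ ¬ t ∣ (cz x).index))
  have h5 := Finset.card_union_le (Finset.univ.filter (fun x : G => x ≠ 1 ∧ ¬ r ∣ (cz x).index))
        (Finset.univ.filter (fun x : G => x ≠ 1 ∧ ¬ s ∣ (cz x).index))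
  rw [h1, h1, h1]
  omega

theorem Lc_le {p : ℕ} [Fact p.Prime] (R : Sylow p G) {m : ℕ}
    (hm : m ≤ (CC (R : Subgroup G)).relIndex (NN (R : Subgroup G))) : m * (Lc G p + 1) ≤ Nat.card G := by
  have h1 := count_label' R
  have h2 := NN_index_pos (R : Subgroup G)
  calc m * (Lc G p + 1) ≤ (CC (R : Subgroup G)).relIndex (NN (R : Subgroup G)) * (Lc G p + (NN (R : Subgroup G)).index) :=
        Nat.mul_le_mul hm (by omega)
    _ ≤ _ := h1

variable [IsSimpleGroup G]

theorem Tri.even (T : Tri G) (hna : ¬ ∀ a b : G, a * b = b * a) : 2 ∣ Nat.card G := by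
  classical
  by_contra h2
  obtain ⟨r, s, t, -, -, -, h⟩ := Finset.card_eq_three.1 T.h3
  have h3 : ∀ p ∈ (Nat.card G).primeFactors, 3 * (Lc G p + 1) ≤ Nat.card G := by
    intro p hp
    haveI : Fact p.Prime := ⟨Nat.prime_of_mem_primeFactors hp⟩
    have h4 := al_ge_two hna (Nat.dvd_of_mem_primeFactors hp) (default : Sylow p G)
    refine Lc_le (default : Sylow p G) ?_
    by_contra h5
    have h6 : (CC ((default : Sylow p G) : Subgroup G)).relIndex (NN ((default : Sylow p G) : Subgroup G)) = 2 := by omega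
    apply h2
    rw [← h6]
    exact (Subgroup.relIndex_dvd_card _ _).trans (Subgroup.card_subgroup_dvd_card _)
  have h4 := T.sum_labels h
  have h5 := h3 r (by rw [h]; simp)
  have h6 := h3 s (by rw [h]; simp)
  have h7 := h3 t (by rw [h]; simp)
  omega

/-- odd Sylow subgroups are abelian if the Sylow 2-subgroup is not -/
theorem Tri.ab_of (T : Tri G) (hna : ¬ ∀ a b : G, a * b = b * a) {u v : ℕ} [hu : Fact u.Prime] [hv : Fact v.Prime]
    (hu2 : u ≠ 2) (h : (Nat.card G).primeFactors = {2, u, v})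
    (S : Sylow 2 G) (hS : ¬ Ab (S : Subgroup G)) (U : Sylow u G) : Ab (U : Subgroup G) := by
  by_contra hU
  have h1 := T.sum_labels h
  have hvd : v ∣ Nat.card G := Nat.dvd_of_mem_primeFactors (by rw [h]; simp)
  have h2 := Lc_le S (al_ge_sq hS)
  have h3 := Lc_le U (al_ge_sq hU)
  have h4 := Lc_le (default : Sylow v G) (al_ge_two hna hvd _)
  have h5 : 3 ≤ u := by have := hu.out.two_le; omega
  have h6 : 9 * (Lc G u + 1) ≤ u ^ 2 * (Lc G u + 1) := Nat.mul_le_mul_right _ (by nlinarith)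
  omega

omit [IsSimpleGroup G]

/-- the basic configuration with a nonabelian Sylow 2-subgroup -/
structure BB0 (G : Type u) [Group G] [Finite G] (u v : ℕ) : Prop where
  T : Tri G
  hu : u.Prime
  hv : v.Prime
  hu2 : u ≠ 2
  hv2 : v ≠ 2
  huv : u ≠ v
  hpf : (Nat.card G).primeFactors = {2, u, v}
  uab : ∀ U : Sylow u G, Ab (U : Subgroup G)
  vab : ∀ U : Sylow v G, Ab (U : Subgroup G)
  sab : ∀ S : Sylow 2 G, ¬ Ab (S : Subgroup G)

variable {u v : ℕ}

theorem BB0.symm (B : BB0 G u v) : BB0 G v u :=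
  { T := B.T, hu := B.hv, hv := B.hu, hu2 := B.hv2, hv2 := B.hu2, huv := B.huv.symm
    hpf := by rw [B.hpf, Finset.pair_comm]
    uab := B.vab, vab := B.uab, sab := B.sab }

theorem BB0.h2d (B : BB0 G u v) : 2 ∣ Nat.card G := Nat.dvd_of_mem_primeFactors (by rw [B.hpf]; simp)
theorem BB0.hud (B : BB0 G u v) : u ∣ Nat.card G := Nat.dvd_of_mem_primeFactors (by rw [B.hpf]; simp)
theorem BB0.hvd (B : BB0 G u v) : v ∣ Nat.card G := Nat.dvd_of_mem_primeFactors (by rw [B.hpf]; simp)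

theorem BB0.cases (B : BB0 G u v) {r : ℕ} (hr : r.Prime) (hrd : r ∣ Nat.card G) : r = 2 ∨ r = u ∨ r = v := by
  have h3 : r ∈ (Nat.card G).primeFactors := Nat.mem_primeFactors.2 ⟨hr, hrd, Nat.card_pos.ne'⟩
  rw [B.hpf] at h3
  simpa using h3

/-- an element of `u`-power order has label `u` -/
theorem BB0.label_u [hu : Fact u.Prime] (B : BB0 G u v) {x : G} (hx : Pel u x) : ¬ u ∣ (cz x).index := by
  obtain ⟨P, hP⟩ := hx.zpowers_isPGroup.exists_le_sylow
  exact label_iff.2 ⟨P, mem_CC.2 fun y hy => mem_cz.2 (B.uab P y hy x (hP (Subgroup.mem_zpowers x)))⟩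

/-- `u`-elements do not commute with elements of another label -/
theorem BB0.no_u [hu : Fact u.Prime] (B : BB0 G u v) {x y : G} (hx : x ≠ 1) (hy : y ≠ 1) {r : ℕ} (hr : r.Prime)
    (hrd : r ∣ Nat.card G) (hru : r ≠ u) (hxr : ¬ r ∣ (cz x).index) (hxu : ¬ u ∣ orderOf x) (hyu : Pel u y)
    (hyx : y ∈ cz x) : False := by
  obtain ⟨s, hs, hsd, hsx, hsy⟩ := B.T.common' hx hyx (Pel.coprime hu.out hyu hxu).symm
  have h1 := B.T.uniq x r s hx hr hs hrd hsd hxr hsx
  have h2 := B.T.uniq y u s hy B.hu hs B.hud hsd (B.label_u hyu) hsy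
  exact hru (h1.trans h2.symm)

theorem card_two_group {H : Subgroup G} {p : ℕ} [hp : Fact p.Prime] (h : ∀ r : ℕ, r.Prime → r ∣ Nat.card H → r = p) : IsPGroup p H := by
  rw [IsPGroup.iff_card]
  exact ⟨_, Nat.eq_prime_pow_of_unique_prime_dvd Nat.card_pos.ne' (fun hd hdd => h _ hd hdd)⟩

theorem orderOf_zp {S : Sylow 2 G} {z : G} (hz : z ∈ (S : Subgroup G)) {r : ℕ} (hr : r.Prime) (hr2 : r ≠ 2) : ¬ r ∣ orderOf z := by
  obtain ⟨k, hk⟩ := Pel.of_mem_sylow hz
  intro h
  have h1 : r ∣ 2 ^ k := h.trans (orderOf_dvd_of_pow_eq_one hk)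
  exact hr2 ((Nat.prime_dvd_prime_iff_eq hr Nat.prime_two).1 (hr.dvd_of_dvd_pow h1))

theorem BB0.cz_eq (B : BB0 G u v) {S : Sylow 2 G} {z : G} (hz : z ∈ (S : Subgroup G)) (hzc : z ∈ CC (S : Subgroup G))
    (hz1 : z ≠ 1) : cz z = (S : Subgroup G) := by
  haveI : Fact u.Prime := ⟨B.hu⟩
  haveI : Fact v.Prime := ⟨B.hv⟩
  have hSz : (S : Subgroup G) ≤ cz z := mem_CC.1 hzc
  have hl : ¬ 2 ∣ (cz z).index := label_iff.2 ⟨S, hzc⟩
  have h2g : IsPGroup 2 (cz z) := by
    apply card_two_group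
    intro r hr hrd
    by_contra hr2
    haveI : Fact r.Prime := ⟨hr⟩
    obtain ⟨⟨y, hy⟩, hyr⟩ := exists_prime_orderOf_dvd_card' r hrd
    have hyr' : orderOf y = r := by rw [← hyr, Subgroup.orderOf_mk]
    have hy1 : y ≠ 1 := ne_one_of_prime hr hyr'
    have hyp : Pel r y := ⟨1, by rw [pow_one, ← hyr', pow_orderOf_eq_one]⟩
    have hzr := orderOf_zp hz hr hr2
    rcases B.cases hr (hrd.trans (Subgroup.card_subgroup_dvd_card _)) with h | h | h
    · exact hr2 h
    · subst h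
      exact B.no_u hz1 hy1 Nat.prime_two B.h2d (Ne.symm hr2) hl hzr hyp hy
    · subst h
      exact B.symm.no_u hz1 hy1 Nat.prime_two B.h2d (Ne.symm hr2) hl hzr hyp hy
  exact S.is_maximal' h2g hSz

/-- the elements of label 2 -/
theorem BB0.CC_le (B : BB0 G u v) (S : Sylow 2 G) : CC (S : Subgroup G) ≤ (S : Subgroup G) := by
  intro x hx
  have hSne : (S : Subgroup G) ≠ ⊥ := S.ne_bot_of_dvd_card B.h2d
  obtain ⟨z, hzS, hz, hzc⟩ := exists_center_order S.isPGroup' hSne
  have hz1 := ne_one_of_prime Nat.prime_two hz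
  have hzC : z ∈ CC (S : Subgroup G) := mem_CC.2 fun y hy => mem_cz.2 (hzc y hy)
  rw [← B.cz_eq hzS hzC hz1]
  rw [Subgroup.mem_centralizer_iff] at hx
  exact mem_cz.2 (hx z hzS).symm

/-- (**) -/
theorem BB0.star (B : BB0 G u v) {S : Sylow 2 G} {y : G} (hy : y ∈ (S : Subgroup G)) (hyc : y ∉ CC (S : Subgroup G)) {k : ℕ}
    (hk : y ^ k ∈ CC (S : Subgroup G)) : y ^ k = 1 := by
  haveI : Fact u.Prime := ⟨B.hu⟩
  haveI : Fact v.Prime := ⟨B.hv⟩
  by_contra h1
  have hy1 : y ≠ 1 := by rintro rfl; exact h1 (one_pow k)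
  have h2 := B.cz_eq (B.CC_le S hk) hk h1
  have h3 : cz y ≤ (S : Subgroup G) := by rw [← h2]; exact cz_le_pow y k
  obtain ⟨r, hr, hrd, hry⟩ := B.T.lab y hy1
  haveI : Fact r.Prime := ⟨hr⟩
  obtain ⟨P, hP⟩ := exists_sylow_le hry
  have h4 : (P : Subgroup G) ≤ (S : Subgroup G) := hP.trans h3
  have hr2 : r = 2 := by
    by_contra hr2
    obtain ⟨z, hzP, hz, hzc⟩ := exists_center_order P.isPGroup' (P.ne_bot_of_dvd_card hrd)
    exact orderOf_zp (h4 hzP) hr hr2 (by rw [hz])
  subst hr2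
  have h5 : (P : Subgroup G) = (S : Subgroup G) := P.is_maximal' S.isPGroup' h4 |>.symm
  exact hyc (mem_CC.2 (h5 ▸ hP))

theorem BB0.elem (B : BB0 G u v) {S : Sylow 2 G} {z : G} (hz : z ∈ CC (S : Subgroup G)) : z ^ 2 = 1 := by
  have hSn := B.sab S
  -- an element of `S ∖ Z(S)` with square in `Z(S)`
  obtain ⟨y, hyS, hyc, hy2⟩ : ∃ y ∈ (S : Subgroup G), y ∉ CC (S : Subgroup G) ∧ y ^ 2 ∈ CC (S : Subgroup G) := by
    by_contra hcon
    push Not at hcon
    apply hSn
    intro a ha b hb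
    have h1 : a ∈ CC (S : Subgroup G) := by
      obtain ⟨k, hk⟩ := Pel.of_mem_sylow ha
      have h2 : ∀ j : ℕ, j ≤ k → a ^ 2 ^ (k - j) ∈ CC (S : Subgroup G) := by
        intro j
        induction j with
        | zero => intro _; rw [Nat.sub_zero, hk]; exact Subgroup.one_mem _
        | succ j ih =>
          intro hj
          by_contra hc
          apply hcon _ (Subgroup.pow_mem _ ha _) hc
          rw [← pow_mul, ← pow_succ]
          have : k - (j + 1) + 1 = k - j := by omega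
          rw [this]
          exact ih (by omega)
      have h3 := h2 k le_rfl
      rwa [Nat.sub_self, pow_zero, pow_one] at h3
    rw [Subgroup.mem_centralizer_iff] at h1
    exact (h1 b hb).symm
  have hy1 := B.star hyS hyc hy2
  have hyz : y * z ∉ CC (S : Subgroup G) := fun h => hyc (by
    have := Subgroup.mul_mem _ h (Subgroup.inv_mem _ hz)
    rwa [mul_inv_cancel_right] at this)
  have hcomm : y * z = z * y := by
    rw [Subgroup.mem_centralizer_iff] at hz
    exact hz y hyS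
  have h2 : (y * z) ^ 2 = z ^ 2 := by
    rw [(show Commute y z from hcomm).mul_pow, hy1, one_mul]
  have h3 := B.star (Subgroup.mul_mem _ hyS (B.CC_le S hz)) hyz (k := 2) (by rw [h2]; exact Subgroup.pow_mem _ hz 2)
  rwa [h2] at h3

theorem BB0.al_eight (B : BB0 G u v) (S : Sylow 2 G) : 8 ≤ (CC (S : Subgroup G)).relIndex (NN (S : Subgroup G)) := by
  refine le_trans ?_ (al_ge_relIndex _)
  by_contra h
  rw [relIndex_CC] at h
  have h1 : ¬ ∀ a b : (S : Subgroup G), a * b = b * a := fun h1 => B.sab S (Ab.of_comm h1)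
  have h2 := sq_mem_center S.isPGroup' h1 (by omega)
  apply h1
  have h3 : ∀ a : (S : Subgroup G), a ^ 2 = 1 := by
    intro a
    have h4 := h2 a
    rw [← CC_subgroupOf, Subgroup.mem_subgroupOf] at h4
    apply Subtype.ext
    by_cases ha : (a : G) ∈ CC (S : Subgroup G)
    · exact B.elem ha
    · exact B.star a.2 ha h4
  intro a b
  have ha := h3 a
  have hb := h3 b
  have hab := h3 (a * b)
  have ia : a⁻¹ = a := inv_eq_of_mul_eq_one_right (by rw [← sq]; exact ha)
  have ib : b⁻¹ = b := inv_eq_of_mul_eq_one_right (by rw [← sq]; exact hb)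
  have iab : (a * b)⁻¹ = a * b := inv_eq_of_mul_eq_one_right (by rw [← sq]; exact hab)
  rw [mul_inv_rev, ia, ib] at iab
  exact iab.symm

theorem BB0.al_u [IsSimpleGroup G] (B : BB0 G u v) (hna : ¬ ∀ a b : G, a * b = b * a) [hu : Fact u.Prime] (U : Sylow u G) :
    (CC (U : Subgroup G)).relIndex (NN (U : Subgroup G)) = 2 := by
  haveI : Fact v.Prime := ⟨B.hv⟩
  have h1 := B.T.sum_labels B.hpf
  have h2 := Lc_le (default : Sylow 2 G) (B.al_eight _)
  have h4 := Lc_le (default : Sylow v G) (al_ge_two hna B.hvd _)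
  have h5 := al_ge_two hna B.hud U
  by_contra h6
  have h3 := Lc_le (m := 3) U (by omega)
  omega

end Cfsg.Agent.H35.TP
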