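import Cfsg.Agent.H35.TPc
import Cfsg.Agent.H63.PG
import Cfsg.Agent.H91.SolvPCore

/-!
# Groups whose class sizes have at most two prime divisors, part D: nonabelian Sylow 2-subgroups, II
-/

set_option autoImplicit false
set_option linter.style.haveILetI false
set_option linter.unusedSectionVars false

namespace Cfsg.Agent.H35.TP

open Cfsg.Agent.SC Cfsg.Agent.H35.CR Cfsg.Agent.H35.PS

universe u

variable {G : Type u} [Group G] [Finite G]

/-- the full configuration -/
structure BB (G : Type u) [Group G] [Finite G] (u v : ℕ) : Prop extends BB0 G u v where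
  au : ∀ [Fact u.Prime] (U : Sylow u G), (CC (U : Subgroup G)).relIndex (NN (U : Subgroup G)) = 2
  av : ∀ [Fact v.Prime] (U : Sylow v G), (CC (U : Subgroup G)).relIndex (NN (U : Subgroup G)) = 2

variable {u v : ℕ}

theorem BB.swap (B : BB G u v) : BB G v u := { B.toBB0.symm with au := B.av, av := B.au }

variable [hu : Fact u.Prime]

theorem BB0.exists_mem (B : BB0 G u v) (U : Sylow u G) : ∃ x ∈ (U : Subgroup G), x ≠ 1 := by
  obtain ⟨x, hx, hx', -⟩ := exists_center_order U.isPGroup' (U.ne_bot_of_dvd_card B.hud)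
  exact ⟨x, hx, ne_one_of_prime B.hu hx'⟩

theorem BB0.not_v (B : BB0 G u v) (U : Sylow u G) : ¬ v ∣ Nat.card (CC (U : Subgroup G)) := by
  intro h
  haveI : Fact v.Prime := ⟨B.hv⟩
  obtain ⟨x, hxU, hx1⟩ := B.exists_mem U
  obtain ⟨⟨y, hy⟩, hyr⟩ := exists_prime_orderOf_dvd_card' v h
  have hyr' : orderOf y = v := by rw [← hyr, Subgroup.orderOf_mk]
  have hy1 : y ≠ 1 := ne_one_of_prime B.hv hyr'
  have hxp := Pel.of_mem_sylow hxU
  refine B.symm.no_u hx1 hy1 B.hu B.hud B.huv (B.label_u hxp) ?_ ⟨1, by rw [pow_one, ← hyr', pow_orderOf_eq_one]⟩ ?_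
  · intro h1
    obtain ⟨k, hk⟩ := hxp
    exact B.huv ((Nat.prime_dvd_prime_iff_eq B.hv B.hu).1 (B.hv.dvd_of_dvd_pow (h1.trans (orderOf_dvd_of_pow_eq_one hk)))).symm
  · rw [Subgroup.mem_centralizer_iff] at hy
    exact mem_cz.2 (hy x hxU).symm

theorem BB0.cz_eq_CC (B : BB0 G u v) {U : Sylow u G} {x : G} (hx : x ∈ (U : Subgroup G)) (hx1 : x ≠ 1) :
    cz x = CC (U : Subgroup G) := B.T.cz_eq U (B.uab U) hx hx1

theorem BB0.le_CC (B : BB0 G u v) (U : Sylow u G) : (U : Subgroup G) ≤ CC (U : Subgroup G) := by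
  intro x hx
  rw [Subgroup.mem_centralizer_iff]
  intro y hy
  exact B.uab U y hy x hx

/-- the Hall 2-subgroup of the centralizer of a Sylow `u`-subgroup -/
theorem BB0.exK (B : BB0 G u v) (U : Sylow u G) : ∃ K : Subgroup G, K ≤ CC (U : Subgroup G) ∧ IsPGroup 2 K ∧
    (∀ g ∈ CC (U : Subgroup G), Pel 2 g → g ∈ K) ∧
    Nat.card (CC (U : Subgroup G)) = Nat.card U * Nat.card K := by
  let P : Sylow u (CC (U : Subgroup G)) := U.subtype (B.le_CC U)
  have hmemP : ∀ x : CC (U : Subgroup G), x ∈ (P : Subgroup (CC (U : Subgroup G))) ↔ (x : G) ∈ (U : Subgroup G) := fun x => Iff.rfl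
  have hP : Subgroup.normalizer ((P : Subgroup (CC (U : Subgroup G))) : Set (CC (U : Subgroup G))) ≤
      Subgroup.centralizer ((P : Subgroup (CC (U : Subgroup G))) : Set (CC (U : Subgroup G))) := by
    intro x _
    rw [Subgroup.mem_centralizer_iff]
    intro y hy
    have h1 := x.2
    rw [Subgroup.mem_centralizer_iff] at h1
    exact Subtype.ext (h1 y hy)
  set k := (MonoidHom.transferSylow P hP).ker with hk
  have h1 := MonoidHom.ker_transferSylow_isComplement' P hP
  have h2 := h1.card_mul_card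
  have h3 := MonoidHom.not_dvd_card_ker_transferSylow P hP
  have h4 : Nat.card (k.map (CC (U : Subgroup G)).subtype) = Nat.card k :=
    Subgroup.card_map_of_injective (CC (U : Subgroup G)).subtype_injective
  have h5 : Nat.card P = Nat.card U := Nat.card_congr (Subgroup.subgroupOfEquivOfLe (B.le_CC U)).toEquiv
  refine ⟨k.map (CC (U : Subgroup G)).subtype, Subgroup.map_subtype_le _, ?_, ?_, ?_⟩
  · apply card_two_group
    intro r hr hrd
    rw [h4] at hrd
    rcases B.cases hr ((hrd.trans (Subgroup.card_subgroup_dvd_card _)).trans (Subgroup.card_subgroup_dvd_card _)) with h | h | h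
    · exact h
    · subst h
      exact absurd hrd h3
    · subst h
      exact absurd (hrd.trans (Subgroup.card_subgroup_dvd_card _)) (B.not_v U)
  · intro g hg hg2
    refine ⟨⟨g, hg⟩, ?_, rfl⟩
    show MonoidHom.transferSylow P hP ⟨g, hg⟩ = 1
    obtain ⟨j, hj⟩ := hg2
    obtain ⟨i, hi⟩ := P.isPGroup' (MonoidHom.transferSylow P hP ⟨g, hg⟩)
    have h6 : (MonoidHom.transferSylow P hP ⟨g, hg⟩) ^ 2 ^ j = 1 := by
      rw [← map_pow]
      have : (⟨g, hg⟩ : CC (U : Subgroup G)) ^ 2 ^ j = 1 := Subtype.ext hj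
      rw [this, map_one]
    rw [← orderOf_eq_one_iff]
    have h7 := orderOf_dvd_of_pow_eq_one h6
    have h8 := orderOf_dvd_of_pow_eq_one hi
    exact Nat.eq_one_of_dvd_coprimes
      (Nat.Coprime.pow j i ((Nat.coprime_primes Nat.prime_two hu.out).2 (Ne.symm B.hu2))) h7 h8
  · rw [h4, ← h5, mul_comm]
    exact h2.symm

theorem BB0.sylow_eq (B : BB0 G u v) {U U' : Sylow u G} {x : G} (hx : x ∈ (U : Subgroup G)) (hx' : x ∈ (U' : Subgroup G))
    (hx1 : x ≠ 1) : U = U' := by
  have h1 : CC (U : Subgroup G) = CC (U' : Subgroup G) := by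
    rw [← B.cz_eq_CC hx hx1, ← B.cz_eq_CC hx' hx1]
  have h2 : (U' : Subgroup G) ≤ (U : Subgroup G) := by
    intro y hy
    apply (Pel.of_mem_sylow hy).mem_sylow
    apply CC_le_NN
    rw [h1]
    exact B.le_CC U' hy
  exact Sylow.ext (U'.is_maximal' U.isPGroup' h2)

theorem BB0.sylow_eq_of_NN (B : BB0 G u v) {U U' : Sylow u G} {x : G} (hx : x ∈ (U : Subgroup G)) (hx' : x ∈ NN (U' : Subgroup G))
    (hx1 : x ≠ 1) : U = U' := B.sylow_eq hx ((Pel.of_mem_sylow hx).mem_sylow hx') hx1

theorem dvd_of_free {A : Type*} {T : Type*} [Group A] [MulAction A T] [Finite T] [Finite A]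
    (h : ∀ (a : A) (t : T), a • t = t → a = 1) : Nat.card A ∣ Nat.card T := by
  classical
  have e := MulAction.selfEquivSigmaOrbitsQuotientStabilizer A T
  rw [Nat.card_congr e]
  haveI : Fintype (Quotient (MulAction.orbitRel A T)) := Fintype.ofFinite _
  rw [Nat.card_sigma]
  apply Finset.dvd_sum
  intro ω _
  have h1 : MulAction.stabilizer A ω.out = ⊥ := by
    rw [eq_bot_iff]
    intro a ha
    exact h a _ ha
  rw [h1]
  have : Nat.card (A ⧸ (⊥ : Subgroup A)) = Nat.card A := by
    rw [← Subgroup.index, Subgroup.index_bot]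
  rw [this]

/-- the number of Sylow `u`-subgroups is `1` modulo `|U|` -/
theorem BB0.card_sylow_mod (B : BB0 G u v) (U : Sylow u G) : Nat.card U ∣ (NN (U : Subgroup G)).index - 1 := by
  classical
  haveI : Fintype (Sylow u G) := Fintype.ofFinite _
  have hfix : ∀ g : (U : Subgroup G), (g : G) • U = U := fun g =>
    Sylow.smul_eq_iff_mem_normalizer.2 (Subgroup.le_normalizer g.2)
  let T : SubMulAction (U : Subgroup G) (Sylow u G) :=
    { carrier := {R | R ≠ U}
      smul_mem' := by
        intro g R hR h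
        apply hR
        have h1 : (g : G) • R = (g : G) • U := by rw [hfix g]; exact h
        exact smul_left_cancel _ h1 }
  have h1 : Nat.card (U : Subgroup G) ∣ Nat.card T := by
    apply dvd_of_free
    intro g t ht
    by_contra hg
    have hg1 : (g : G) ≠ 1 := fun h => hg (Subtype.ext h)
    have h2 : (g : G) • (t : Sylow u G) = t := congrArg Subtype.val ht
    exact t.2 (B.sylow_eq_of_NN g.2 (Sylow.smul_eq_iff_mem_normalizer.1 h2) hg1).symm
  have h2 : Nat.card T = Nat.card (Sylow u G) - 1 := by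
    have h3 : Nat.card T = Nat.card {R : Sylow u G // R ≠ U} := rfl
    rw [h3, Nat.card_eq_fintype_card, Fintype.card_subtype, Finset.filter_ne', Finset.card_erase_of_mem (Finset.mem_univ _),
      Finset.card_univ, Nat.card_eq_fintype_card]
  have h3 : (NN (U : Subgroup G)).index = Nat.card (Sylow u G) := U.card_eq_index_normalizer.symm
  rw [h3, ← h2]
  exact h1

/-- the number of Sylow subgroups centralized by an element -/
noncomputable def rho (p : ℕ) (x : G) : ℕ := Nat.card {R : Sylow p G // x ∈ CC (R : Subgroup G)}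

open Classical in
theorem rho_sum [Fintype G] {p : ℕ} [Fact p.Prime] (Pr : G → Prop) {m : ℕ}
    (hm : ∀ R : Sylow p G, Nat.card {x : G // x ∈ CC (R : Subgroup G) ∧ Pr x} = m) :
    ∑ x ∈ Finset.univ.filter Pr, rho p x = Nat.card (Sylow p G) * m := by
  haveI : Fintype (Sylow p G) := Fintype.ofFinite _
  have h1 : ∀ x : G, rho p x = ∑ R : Sylow p G, if x ∈ CC (R : Subgroup G) then 1 else 0 := by
    intro x
    rw [rho, Nat.card_eq_fintype_card, Fintype.card_subtype, ← Finset.sum_filter, Finset.sum_const, smul_eq_mul, mul_one]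
  rw [Finset.sum_congr rfl (fun x _ => h1 x), Finset.sum_comm]
  have h2 : ∀ R : Sylow p G, (∑ x ∈ Finset.univ.filter Pr, if x ∈ CC (R : Subgroup G) then 1 else 0) = m := by
    intro R
    rw [← hm R, Nat.card_eq_fintype_card, Fintype.card_subtype, ← Finset.sum_filter, Finset.sum_const, smul_eq_mul, mul_one,
      Finset.filter_filter]
    congr 1
    ext x
    simp only [Finset.mem_filter, Finset.mem_univ, true_and]
    tauto
  rw [Finset.sum_congr rfl (fun R _ => h2 R), Finset.sum_const, Finset.card_univ, smul_eq_mul, Nat.card_eq_fintype_card]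

open Classical in
theorem rho_bound {p : ℕ} [Fact p.Prime] (Pr : G → Prop) {m t : ℕ}
    (hm : ∀ R : Sylow p G, Nat.card {x : G // x ∈ CC (R : Subgroup G) ∧ Pr x} = m)
    (ht : ∀ x : G, Pr x → ¬ p ∣ (cz x).index → t ≤ rho p x) :
    t * Nat.card {x : G // Pr x ∧ ¬ p ∣ (cz x).index} ≤ Nat.card (Sylow p G) * m := by
  haveI := Fintype.ofFinite G
  rw [← rho_sum Pr hm, Nat.card_eq_fintype_card, Fintype.card_subtype]
  have h1 : Finset.univ.filter (fun x : G => Pr x ∧ ¬ p ∣ (cz x).index) ⊆ Finset.univ.filter Pr := by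
    intro x hx
    rw [Finset.mem_filter] at hx ⊢
    exact ⟨hx.1, hx.2.1⟩
  calc t * (Finset.univ.filter (fun x : G => Pr x ∧ ¬ p ∣ (cz x).index)).card =
      ∑ x ∈ Finset.univ.filter (fun x : G => Pr x ∧ ¬ p ∣ (cz x).index), t := by
        rw [Finset.sum_const, smul_eq_mul, mul_comm]
    _ ≤ ∑ x ∈ Finset.univ.filter (fun x : G => Pr x ∧ ¬ p ∣ (cz x).index), rho p x := by
        apply Finset.sum_le_sum
        intro x hx
        rw [Finset.mem_filter] at hx
        exact ht x hx.2.1 hx.2.2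
    _ ≤ _ := Finset.sum_le_sum_of_subset h1

theorem rho_pos {p : ℕ} [Fact p.Prime] {x : G} (h : ¬ p ∣ (cz x).index) : 1 ≤ rho p x := by
  obtain ⟨R, hR⟩ := label_iff.1 h
  haveI : Nonempty {R : Sylow p G // x ∈ CC (R : Subgroup G)} := ⟨⟨R, hR⟩⟩
  exact Nat.card_pos

open Classical in
/-- strict version of the count -/
theorem count_strict {p : ℕ} [Fact p.Prime] (R : Sylow p G) {y : G} (hy1 : y ≠ 1) (hy : 2 ≤ rho p y) :
    Lc G p + 1 + (NN (R : Subgroup G)).index ≤ (NN (R : Subgroup G)).index * Nat.card (CC (R : Subgroup G)) := by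
  haveI := Fintype.ofFinite G
  have hm : ∀ Q : Sylow p G, Nat.card {x : G // x ∈ CC (Q : Subgroup G) ∧ x ≠ 1} = Nat.card (CC (R : Subgroup G)) - 1 := by
    intro Q
    rw [card_CC_eq R Q, Nat.card_eq_fintype_card, Fintype.card_subtype]
    have h4 : (Finset.univ.filter (fun x : G => x ∈ CC (Q : Subgroup G) ∧ x ≠ 1)) =
        (Finset.univ.filter (fun x : G => x ∈ CC (Q : Subgroup G))).erase 1 := by
      ext x; simp [and_comm]
    rw [h4, Finset.card_erase_of_mem (by simp), Nat.card_eq_fintype_card, Fintype.card_subtype]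
  have h1 : ∑ x ∈ Finset.univ.filter (fun x : G => x ≠ 1), rho p x =
      Nat.card (Sylow p G) * (Nat.card (CC (R : Subgroup G)) - 1) := by
    convert rho_sum (p := p) (fun x : G => x ≠ 1) hm
  have hy' : ¬ p ∣ (cz y).index := by
    rw [label_iff]
    by_contra h
    push Not at h
    have h2 : rho p y = 0 := by
      rw [rho]
      haveI : IsEmpty {R : Sylow p G // y ∈ CC (R : Subgroup G)} := ⟨fun R => h R.1 R.2⟩
      exact Nat.card_of_isEmpty
    omega
  have h2 : Lc G p < ∑ x ∈ Finset.univ.filter (fun x : G => x ≠ 1), rho p x := by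
    rw [Lc, Nat.card_eq_fintype_card, Fintype.card_subtype]
    have h1 : Finset.univ.filter (fun x : G => x ≠ 1 ∧ ¬ p ∣ (cz x).index) ⊆ Finset.univ.filter (fun x : G => x ≠ 1) := by
      intro x hx
      rw [Finset.mem_filter] at hx ⊢
      exact ⟨hx.1, hx.2.1⟩
    calc (Finset.univ.filter (fun x : G => x ≠ 1 ∧ ¬ p ∣ (cz x).index)).card =
        ∑ x ∈ Finset.univ.filter (fun x : G => x ≠ 1 ∧ ¬ p ∣ (cz x).index), 1 := by
          rw [Finset.sum_const, smul_eq_mul, mul_one]
      _ < ∑ x ∈ Finset.univ.filter (fun x : G => x ≠ 1 ∧ ¬ p ∣ (cz x).index), rho p x := by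
          apply Finset.sum_lt_sum
          · intro x hx
            rw [Finset.mem_filter] at hx
            exact rho_pos hx.2.2
          · exact ⟨y, by rw [Finset.mem_filter]; exact ⟨Finset.mem_univ _, hy1, hy'⟩, hy⟩
      _ ≤ _ := Finset.sum_le_sum_of_subset h1
  rw [h1, R.card_eq_index_normalizer] at h2
  change Lc G p < (NN (R : Subgroup G)).index * _ at h2
  have h6 : 1 ≤ Nat.card (CC (R : Subgroup G)) := Nat.card_pos
  calc _ ≤ (NN (R : Subgroup G)).index * (Nat.card (CC (R : Subgroup G)) - 1) + (NN (R : Subgroup G)).index := by omega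
    _ = (NN (R : Subgroup G)).index * Nat.card (CC (R : Subgroup G)) := by
        rw [← Nat.mul_succ]; congr 1; omega

end Cfsg.Agent.H35.TP
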