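import Cfsg.Agent.H35.TPd

/-!
# Groups whose class sizes have at most two prime divisors, part E: nonabelian Sylow 2-subgroups, III
-/

set_option autoImplicit false
set_option linter.style.haveILetI false
set_option linter.unusedSectionVars false

namespace Cfsg.Agent.H35.TP

open Cfsg.Agent.SC Cfsg.Agent.H35.CR Cfsg.Agent.H35.PS

universe u

variable {G : Type u} [Group G] [Finite G]

/-- local configuration around a 2-element centralizing a Sylow `u`-subgroup -/
structure Loc {u : ℕ} (U : Sylow u G) (K T0 : Subgroup G) (y : G) : Prop where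
  hKC : K ≤ CC (U : Subgroup G)
  hK2 : IsPGroup 2 K
  hKm : ∀ g ∈ CC (U : Subgroup G), Pel 2 g → g ∈ K
  hcard : Nat.card (CC (U : Subgroup G)) = Nat.card U * Nat.card K
  hKT : K ≤ T0
  hTN : T0 ≤ NN (U : Subgroup G)
  hT2 : IsPGroup 2 T0
  hTc : Nat.card T0 = 2 * Nat.card K
  hyK : y ∈ K
  hy1 : y ≠ 1
  hTy : T0 ≤ cz y
  hmax : ∀ Q : Subgroup G, IsPGroup 2 Q → T0 ≤ Q → Q ≤ NN (U : Subgroup G) → Q = T0

theorem conj_mem_CC {R : Subgroup G} {n g : G} (hn : n ∈ NN R) (hg : g ∈ CC R) : n * g * n⁻¹ ∈ CC R := by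
  rw [Subgroup.mem_centralizer_iff] at hg ⊢
  intro z hz
  have h1 : n⁻¹ * z * n ∈ R := by
    have := (Subgroup.mem_normalizer_iff.1 (Subgroup.inv_mem _ hn) z).1 hz
    rwa [inv_inv] at this
  have h2 := hg _ h1
  calc z * (n * g * n⁻¹) = n * ((n⁻¹ * z * n) * g) * n⁻¹ := by group
    _ = n * (g * (n⁻¹ * z * n)) * n⁻¹ := by rw [h2]
    _ = _ := by group

theorem pel_conj {p : ℕ} {x : G} (h : Pel p x) (n : G) : Pel p (n * x * n⁻¹) := by
  obtain ⟨k, hk⟩ := h
  exact ⟨k, by rw [conj_pow, hk]; group⟩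

variable {u v : ℕ} [hu : Fact u.Prime]

theorem card_U_odd (B : BB0 G u v) (U : Sylow u G) : (Nat.card U).Coprime 2 := by
  obtain ⟨n, hn⟩ := IsPGroup.iff_card.1 U.isPGroup'
  have : Nat.card U = u ^ n := hn
  rw [this]
  exact Nat.Coprime.pow_left n ((Nat.coprime_primes hu.out Nat.prime_two).2 B.hu2)

theorem BB.card_NN (B : BB G u v) (U : Sylow u G) : Nat.card (NN (U : Subgroup G)) = 2 * Nat.card (CC (U : Subgroup G)) := by
  have h1 := Subgroup.card_mul_index ((CC (U : Subgroup G)).subgroupOf (NN (U : Subgroup G)))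
  have h2 : ((CC (U : Subgroup G)).subgroupOf (NN (U : Subgroup G))).index = 2 := B.au U
  have h3 : Nat.card ((CC (U : Subgroup G)).subgroupOf (NN (U : Subgroup G))) = Nat.card (CC (U : Subgroup G)) :=
    Nat.card_congr (Subgroup.subgroupOfEquivOfLe (CC_le_NN _)).toEquiv
  rw [h2, h3] at h1
  rw [← h1, mul_comm]

theorem BB.exLoc (B : BB G u v) {y0 : G} (hy1 : y0 ≠ 1) (hy2 : Pel 2 y0) (hyl : ¬ u ∣ (cz y0).index) :
    ∃ (U : Sylow u G) (K T0 : Subgroup G) (y : G), Loc U K T0 y := by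
  obtain ⟨U, hU⟩ := label_iff.1 hyl
  obtain ⟨K, hKC, hK2, hKm, hcard⟩ := B.exK U
  have hKN : K ≤ NN (U : Subgroup G) := hKC.trans (CC_le_NN _)
  have hK' : IsPGroup 2 (K.subgroupOf (NN (U : Subgroup G))) :=
    hK2.of_equiv (Subgroup.subgroupOfEquivOfLe hKN).symm
  obtain ⟨Q, hQ⟩ := hK'.exists_le_sylow
  set T0 := (Q : Subgroup (NN (U : Subgroup G))).map (NN (U : Subgroup G)).subtype with hT0
  have hKT : K ≤ T0 := by
    intro g hg
    exact ⟨⟨g, hKN hg⟩, hQ (Subgroup.mem_subgroupOf.2 hg), rfl⟩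
  have hT2 : IsPGroup 2 T0 := Q.isPGroup'.map _
  have hTN : T0 ≤ NN (U : Subgroup G) := Subgroup.map_subtype_le _
  have hTc : Nat.card T0 = 2 * Nat.card K := by
    have h1 : Nat.card T0 = Nat.card Q := Subgroup.card_map_of_injective (NN (U : Subgroup G)).subtype_injective
    have h2 : Nat.card Q = 2 ^ (Nat.card (NN (U : Subgroup G))).factorization 2 := Q.card_eq_multiplicity
    obtain ⟨m, hm⟩ := IsPGroup.iff_card.1 hK2
    rw [B.card_NN, hcard, hm] at h2
    rw [h1, h2, hm]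
    have h3 : (2 * (Nat.card U * 2 ^ m)).factorization 2 = m + 1 := by
      have e1 : 2 * (Nat.card U * 2 ^ m) = Nat.card U * 2 ^ (m + 1) := by ring
      rw [e1, Nat.factorization_mul Nat.card_pos.ne' (by positivity), Finsupp.add_apply,
        Nat.factorization_eq_zero_of_not_dvd, zero_add, Nat.Prime.factorization_pow Nat.prime_two,
        Finsupp.single_eq_same]
      intro h
      have := Nat.Coprime.eq_one_of_dvd (card_U_odd B.toBB0 U).symm h
      omega
    rw [h3, pow_succ]; ring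
  -- the central element
  haveI hn : (K.subgroupOf T0).Normal := by
    constructor
    rintro ⟨g, hg⟩ hgK ⟨n, hn⟩
    rw [Subgroup.mem_subgroupOf] at hgK ⊢
    have h4 : Pel 2 g := by
      obtain ⟨k, hk⟩ := hK2 ⟨g, hgK⟩
      exact ⟨k, congrArg Subtype.val hk⟩
    exact hKm _ (conj_mem_CC (hTN hn) (hKC hgK)) (pel_conj h4 n)
  have hne : K.subgroupOf T0 ≠ ⊥ := by
    intro h
    have h5 : (⟨y0, hKT (hKm y0 hU hy2)⟩ : T0) ∈ K.subgroupOf T0 := Subgroup.mem_subgroupOf.2 (hKm y0 hU hy2)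
    rw [h, Subgroup.mem_bot] at h5
    exact hy1 (congrArg Subtype.val h5)
  have h6 := Cfsg.Agent.H63.inf_center_ne_bot hT2 (K.subgroupOf T0) hne
  obtain ⟨⟨⟨y, hyT⟩, hyK, hyc⟩, hy⟩ := (Subgroup.ne_bot_iff_exists_ne_one.1 h6)
  refine ⟨U, K, T0, y, hKC, hK2, hKm, hcard, hKT, hTN, hT2, hTc, ?_, ?_, ?_, ?_⟩
  · exact Subgroup.mem_subgroupOf.1 hyK
  · intro h
    exact hy (Subtype.ext (Subtype.ext h))
  · intro g hg
    have hyc' : (⟨y, hyT⟩ : T0) ∈ Subgroup.center T0 := hyc
    rw [Subgroup.mem_center_iff] at hyc'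
    exact mem_cz.2 (congrArg Subtype.val (hyc' ⟨g, hg⟩))
  · intro R hR hTR hRN
    have h7 : IsPGroup 2 (R.subgroupOf (NN (U : Subgroup G))) := hR.of_equiv (Subgroup.subgroupOfEquivOfLe hRN).symm
    have h8 : (Q : Subgroup (NN (U : Subgroup G))) ≤ R.subgroupOf (NN (U : Subgroup G)) := by
      intro x hx
      exact Subgroup.mem_subgroupOf.2 (hTR ⟨x, hx, rfl⟩)
    have h9 := Q.is_maximal' h7 h8
    rw [hT0, ← h9, Subgroup.subgroupOf_map_subtype, inf_of_le_left hRN]

theorem Loc.mem_T0_iff {U : Sylow u G} {K T0 : Subgroup G} {y : G} (L : Loc U K T0 y) {t : G} (ht : t ∈ T0) :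
    t ∈ CC (U : Subgroup G) ↔ t ∈ K := by
  constructor
  · intro h
    obtain ⟨k, hk⟩ := L.hT2 ⟨t, ht⟩
    exact L.hKm t h ⟨k, congrArg Subtype.val hk⟩
  · intro h; exact L.hKC h

theorem Loc.exists_t {U : Sylow u G} {K T0 : Subgroup G} {y : G} (L : Loc U K T0 y) :
    ∃ t ∈ T0, t ∉ CC (U : Subgroup G) := by
  by_contra h
  push Not at h
  have h1 : T0 ≤ K := fun t ht => (L.mem_T0_iff ht).1 (h t ht)
  have h2 := Nat.le_of_dvd Nat.card_pos (Subgroup.card_dvd_of_le h1)
  rw [L.hTc] at h2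
  have : 0 < Nat.card K := Nat.card_pos
  omega

theorem Loc.label {U : Sylow u G} {K T0 : Subgroup G} {y : G} (L : Loc U K T0 y) : ¬ u ∣ (cz y).index :=
  label_iff.2 ⟨U, L.hKC L.hyK⟩

theorem Loc.pel {U : Sylow u G} {K T0 : Subgroup G} {y : G} (L : Loc U K T0 y) : Pel 2 y := by
  obtain ⟨k, hk⟩ := L.hK2 ⟨y, L.hyK⟩
  exact ⟨k, congrArg Subtype.val hk⟩

theorem Loc.not_CC {U : Sylow u G} {K T0 : Subgroup G} {y : G} (B : BB G u v) (L : Loc U K T0 y) (S : Sylow 2 G) :
    y ∉ CC (S : Subgroup G) := by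
  intro h
  exact B.hu2 (B.T.uniq y u 2 L.hy1 hu.out Nat.prime_two B.hud B.h2d L.label (label_iff.2 ⟨S, h⟩))

/-- if the centralizer normalizes `U` -/
theorem Loc.inf_eq {U : Sylow u G} {K T0 : Subgroup G} {y : G} (L : Loc U K T0 y) {S : Sylow 2 G}
    (hTS : T0 ≤ (S : Subgroup G)) : NN (U : Subgroup G) ⊓ (S : Subgroup G) = T0 :=
  L.hmax _ (S.isPGroup'.to_le inf_le_right) (le_inf L.hTN hTS) inf_le_left

theorem conj_sylow_CC {U : Sylow u G} {x g : G} (hx : x ∈ CC (U : Subgroup G)) : g * x * g⁻¹ ∈ CC ((g • U : Sylow u G) : Subgroup G) := by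
  rw [Subgroup.mem_centralizer_iff] at hx ⊢
  intro z hz
  rw [SetLike.mem_coe, Sylow.coe_subgroup_smul, Subgroup.mem_pointwise_smul_iff_inv_smul_mem] at hz
  have h1 := hx _ hz
  have h2 : (MulAut.conj g)⁻¹ • z = g⁻¹ * z * g := by
    rw [← map_inv, MulAut.smul_def, MulAut.conj_apply]; group
  rw [h2] at h1
  calc z * (g * x * g⁻¹) = g * ((g⁻¹ * z * g) * x) * g⁻¹ := by group
    _ = g * (x * (g⁻¹ * z * g)) * g⁻¹ := by rw [h1]
    _ = _ := by group

/-- uniqueness of the Sylow subgroup implies that the centralizer is in the normalizer -/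
theorem cz_le_NN {U : Sylow u G} {y : G} (hy : y ∈ CC (U : Subgroup G))
    (h : ∀ R : Sylow u G, y ∈ CC (R : Subgroup G) → R = U) : cz y ≤ NN (U : Subgroup G) := by
  intro g hg
  refine Sylow.smul_eq_iff_mem_normalizer.1 ?_
  apply h
  have h1 := conj_sylow_CC (g := g) hy
  have h2 : g * y * g⁻¹ = y := by rw [mem_cz.1 hg]; group
  rwa [h2] at h1

/-- the case of a centre of order two -/
theorem Loc.false_two {U : Sylow u G} {K T0 : Subgroup G} {y : G} (B : BB G u v) (L : Loc U K T0 y) {S : Sylow 2 G}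
    (hTS : T0 ≤ (S : Subgroup G)) (hZ : Nat.card (CC (S : Subgroup G)) = 2)
    (R1 : ∀ x : G, x ≠ 1 → ∀ R R' : Sylow u G, x ∈ CC (R : Subgroup G) → x ∈ CC (R' : Subgroup G) → R = R') : False := by
  classical
  have hyS : y ∈ (S : Subgroup G) := hTS (L.hKT L.hyK)
  have hyU : y ∈ CC (U : Subgroup G) := L.hKC L.hyK
  have hyC := L.not_CC B S
  have hczN : cz y ≤ NN (U : Subgroup G) := cz_le_NN hyU (fun R hR => R1 y L.hy1 R U hR hyU)
  have hNS := L.inf_eq hTS
  have hcS : cz y ⊓ (S : Subgroup G) = T0 := by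
    apply le_antisymm
    · rw [← hNS]; exact inf_le_inf_right _ hczN
    · exact le_inf L.hTy hTS
  have hTS' : T0 < (S : Subgroup G) := by
    refine lt_of_le_of_ne hTS ?_
    rintro h
    exact hyC (mem_CC.2 (h ▸ L.hTy))
  -- an element of the normalizer
  obtain ⟨h, hhS, hhT, hhN⟩ : ∃ h ∈ (S : Subgroup G), h ∉ T0 ∧ ∀ g ∈ T0, h * g * h⁻¹ ∈ T0 := by
    haveI : Group.IsNilpotent (S : Subgroup G) := S.isPGroup'.isNilpotent
    have h1 : T0.subgroupOf (S : Subgroup G) < ⊤ := by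
      rw [lt_top_iff_ne_top, Ne, Subgroup.subgroupOf_eq_top]
      exact fun h => absurd (le_antisymm hTS h) hTS'.ne
    have h2 := Group.normalizerCondition_of_isNilpotent (G := (S : Subgroup G)) _ h1
    obtain ⟨⟨h, hS⟩, hhN, hhT⟩ := SetLike.exists_of_lt h2
    refine ⟨h, hS, fun h3 => hhT (Subgroup.mem_subgroupOf.2 h3), fun g hg => ?_⟩
    rw [Subgroup.mem_normalizer_iff] at hhN
    have h3 := (hhN ⟨g, hTS hg⟩).1 (Subgroup.mem_subgroupOf.2 hg)
    exact h3
  have hhNU : h ∉ NN (U : Subgroup G) := fun h1 => hhT (by rw [← hNS]; exact ⟨h1, hhS⟩)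
  have hdisj : ∀ g ∈ K, h * g * h⁻¹ ∈ K → g = 1 := by
    intro g hg hg'
    by_contra hg1
    apply hhNU
    refine Sylow.smul_eq_iff_mem_normalizer.1 ?_
    have h3 : h * g * h⁻¹ ≠ 1 := by
      intro h4; apply hg1
      have : g = h⁻¹ * (h * g * h⁻¹) * h := by group
      rw [this, h4]; group
    exact R1 _ h3 _ _ (conj_sylow_CC (L.hKC hg)) (L.hKC hg')
  -- `|K| ≤ 2`
  have hKle : Nat.card K ≤ 2 := by
    let f : K × K → T0 := fun p => ⟨(p.1 : G) * (h * p.2 * h⁻¹), T0.mul_mem (L.hKT p.1.2) (hhN _ (L.hKT p.2.2))⟩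
    have hf : Function.Injective f := by
      rintro ⟨a, b⟩ ⟨c, d⟩ hab
      have h3 : (a : G) * (h * b * h⁻¹) = c * (h * d * h⁻¹) := congrArg Subtype.val hab
      have h4 : h * ((b : G) * (d : G)⁻¹) * h⁻¹ = (a : G)⁻¹ * c := by
        calc h * ((b : G) * (d : G)⁻¹) * h⁻¹ = (a : G)⁻¹ * ((a : G) * (h * b * h⁻¹)) * (h * (d : G)⁻¹ * h⁻¹) := by group
          _ = (a : G)⁻¹ * (c * (h * d * h⁻¹)) * (h * (d : G)⁻¹ * h⁻¹) := by rw [h3]
          _ = _ := by group
      have h5 := hdisj _ (K.mul_mem b.2 (K.inv_mem d.2)) (by rw [h4]; exact K.mul_mem (K.inv_mem a.2) c.2)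
      have h6 : b = d := Subtype.ext (mul_inv_eq_one.1 h5)
      rw [h5] at h4
      have h7 : (a : G)⁻¹ * c = 1 := by rw [← h4]; group
      have h8 : a = c := Subtype.ext (inv_mul_eq_one.1 h7)
      rw [h6, h8]
    have h3 := Nat.card_le_card_of_injective f hf
    rw [Nat.card_prod, L.hTc] at h3
    exact Nat.le_of_mul_le_mul_right h3 Nat.card_pos
  have hK2 : ∀ g ∈ K, g = 1 ∨ g = y := by
    intro g hg
    by_contra hcon
    push Not at hcon
    have h3 : ({1, y, g} : Set G) ⊆ (K : Set G) := by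
      rintro x (rfl | rfl | rfl)
      · exact K.one_mem
      · exact L.hyK
      · exact hg
    have h4 := Set.ncard_le_ncard h3 (Set.toFinite _)
    rw [Set.ncard_eq_three.2 ⟨1, y, g, L.hy1.symm, hcon.1.symm, hcon.2.symm, rfl⟩] at h4
    have h5 : (K : Set G).ncard = Nat.card K := rfl
    omega
  have hyy : y * y = 1 := by
    rcases hK2 _ (K.mul_mem L.hyK L.hyK) with h3 | h3
    · exact h3
    · exfalso; exact L.hy1 (mul_eq_left.1 h3)
  -- the central involution
  obtain ⟨z, hzC, hz1, hZz⟩ : ∃ z ∈ CC (S : Subgroup G), z ≠ 1 ∧ ∀ g ∈ CC (S : Subgroup G), g = 1 ∨ g = z := by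
    obtain ⟨z, hz⟩ : ∃ z : CC (S : Subgroup G), z ≠ 1 := by
      by_contra hcon
      push Not at hcon
      haveI : Subsingleton (CC (S : Subgroup G)) := ⟨fun a b => by rw [hcon a, hcon b]⟩
      rw [Nat.card_of_subsingleton (1 : CC (S : Subgroup G))] at hZ
      omega
    refine ⟨z, z.2, fun h3 => hz (Subtype.ext h3), ?_⟩
    intro g hg
    by_contra hcon
    push Not at hcon
    have h3 : ({1, (z : G), g} : Set G) ⊆ (CC (S : Subgroup G) : Set G) := by
      rintro x (rfl | rfl | rfl)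
      · exact Subgroup.one_mem _
      · exact z.2
      · exact hg
    have h4 := Set.ncard_le_ncard h3 (Set.toFinite _)
    rw [Set.ncard_eq_three.2 ⟨(1 : G), (z : G), g, fun h3 => hz (Subtype.ext h3.symm), hcon.1.symm, hcon.2.symm, rfl⟩] at h4
    have h5 : (CC (S : Subgroup G) : Set G).ncard = Nat.card (CC (S : Subgroup G)) := rfl
    omega
  have hzz : z * z = 1 := by rw [← sq]; exact B.elem hzC
  have hzS : z ∈ (S : Subgroup G) := B.CC_le S hzC
  have hzc : ∀ g ∈ (S : Subgroup G), g * z = z * g := by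
    intro g hg
    rw [Subgroup.mem_centralizer_iff] at hzC
    exact hzC g hg
  have hyz : y ≠ z := by rintro rfl; exact hyC hzC
  have hzT : z ∈ T0 := by
    rw [← hcS]
    exact ⟨mem_cz.2 (hzc y hyS).symm, hzS⟩
  have hcomm : y * z = z * y := hzc y hyS
  have hT4 : ∀ g ∈ T0, g = 1 ∨ g = y ∨ g = z ∨ g = y * z := by
    intro g hg
    have hKc : Nat.card K = 2 := by
      have h3 : 1 < Nat.card K := by
        haveI : Nontrivial K := ⟨⟨⟨y, L.hyK⟩, 1, fun h3 => L.hy1 (congrArg Subtype.val h3)⟩⟩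
        exact Finite.one_lt_card
      omega
    have h3 : (({1, y, z, y * z} : Finset G) : Set G) ⊆ (T0 : Set G) := by
      intro x hx
      simp only [Finset.coe_insert, Finset.coe_singleton, Set.mem_insert_iff, Set.mem_singleton_iff] at hx
      rcases hx with rfl | rfl | rfl | rfl
      · exact T0.one_mem
      · exact L.hKT L.hyK
      · exact hzT
      · exact T0.mul_mem (L.hKT L.hyK) hzT
    have h4 : ({1, y, z, y * z} : Finset G).card = 4 := by
      rw [Finset.card_eq_four]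
      refine ⟨1, y, z, y * z, L.hy1.symm, hz1.symm, ?_, hyz, ?_, ?_, rfl⟩
      · intro h5
        apply hyz
        have : y * z = y * y := by rw [← h5, hyy]
        exact (mul_left_cancel this).symm
      · intro h5; exact hz1 (left_eq_mul.1 h5)
      · intro h5; exact L.hy1 (right_eq_mul.1 h5)
    have h5 : (T0 : Set G).ncard = 4 := by
      have : (T0 : Set G).ncard = Nat.card T0 := rfl
      rw [this, L.hTc, hKc]
    have h6 : (({1, y, z, y * z} : Finset G) : Set G) = (T0 : Set G) := by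
      apply Set.eq_of_subset_of_ncard_le h3 _ (Set.toFinite _)
      rw [h5, Set.ncard_coe_finset, h4]
    have h7 : g ∈ (({1, y, z, y * z} : Finset G) : Set G) := by rw [h6]; exact hg
    simpa using h7
  have hhy : h * y * h⁻¹ ≠ y := by
    intro h3
    apply hhT
    rw [← hcS]
    exact ⟨mem_cz.2 (mul_inv_eq_iff_eq_mul.1 h3), hhS⟩
  have hconj : h * y * h⁻¹ = y * z := by
    rcases hT4 _ (hhN y (L.hKT L.hyK)) with h3 | h3 | h3 | h3
    · exfalso
      apply L.hy1
      have : y = h⁻¹ * (h * y * h⁻¹) * h := by group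
      rw [this, h3]; group
    · exact absurd h3 hhy
    · exfalso
      apply hyz
      have h4 : y = h⁻¹ * (h * y * h⁻¹) * h := by group
      rw [h4, h3, mul_assoc, ← hzc h hhS]; group
    · exact h3
  have hhC : h ∉ CC (S : Subgroup G) := by
    intro h3
    rw [Subgroup.mem_centralizer_iff] at h3
    apply hhy
    rw [← h3 y hyS]; group
  have hconjz : h * z * h⁻¹ = z := by rw [hzc h hhS]; group
  have h2y : h * h ∈ cz y := by
    rw [mem_cz]
    have h3 : h * h * y * (h * h)⁻¹ = y := by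
      calc h * h * y * (h * h)⁻¹ = h * (h * y * h⁻¹) * h⁻¹ := by group
        _ = h * (y * z) * h⁻¹ := by rw [hconj]
        _ = (h * y * h⁻¹) * (h * z * h⁻¹) := by group
        _ = y * z * z := by rw [hconj, hconjz]
        _ = y := by rw [mul_assoc, hzz, mul_one]
    exact mul_inv_eq_iff_eq_mul.1 h3
  have h2T : h * h ∈ T0 := by rw [← hcS]; exact ⟨h2y, S.mul_mem hhS hhS⟩
  rcases hT4 _ h2T with h3 | h3 | h3 | h3
  · -- `(h y)² = z`
    have h4 : (h * y) ^ 2 = z := by
      have h5 : h⁻¹ = h := inv_eq_of_mul_eq_one_right h3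
      rw [sq]
      calc h * y * (h * y) = (h * y * h) * y := by group
        _ = (h * y * h⁻¹) * y := by rw [h5]
        _ = z * (y * y) := by rw [hconj, hcomm]; group
        _ = z := by rw [hyy, mul_one]
    have h5 : h * y ∉ CC (S : Subgroup G) := by
      intro h6
      rw [Subgroup.mem_centralizer_iff] at h6
      have h7 := h6 y hyS
      apply hhy
      have h8 : y * h = h * y := by
        have : y * h * y = h * y * y := by rw [mul_assoc]; exact h7
        exact mul_right_cancel this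
      rw [← h8]; group
    have h6 := B.star (S.mul_mem hhS hyS) h5 (k := 2) (by rw [h4]; exact hzC)
    rw [h4] at h6
    exact hz1 h6
  · -- `h² = y`
    apply hhy
    have h4 : h * y = y * h := by rw [← h3, mul_assoc]
    rw [h4]; group
  · -- `h² = z`
    have h6 := B.star hhS hhC (k := 2) (by rw [sq, h3]; exact hzC)
    rw [sq, h3] at h6
    exact hz1 h6
  · -- `h² = y z`
    apply hyz
    have h4 : h * (y * z) * h⁻¹ = y * z := by rw [← h3]; group
    have h5 : h * (y * z) * h⁻¹ = y * z * z := by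
      calc h * (y * z) * h⁻¹ = (h * y * h⁻¹) * (h * z * h⁻¹) := by group
        _ = _ := by rw [hconj, hconjz]
    rw [h4] at h5
    exfalso
    exact hz1 (left_eq_mul.1 h5)

end Cfsg.Agent.H35.TP
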