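import Cfsg.Agent.H35.TPe

/-!
# Groups whose class sizes have at most two prime divisors, part F: nonabelian Sylow 2-subgroups, IV
-/

set_option autoImplicit false
set_option linter.style.haveILetI false
set_option linter.unusedSectionVars false

namespace Cfsg.Agent.H35.TP

open Cfsg.Agent.SC Cfsg.Agent.H35.CR Cfsg.Agent.H35.PS

universe u

variable {G : Type u} [Group G] [Finite G] {u v : ℕ} [hu : Fact u.Prime]

theorem BB.no_le_NN (B : BB G u v) (hZ : ∀ S : Sylow 2 G, 4 ≤ Nat.card (CC (S : Subgroup G))) {U : Sylow u G} {x : G}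
    (hxU : x ∈ CC (U : Subgroup G)) (hx2 : Pel 2 x) (h : cz x ≤ NN (U : Subgroup G)) : False := by
  obtain ⟨S, hS⟩ := hx2.zpowers_isPGroup.exists_le_sylow
  have hxS : x ∈ (S : Subgroup G) := hS (Subgroup.mem_zpowers x)
  have h1 : CC (S : Subgroup G) ≤ NN (U : Subgroup G) := by
    refine le_trans ?_ h
    intro z hz
    rw [Subgroup.mem_centralizer_iff] at hz
    exact mem_cz.2 (hz x hxS).symm
  have h2 : (CC (U : Subgroup G)).relIndex (CC (S : Subgroup G)) ≤ 2 :=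
    (Subgroup.relIndex_le_of_le_right h1 Subgroup.index_ne_zero_of_finite).trans (B.au U).le
  have h3 := Subgroup.card_mul_index ((CC (U : Subgroup G)).subgroupOf (CC (S : Subgroup G)))
  have h4 : 2 ≤ Nat.card ((CC (U : Subgroup G)).subgroupOf (CC (S : Subgroup G))) := by
    by_contra h5
    have h6 : Nat.card ((CC (U : Subgroup G)).subgroupOf (CC (S : Subgroup G))) ≤ 1 := by omega
    have h7 := Nat.mul_le_mul h6 h2
    have h8 := hZ S
    change _ * (CC (U : Subgroup G)).relIndex (CC (S : Subgroup G)) = _ at h3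
    omega
  haveI : Nontrivial ((CC (U : Subgroup G)).subgroupOf (CC (S : Subgroup G))) :=
    Finite.one_lt_card_iff_nontrivial.1 (by omega)
  obtain ⟨⟨⟨z, hzS⟩, hzU⟩, hz1⟩ := exists_ne (1 : (CC (U : Subgroup G)).subgroupOf (CC (S : Subgroup G)))
  have hz1' : z ≠ 1 := fun h => hz1 (Subtype.ext (Subtype.ext h))
  exact B.hu2 (B.T.uniq z u 2 hz1' hu.out Nat.prime_two B.hud B.h2d (label_iff.2 ⟨U, Subgroup.mem_subgroupOf.1 hzU⟩)
    (label_iff.2 ⟨S, hzS⟩))

theorem rho_eq {p : ℕ} [Fact p.Prime] {x : G} (h : ¬ p ∣ (cz x).index) : rho p x = Nat.card (Sylow p (cz x)) := by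
  rw [rho]
  let f : {R : Sylow p G // x ∈ CC (R : Subgroup G)} → Sylow p (cz x) := fun R => R.1.subtype (mem_CC.1 R.2)
  apply Nat.card_eq_of_bijective f
  constructor
  · rintro ⟨R, hR⟩ ⟨R', hR'⟩ hf
    apply Subtype.ext
    apply Sylow.ext
    have h1 : (R : Subgroup G).subgroupOf (cz x) = (R' : Subgroup G).subgroupOf (cz x) :=
      congrArg (fun Q : Sylow p (cz x) => (Q : Subgroup (cz x))) hf
    have h2 := congrArg (fun K => Subgroup.map (cz x).subtype K) h1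
    simp only [Subgroup.subgroupOf_map_subtype] at h2
    rwa [inf_of_le_left (mem_CC.1 hR), inf_of_le_left (mem_CC.1 hR')] at h2
  · intro Q
    obtain ⟨P, hP⟩ := exists_sylow_map h Q
    have hPx : x ∈ CC (P : Subgroup G) := by
      rw [mem_CC, hP]; exact Subgroup.map_subtype_le _
    refine ⟨⟨P, hPx⟩, ?_⟩
    apply Sylow.ext
    show (P : Subgroup G).subgroupOf (cz x) = Q
    rw [hP]
    exact Subgroup.comap_map_eq_self_of_injective (cz x).subtype_injective _

theorem BB.rho_ge_four (B : BB G u v) (hZ : ∀ S : Sylow 2 G, 4 ≤ Nat.card (CC (S : Subgroup G))) {x : G}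
    (hx2 : Pel 2 x) (hx : ¬ u ∣ (cz x).index) : 4 ≤ rho u x := by
  have h1 : rho u x ≠ 1 := by
    intro h1
    obtain ⟨U, hU⟩ := label_iff.1 hx
    refine B.no_le_NN hZ hU hx2 (cz_le_NN hU fun R hR => ?_)
    rw [rho, Nat.card_eq_one_iff_unique] at h1
    haveI := h1.1
    exact congrArg Subtype.val (Subsingleton.elim (⟨R, hR⟩ : {R : Sylow u G // x ∈ CC (R : Subgroup G)}) ⟨U, hU⟩)
  have h2 := rho_pos hx
  have h3 : rho u x ≡ 1 [MOD u] := by
    rw [rho_eq hx]; exact card_sylow_modEq_one u (cz x)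
  have h4 : u ∣ rho u x - 1 := (Nat.modEq_iff_dvd' h2).1 h3.symm
  have h5 := Nat.le_of_dvd (by omega) h4
  have h6 : 3 ≤ u := by have := hu.out.two_le; have := B.hu2; omega
  omega

theorem two_mul_card {A C : Subgroup G} (h : A < C) : 2 * Nat.card A ≤ Nat.card C := by
  have h1 := Subgroup.card_mul_index (A.subgroupOf C)
  have h2 : Nat.card (A.subgroupOf C) = Nat.card A := Nat.card_congr (Subgroup.subgroupOfEquivOfLe h.le).toEquiv
  have h3 : (A.subgroupOf C).index ≠ 1 := by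
    rw [Ne, Subgroup.index_eq_one, Subgroup.subgroupOf_eq_top]
    exact fun h4 => absurd h4 (not_le_of_gt h)
  have h4 : (A.subgroupOf C).index ≠ 0 := Subgroup.index_ne_zero_of_finite
  rw [h2] at h1
  rw [← h1, mul_comm]
  exact Nat.mul_le_mul_left _ (by omega)

theorem eq_one_of_two_u (hu2 : u ≠ 2) {g : G} (h2 : Pel 2 g) (hg : Pel u g) : g = 1 := by
  obtain ⟨i, hi⟩ := h2
  obtain ⟨j, hj⟩ := hg
  rw [← orderOf_eq_one_iff]
  exact Nat.eq_one_of_dvd_coprimes (Nat.Coprime.pow i j ((Nat.coprime_primes Nat.prime_two hu.out).2 (Ne.symm hu2)))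
    (orderOf_dvd_of_pow_eq_one hi) (orderOf_dvd_of_pow_eq_one hj)

open Cfsg.Agent.Solv in
theorem Loc.bound {U : Sylow u G} {K T0 : Subgroup G} {y : G} (B : BB G u v) (L : Loc U K T0 y)
    (hZ : ∀ S : Sylow 2 G, 4 ≤ Nat.card (CC (S : Subgroup G))) :
    ∃ S : Sylow 2 G, 4 * (1 + Nat.card U * (Nat.card (CC (S : Subgroup G)) - 1)) ≤ Nat.card S := by
  have hyU : y ∈ CC (U : Subgroup G) := L.hKC L.hyK
  have hUW : (U : Subgroup G) ≤ cz y := mem_CC.1 hyU
  have hnot : ¬ cz y ≤ NN (U : Subgroup G) := fun h => B.no_le_NN hZ hyU L.pel h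
  have hprimes : ∀ r : ℕ, r.Prime → r ∣ Nat.card (cz y) → r = 2 ∨ r = u := by
    intro r hr hrd
    rcases B.cases hr (hrd.trans (Subgroup.card_subgroup_dvd_card _)) with h | h | h
    · exact Or.inl h
    · exact Or.inr h
    · exfalso
      subst h
      haveI : Fact r.Prime := ⟨hr⟩
      obtain ⟨⟨w, hw⟩, hwr⟩ := exists_prime_orderOf_dvd_card' r hrd
      have hwr' : orderOf w = r := by rw [← hwr, Subgroup.orderOf_mk]
      have hw1 : w ≠ 1 := ne_one_of_prime hr hwr'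
      refine B.symm.no_u L.hy1 hw1 B.hu B.hud B.huv L.label ?_ ⟨1, by rw [pow_one, ← hwr', pow_orderOf_eq_one]⟩ hw
      obtain ⟨k, hk⟩ := L.pel
      intro h1
      exact B.hv2 ((Nat.prime_dvd_prime_iff_eq hr Nat.prime_two).1 (hr.dvd_of_dvd_pow (h1.trans (orderOf_dvd_of_pow_eq_one hk))))
  haveI hsol : Group.IsSolvable (cz y) := by
    apply Cfsg.Agent.H68.FO.solvable_of_two
    have h1 : (Nat.card (cz y)).primeFactors ⊆ {2, u} := by
      intro r hr
      rcases hprimes r (Nat.prime_of_mem_primeFactors hr) (Nat.dvd_of_mem_primeFactors hr) with h | h <;> simp [h]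
    exact (Finset.card_le_card h1).trans Finset.card_le_two
  -- Sylow 2-subgroups
  have hT0' : IsPGroup 2 (T0.subgroupOf (cz y)) := L.hT2.of_equiv (Subgroup.subgroupOfEquivOfLe L.hTy).symm
  obtain ⟨T1, hT1⟩ := hT0'.exists_le_sylow
  set T := (T1 : Subgroup (cz y)).map (cz y).subtype with hT
  have hT2 : IsPGroup 2 T := T1.isPGroup'.map _
  obtain ⟨S, hTS⟩ := hT2.exists_le_sylow
  have hTW : T ≤ cz y := Subgroup.map_subtype_le _
  have hT0T : T0 ≤ T := fun g hg => ⟨⟨g, L.hTy hg⟩, hT1 (Subgroup.mem_subgroupOf.2 hg), rfl⟩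
  have hWS : ∀ g ∈ cz y, g ∈ (S : Subgroup G) → g ∈ T := by
    have h7 : IsPGroup 2 ((S : Subgroup G).subgroupOf (cz y)) :=
      S.isPGroup'.comap_subtype
    have h8 : (T1 : Subgroup (cz y)) ≤ (S : Subgroup G).subgroupOf (cz y) := by
      intro x hx
      exact Subgroup.mem_subgroupOf.2 (hTS ⟨x, hx, rfl⟩)
    have h9 := T1.is_maximal' h7 h8
    intro g hg hgS
    refine ⟨⟨g, hg⟩, ?_, rfl⟩
    have h10 : (⟨g, hg⟩ : cz y) ∈ (S : Subgroup G).subgroupOf (cz y) := Subgroup.mem_subgroupOf.2 hgS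
    rw [h9] at h10
    exact h10
  have hyS : y ∈ (S : Subgroup G) := hTS (hT0T (L.hKT L.hyK))
  have hZW : CC (S : Subgroup G) ≤ cz y := by
    intro z hz
    rw [Subgroup.mem_centralizer_iff] at hz
    exact mem_cz.2 (hz y hyS).symm
  obtain ⟨t, htT0, htU⟩ := L.exists_t
  -- the core
  have hO : Cfsg.pPrimeCore 2 (cz y) = ⊥ := by
    by_contra hO
    obtain ⟨⟨x, hxO⟩, hx1⟩ := Subgroup.ne_bot_iff_exists_ne_one.1 hO
    have hOu : IsPGroup u (Cfsg.pPrimeCore 2 (cz y)) := by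
      apply card_two_group
      intro r hr hrd
      rcases hprimes r hr (hrd.trans (Subgroup.card_subgroup_dvd_card _)) with h | h
      · exfalso
        subst h
        have h1 := pPrimeCore_card_coprime (G := cz y) 2
        have := Nat.Coprime.eq_one_of_dvd h1.symm hrd
        omega
      · exact h
    haveI hOn : (Cfsg.pPrimeCore 2 (cz y)).Normal := (coprime_card_sSup 2 _ (fun _ h => h)).1
    have hOU : Cfsg.pPrimeCore 2 (cz y) ≤ (U.subtype hUW : Subgroup (cz y)) := hOu.le_sylow_of_normal _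
    apply hnot
    intro w hw
    have h1 : (⟨w, hw⟩ : cz y) * x * (⟨w, hw⟩ : cz y)⁻¹ ∈ Cfsg.pPrimeCore 2 (cz y) := hOn.conj_mem x hxO ⟨w, hw⟩
    have h2 : (w * (x : G) * w⁻¹) ∈ (U : Subgroup G) := hOU h1
    have h3 : (x : G) ∈ (U : Subgroup G) := hOU hxO
    have hx1' : (x : G) ≠ 1 := fun h => hx1 (Subtype.ext (Subtype.ext h))
    have h4 : w * (x : G) * w⁻¹ ≠ 1 := by
      intro h5; apply hx1'
      have : (x : G) = w⁻¹ * (w * (x : G) * w⁻¹) * w := by group
      rw [this, h5]; group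
    have h5 : w * (x : G) * w⁻¹ ∈ ((w • U : Sylow u G) : Subgroup G) := by
      rw [Sylow.coe_subgroup_smul, Subgroup.mem_pointwise_smul_iff_inv_smul_mem]
      have : (MulAut.conj w)⁻¹ • (w * (x : G) * w⁻¹) = x := by
        rw [← map_inv, MulAut.smul_def, MulAut.conj_apply]; group
      rw [this]; exact h3
    exact Sylow.smul_eq_iff_mem_normalizer.1 (B.sylow_eq h2 h5 h4).symm
  have hC := Cfsg.Agent.H91.centralizer_pCore_le 2 hO
  set V := (Cfsg.pCore 2 (cz y)).map (cz y).subtype with hV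
  have hVT : V ≤ T := Subgroup.map_mono (pCore_le_sylow T1)
  have hZV : CC (S : Subgroup G) ≤ V := by
    intro z hz
    refine ⟨⟨z, hZW hz⟩, hC ?_, rfl⟩
    rw [Subgroup.mem_centralizer_iff]
    intro w hw
    have h1 : (w : G) ∈ (S : Subgroup G) := hTS (hVT ⟨w, hw, rfl⟩)
    rw [Subgroup.mem_centralizer_iff] at hz
    exact Subtype.ext (hz _ h1)
  have hVn : ∀ w ∈ cz y, ∀ g ∈ V, w * g * w⁻¹ ∈ V := by
    rintro w hw _ ⟨g, hg, rfl⟩
    haveI : (Cfsg.pCore 2 (cz y)).Normal := pCore_normal 2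
    exact ⟨⟨w, hw⟩ * g * ⟨w, hw⟩⁻¹, this.conj_mem g hg ⟨w, hw⟩, rfl⟩
  -- commutator argument
  have hcomm : ∀ x ∈ (U : Subgroup G), x ≠ 1 → t * (x * t⁻¹ * x⁻¹) ∈ T → False := by
    intro x hx hx1 h
    have h1 : t * (x * t⁻¹ * x⁻¹) ∈ (U : Subgroup G) := by
      have h2 := (Subgroup.mem_normalizer_iff.1 (L.hTN htT0) x).1 hx
      have h3 := U.mul_mem h2 (U.inv_mem hx)
      have h4 : t * (x * t⁻¹ * x⁻¹) = t * x * t⁻¹ * x⁻¹ := by group
      rw [h4]; exact h3
    have h2 : Pel 2 (t * (x * t⁻¹ * x⁻¹)) := by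
      obtain ⟨k, hk⟩ := hT2 ⟨_, h⟩
      exact ⟨k, congrArg Subtype.val hk⟩
    have h3 := eq_one_of_two_u B.hu2 h2 (Pel.of_mem_sylow h1)
    apply htU
    rw [← B.cz_eq_CC hx hx1, mem_cz]
    have h4 : t * x = (t * (x * t⁻¹ * x⁻¹)) * x * t := by group
    rw [h4, h3, one_mul]
  have hdisj : ∀ x ∈ (U : Subgroup G), x ≠ 1 → ∀ z ∈ CC (S : Subgroup G), z ≠ 1 → x * z * x⁻¹ ∈ CC (S : Subgroup G) → False := by
    intro x hx hx1 z hz hz1 hxz
    have hz1' : x * z * x⁻¹ ≠ 1 := by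
      intro h5; apply hz1
      have : z = x⁻¹ * (x * z * x⁻¹) * x := by group
      rw [this, h5]; group
    have h1 := B.cz_eq (B.CC_le S hz) hz hz1
    have h2 := B.cz_eq (B.CC_le S hxz) hxz hz1'
    have h3 : x * t⁻¹ * x⁻¹ ∈ (S : Subgroup G) := by
      have h4 : t⁻¹ ∈ (S : Subgroup G) := S.inv_mem (hTS (hT0T htT0))
      rw [← h1, mem_cz] at h4
      rw [← h2, mem_cz]
      calc x * t⁻¹ * x⁻¹ * (x * z * x⁻¹) = x * (t⁻¹ * z) * x⁻¹ := by group
        _ = x * (z * t⁻¹) * x⁻¹ := by rw [h4]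
        _ = _ := by group
    have htW : t ∈ cz y := L.hTy htT0
    have h5 : x * t⁻¹ * x⁻¹ ∈ cz y :=
      Subgroup.mul_mem _ (Subgroup.mul_mem _ (hUW hx) (Subgroup.inv_mem _ htW)) (Subgroup.inv_mem _ (hUW hx))
    exact hcomm x hx hx1 (T.mul_mem (hT0T htT0) (hWS _ h5 h3))
  have htV : t ∉ V := by
    intro h
    obtain ⟨x, hx, hx1⟩ := B.exists_mem U
    exact hcomm x hx hx1 (hVT (V.mul_mem h (hVn x (hUW hx) _ (V.inv_mem h))))
  have hVT' : V < T := lt_of_le_of_ne hVT (fun h => htV (by rw [h]; exact hT0T htT0))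
  have hTS' : T < (S : Subgroup G) := by
    refine lt_of_le_of_ne hTS (fun h => L.not_CC B S ?_)
    rw [mem_CC, ← h]; exact hTW
  have h1 := two_mul_card hVT'
  have h2 := two_mul_card hTS'
  have h3 : Nat.card U * (Nat.card (CC (S : Subgroup G)) - 1) ≤ Nat.card V - 1 := by
    classical
    haveI := Fintype.ofFinite G
    have hcard : ∀ H : Subgroup G, Nat.card {g : H // g ≠ 1} = Nat.card H - 1 := by
      intro H
      haveI := Fintype.ofFinite H
      rw [Nat.card_eq_fintype_card, Fintype.card_subtype, Finset.filter_ne', Finset.card_erase_of_mem (Finset.mem_univ _),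
        Finset.card_univ, Nat.card_eq_fintype_card]
    rw [← hcard, ← hcard, ← Nat.card_prod]
    let f : ↥(U : Subgroup G) × {g : CC (S : Subgroup G) // g ≠ 1} → {g : V // g ≠ 1} := fun p =>
      ⟨⟨(p.1 : G) * (p.2.1 : G) * (p.1 : G)⁻¹, hVn _ (hUW p.1.2) _ (hZV p.2.1.2)⟩, by
        intro h
        apply p.2.2
        have h4 : (p.1 : G) * (p.2.1 : G) * (p.1 : G)⁻¹ = 1 := congrArg Subtype.val h
        apply Subtype.ext
        have : (p.2.1 : G) = (p.1 : G)⁻¹ * ((p.1 : G) * (p.2.1 : G) * (p.1 : G)⁻¹) * p.1 := by group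
        rw [this, h4]
        show (p.1 : G)⁻¹ * 1 * (p.1 : G) = 1
        group⟩
    apply Nat.card_le_card_of_injective f
    rintro ⟨x, ⟨z, hz⟩⟩ ⟨x', ⟨z', hz'⟩⟩ h
    have h4 : (x : G) * z * (x : G)⁻¹ = x' * z' * (x' : G)⁻¹ := congrArg (fun w => ((w.1 : V) : G)) h
    have h5 : ((x' : G)⁻¹ * x) * z * ((x' : G)⁻¹ * x)⁻¹ = z' := by
      calc ((x' : G)⁻¹ * x) * z * ((x' : G)⁻¹ * x)⁻¹ = (x' : G)⁻¹ * ((x : G) * z * (x : G)⁻¹) * x' := by group
        _ = (x' : G)⁻¹ * (x' * z' * (x' : G)⁻¹) * x' := by rw [h4]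
        _ = z' := by group
    have h6 : (x' : G)⁻¹ * x = 1 := by
      by_contra h6
      exact hdisj _ (U.mul_mem (U.inv_mem x'.2) x.2) h6 z z.2 (fun h7 => hz (Subtype.ext h7)) (by rw [h5]; exact z'.2)
    rw [h6] at h5
    have h7 : z = z' := by
      apply Subtype.ext
      rw [← h5]; group
    have h8 : x = x' := Subtype.ext (inv_mul_eq_one.1 h6).symm
    subst h7; subst h8; rfl
  refine ⟨S, ?_⟩
  have h4 : 1 ≤ Nat.card V := Nat.card_pos
  have h5 : Nat.card T ≤ Nat.card T := le_rfl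
  change 2 * Nat.card T ≤ Nat.card S at h2
  omega

end Cfsg.Agent.H35.TP
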