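import Cfsg.Agent.H35.TPf

/-!
# Groups whose class sizes have at most two prime divisors, part G: nonabelian Sylow 2-subgroups, V
-/

set_option autoImplicit false
set_option linter.style.haveILetI false
set_option linter.unusedSectionVars false

namespace Cfsg.Agent.H35.TP

open Cfsg.Agent.SC Cfsg.Agent.H35.CR Cfsg.Agent.H35.PS

universe u

variable {G : Type u} [Group G] [Finite G] {u v : ℕ}

theorem BB0.card_eq (B : BB0 G u v) [Fact u.Prime] [Fact v.Prime] (U : Sylow u G) (V : Sylow v G) (S : Sylow 2 G) :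
    Nat.card G = Nat.card U * Nat.card V * Nat.card S := by
  have h0 := Nat.prod_factorization_pow_eq_self (n := Nat.card G) Nat.card_pos.ne'
  rw [Finsupp.prod, Nat.support_factorization, B.hpf, Finset.prod_insert, Finset.prod_pair B.huv,
    ← U.card_eq_multiplicity, ← V.card_eq_multiplicity, ← S.card_eq_multiplicity] at h0
  · rw [← h0]
    exact mul_comm _ _
  · simp only [Finset.mem_insert, Finset.mem_singleton, not_or]
    exact ⟨B.hu2.symm, B.hv2.symm⟩

theorem BB0.NN_index_le (B : BB0 G u v) [Fact u.Prime] [Fact v.Prime] (U : Sylow u G) (V : Sylow v G) (S : Sylow 2 G) :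
    (NN (S : Subgroup G)).index ≤ Nat.card U * Nat.card V := by
  have h1 := Subgroup.card_mul_index (S : Subgroup G)
  rw [B.card_eq U V S, mul_comm] at h1
  have h2 : (S : Subgroup G).index = Nat.card U * Nat.card V := Nat.eq_of_mul_eq_mul_right Nat.card_pos h1
  rw [← h2]
  exact Nat.le_of_dvd (Nat.pos_of_ne_zero Subgroup.index_ne_zero_of_finite) (Subgroup.index_dvd_of_le Subgroup.le_normalizer)

/-- the number of elements of label 2 -/
theorem BB0.Lc_two (B : BB0 G u v) [Fact u.Prime] [Fact v.Prime] (U : Sylow u G) (V : Sylow v G) (S : Sylow 2 G) :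
    Lc G 2 ≤ Nat.card U * Nat.card V * (Nat.card (CC (S : Subgroup G)) - 1) := by
  have h1 := count_label S
  change Lc G 2 + _ ≤ _ at h1
  have h2 := B.NN_index_le U V S
  have h3 : 1 ≤ Nat.card (CC (S : Subgroup G)) := Nat.card_pos
  obtain ⟨m, hm⟩ := Nat.exists_eq_add_of_le h3
  rw [hm] at h1 ⊢
  have h4 : 1 + m - 1 = m := by omega
  rw [h4]
  refine le_trans ?_ (Nat.mul_le_mul_right m h2)
  have h5 : (NN (S : Subgroup G)).index * (1 + m) = (NN (S : Subgroup G)).index + (NN (S : Subgroup G)).index * m := by ring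
  omega

theorem BB.card_NN_index (B : BB G u v) [Fact u.Prime] (U : Sylow u G) :
    2 * ((NN (U : Subgroup G)).index * Nat.card (CC (U : Subgroup G))) = Nat.card G := by
  rw [← Subgroup.card_mul_index (NN (U : Subgroup G)), B.card_NN]; ring

theorem BB.card_V_dvd (B : BB G u v) [Fact u.Prime] [Fact v.Prime] (U : Sylow u G) (V : Sylow v G) :
    Nat.card V ∣ (NN (U : Subgroup G)).index := by
  have h1 : Nat.card V ∣ Nat.card G := Subgroup.card_subgroup_dvd_card (V : Subgroup G)
  have h2 : (Nat.card V).Coprime (2 * Nat.card (CC (U : Subgroup G))) := by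
    obtain ⟨n, hn⟩ := IsPGroup.iff_card.1 V.isPGroup'
    have : Nat.card V = v ^ n := hn
    rw [this]
    apply Nat.Coprime.pow_left
    rw [Nat.Prime.coprime_iff_not_dvd B.hv, B.hv.dvd_mul, not_or]
    exact ⟨fun h => B.hv2 ((Nat.prime_dvd_prime_iff_eq B.hv Nat.prime_two).1 h), B.not_v U⟩
  rw [← B.card_NN_index U] at h1
  have h3 : 2 * ((NN (U : Subgroup G)).index * Nat.card (CC (U : Subgroup G))) =
      (NN (U : Subgroup G)).index * (2 * Nat.card (CC (U : Subgroup G))) := by ring
  rw [h3] at h1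
  exact h2.dvd_of_dvd_mul_right h1

theorem BB.sum_index (B : BB G u v) [Fact u.Prime] [Fact v.Prime] (U : Sylow u G) (V : Sylow v G) :
    Nat.card U * Nat.card V + 1 ≤ (NN (U : Subgroup G)).index + (NN (V : Subgroup G)).index := by
  have h1 := B.card_sylow_mod U
  have h2 := B.swap.card_sylow_mod V
  have h3 := B.card_V_dvd U V
  have h4 := B.swap.card_V_dvd V U
  have h5 := NN_index_pos (U : Subgroup G)
  have h6 := NN_index_pos (V : Subgroup G)
  have h7 : (Nat.card U).Coprime (Nat.card V) := by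
    obtain ⟨n, hn⟩ := IsPGroup.iff_card.1 V.isPGroup'
    obtain ⟨m, hm⟩ := IsPGroup.iff_card.1 U.isPGroup'
    have e1 : Nat.card V = v ^ n := hn
    have e2 : Nat.card U = u ^ m := hm
    rw [e1, e2]
    exact Nat.Coprime.pow m n ((Nat.coprime_primes B.hu B.hv).2 B.huv)
  have h8 : Nat.card U ∣ (NN (U : Subgroup G)).index + (NN (V : Subgroup G)).index - 1 := by
    have : (NN (U : Subgroup G)).index + (NN (V : Subgroup G)).index - 1 =
        ((NN (U : Subgroup G)).index - 1) + (NN (V : Subgroup G)).index := by omega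
    rw [this]; exact Nat.dvd_add h1 h4
  have h9 : Nat.card V ∣ (NN (U : Subgroup G)).index + (NN (V : Subgroup G)).index - 1 := by
    have : (NN (U : Subgroup G)).index + (NN (V : Subgroup G)).index - 1 =
        (NN (U : Subgroup G)).index + ((NN (V : Subgroup G)).index - 1) := by omega
    rw [this]; exact Nat.dvd_add h3 h2
  have h10 := Nat.le_of_dvd (by omega) (h7.mul_dvd_of_dvd_of_dvd h8 h9)
  omega

/-- a centre of order two is impossible: the Sylow `u`-subgroup centralized is unique -/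
theorem BB.unique_of_two (B : BB G u v) [Fact u.Prime] {S : Sylow 2 G} (hZ : Nat.card (CC (S : Subgroup G)) = 2)
    (x : G) (hx : x ≠ 1) (R R' : Sylow u G) (hR : x ∈ CC (R : Subgroup G)) (hR' : x ∈ CC (R' : Subgroup G)) : R = R' := by
  by_contra hne
  haveI : Fact v.Prime := ⟨B.hv⟩
  have hrho : 2 ≤ rho u x := by
    rw [rho]
    haveI : Nontrivial {R : Sylow u G // x ∈ CC (R : Subgroup G)} :=
      ⟨⟨⟨R, hR⟩, ⟨R', hR'⟩, fun h => hne (congrArg Subtype.val h)⟩⟩
    exact Finite.one_lt_card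
  have h1 := count_strict R hx hrho
  have h2 := B.card_NN_index R
  let V : Sylow v G := default
  have h3 := count_label V
  change Lc G v + _ ≤ _ at h3
  have h4 := B.swap.card_NN_index V
  have h5 := B.Lc_two R V S
  rw [hZ] at h5
  have h6 := B.sum_index R V
  have h7 := B.T.sum_labels B.hpf
  have h8 : 2 * (Lc G u + 1 + (NN (R : Subgroup G)).index) ≤ Nat.card G := by
    rw [← h2]; exact Nat.mul_le_mul_left 2 h1
  have h9 : 2 * (Lc G v + (NN (V : Subgroup G)).index) ≤ Nat.card G := by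
    rw [← h4]; exact Nat.mul_le_mul_left 2 h3
  have h10 : 0 < Nat.card G := Nat.card_pos
  simp only [Nat.add_one_sub_one, mul_one] at h5
  omega

open Classical in
/-- the bound for the number of elements of label `u` -/
theorem BB.Lc_u (B : BB G u v) [Fact u.Prime] [Fact v.Prime] (hZ : ∀ S : Sylow 2 G, 4 ≤ Nat.card (CC (S : Subgroup G)))
    (U : Sylow u G) (V : Sylow v G) (S : Sylow 2 G) :
    8 * Lc G u + 3 * (Nat.card V * Nat.card S) ≤ 4 * (Nat.card U * Nat.card V * Nat.card S) := by
  haveI := Fintype.ofFinite G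
  obtain ⟨K, hKC, hK2, hKm, hcard⟩ := B.exK U
  have hcU : ∀ R : Sylow u G, Nat.card R = Nat.card U := fun R => Nat.card_congr (R.equiv U).toEquiv
  have hU0 : 0 < Nat.card U := Nat.card_pos
  have hk : ∀ R : Sylow u G, Nat.card {x : G // x ∈ CC (R : Subgroup G) ∧ Pel 2 x} = Nat.card K := by
    intro R
    obtain ⟨K', hKC', hK2', hKm', hcard'⟩ := B.exK R
    have h1 : Nat.card K' = Nat.card K := by
      rw [card_CC_eq R U, hcard, hcU R] at hcard'
      exact (Nat.eq_of_mul_eq_mul_left hU0 hcard').symm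
    rw [← h1]
    apply Nat.card_congr
    exact Equiv.subtypeEquivRight fun x => ⟨fun h => hKm' x h.1 h.2, fun h => ⟨hKC' h, by
      obtain ⟨k, hk⟩ := hK2' ⟨x, h⟩
      exact ⟨k, congrArg Subtype.val hk⟩⟩⟩
  have hm1 : ∀ R : Sylow u G, Nat.card {x : G // x ∈ CC (R : Subgroup G) ∧ (x ≠ 1 ∧ Pel 2 x)} = Nat.card K - 1 := by
    intro R
    rw [← hk R, Nat.card_eq_fintype_card, Nat.card_eq_fintype_card, Fintype.card_subtype, Fintype.card_subtype]
    have h4 : (Finset.univ.filter (fun x : G => x ∈ CC (R : Subgroup G) ∧ (x ≠ 1 ∧ Pel 2 x))) =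
        (Finset.univ.filter (fun x : G => x ∈ CC (R : Subgroup G) ∧ Pel 2 x)).erase 1 := by
      ext x
      simp only [Finset.mem_filter, Finset.mem_univ, true_and, Finset.mem_erase]
      tauto
    rw [h4, Finset.card_erase_of_mem]
    rw [Finset.mem_filter]
    exact ⟨Finset.mem_univ _, Subgroup.one_mem _, 0, one_pow _⟩
  have hm2 : ∀ R : Sylow u G, Nat.card {x : G // x ∈ CC (R : Subgroup G) ∧ ¬ Pel 2 x} = (Nat.card U - 1) * Nat.card K := by
    intro R
    have h1 : Nat.card {x : G // x ∈ CC (R : Subgroup G) ∧ ¬ Pel 2 x} + Nat.card {x : G // x ∈ CC (R : Subgroup G) ∧ Pel 2 x} =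
        Nat.card (CC (R : Subgroup G)) := by
      have e1 : Nat.card (CC (R : Subgroup G)) = (Finset.univ.filter (fun x : G => x ∈ CC (R : Subgroup G))).card := by
        rw [Nat.card_eq_fintype_card, Fintype.card_subtype]
      rw [e1, Nat.card_eq_fintype_card, Nat.card_eq_fintype_card, Fintype.card_subtype, Fintype.card_subtype,
        ← Finset.filter_filter, ← Finset.filter_filter, add_comm]
      exact Finset.card_filter_add_card_filter_not _
    rw [hk R, card_CC_eq R U, hcard] at h1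
    obtain ⟨m, hm⟩ := Nat.exists_eq_add_of_le (show 1 ≤ Nat.card U from hU0)
    rw [hm] at h1 ⊢
    have e2 : (1 + m) * Nat.card K = m * Nat.card K + Nat.card K := by ring
    rw [e2] at h1
    have e3 : 1 + m - 1 = m := by omega
    rw [e3]
    omega
  have h1 := rho_bound (p := u) (fun x : G => x ≠ 1 ∧ Pel 2 x) (t := 4) hm1
    (fun x hx hxu => B.rho_ge_four hZ hx.2 hxu)
  have h2 := rho_bound (p := u) (fun x : G => ¬ Pel 2 x) (t := 1) hm2 (fun x _ hxu => rho_pos hxu)
  have h3 : Lc G u ≤ Nat.card {x : G // (x ≠ 1 ∧ Pel 2 x) ∧ ¬ u ∣ (cz x).index} +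
      Nat.card {x : G // (¬ Pel 2 x) ∧ ¬ u ∣ (cz x).index} := by
    rw [Lc, Nat.card_eq_fintype_card, Nat.card_eq_fintype_card, Nat.card_eq_fintype_card, Fintype.card_subtype,
      Fintype.card_subtype, Fintype.card_subtype]
    refine le_trans (Finset.card_le_card ?_) (Finset.card_union_le _ _)
    intro x hx
    simp only [Finset.mem_filter, Finset.mem_univ, true_and, Finset.mem_union] at hx ⊢
    tauto
  have h4 := B.card_NN_index U
  have h5 := B.card_eq U V S
  have h6 : Nat.card (Sylow u G) = (NN (U : Subgroup G)).index := U.card_eq_index_normalizer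
  rw [h6] at h1 h2
  rw [hcard, h5] at h4
  -- `2 n k = b c`
  have h7 : 2 * ((NN (U : Subgroup G)).index * Nat.card K) = Nat.card V * Nat.card S := by
    apply Nat.eq_of_mul_eq_mul_left hU0
    calc Nat.card U * (2 * ((NN (U : Subgroup G)).index * Nat.card K)) =
        2 * ((NN (U : Subgroup G)).index * (Nat.card U * Nat.card K)) := by ring
      _ = _ := h4
      _ = _ := by ring
  have hK0 : 1 ≤ Nat.card K := Nat.card_pos
  have h8 : (NN (U : Subgroup G)).index * (Nat.card K - 1) ≤ (NN (U : Subgroup G)).index * Nat.card K :=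
    Nat.mul_le_mul_left _ (Nat.sub_le _ _)
  set X := (NN (U : Subgroup G)).index * Nat.card K with hX
  set a := Nat.card U
  set bc := Nat.card V * Nat.card S with hbc
  have h9 : (NN (U : Subgroup G)).index * ((a - 1) * Nat.card K) = (a - 1) * X := by rw [hX]; ring
  rw [h9, one_mul] at h2
  have h10 : Nat.card U * Nat.card V * Nat.card S = a * bc := by rw [hbc]; ring
  rw [h10]
  obtain ⟨m, hm⟩ := Nat.exists_eq_add_of_le (show 1 ≤ a from hU0)
  rw [hm] at h2 ⊢
  have e3 : 1 + m - 1 = m := by omega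
  rw [e3] at h2
  rw [← h7]
  have e4 : 4 * ((1 + m) * (2 * X)) = 8 * X + 8 * (m * X) := by ring
  rw [e4]
  omega

theorem BB.false_ge_four (B : BB G u v) [Fact u.Prime] [Fact v.Prime] (hZ : ∀ S : Sylow 2 G, 4 ≤ Nat.card (CC (S : Subgroup G)))
    (U : Sylow u G) (V : Sylow v G) (S : Sylow 2 G)
    (hc : 4 * (1 + Nat.card U * (Nat.card (CC (S : Subgroup G)) - 1)) ≤ Nat.card S) : False := by
  have h1 := B.Lc_u hZ U V S
  have h2 := B.swap.Lc_u hZ V U S
  have h3 := B.Lc_two U V S
  have h4 := B.T.sum_labels B.hpf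
  have h5 := B.card_eq U V S
  have ha : 1 ≤ Nat.card U := Nat.card_pos
  have hb : 1 ≤ Nat.card V := Nat.card_pos
  have hz := hZ S
  set a := Nat.card U
  set b := Nat.card V
  set c := Nat.card S
  set z := Nat.card (CC (S : Subgroup G)) - 1 with hzz
  have hz1 : 3 ≤ z := by omega
  have h6 : 1 ≤ Nat.card G := Nat.card_pos
  rw [h5] at h4 h6
  have e1 : b * a * c = a * b * c := by ring
  rw [e1] at h2
  have h7 : 8 * (a * b * c) + 3 * (b * c) + 3 * (a * c) ≤ 8 * (a * b * z) + 8 + 8 * (a * b * c) := by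
    have : a * b * c ≤ Lc G 2 + Lc G u + Lc G v + 1 := by omega
    omega
  have h8 : 3 * (b * c) + 3 * (a * c) ≤ 8 * (a * b * z) + 8 := by omega
  have h9 : b * (4 * (1 + a * z)) ≤ b * c := Nat.mul_le_mul_left b hc
  have h10 : a * (4 * (1 + a * z)) ≤ a * c := Nat.mul_le_mul_left a hc
  have e2 : b * (4 * (1 + a * z)) = 4 * b + 4 * (a * b * z) := by ring
  have e3 : a * (4 * (1 + a * z)) = 4 * a + 4 * (a * a * z) := by ring
  rw [e2] at h9
  rw [e3] at h10
  omega

theorem BB.false (B : BB G u v) : False := by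
  haveI : Fact u.Prime := ⟨B.hu⟩
  haveI : Fact v.Prime := ⟨B.hv⟩
  -- a 2-element with odd label
  obtain ⟨y, hy1, hy2, hyl⟩ : ∃ y : G, y ≠ 1 ∧ Pel 2 y ∧ (¬ u ∣ (cz y).index ∨ ¬ v ∣ (cz y).index) := by
    by_contra hcon
    push Not at hcon
    let S : Sylow 2 G := default
    apply B.sab S
    have h1 : ∀ x ∈ (S : Subgroup G), x * x = 1 := by
      intro x hx
      by_cases hx1 : x = 1
      · rw [hx1, one_mul]
      obtain ⟨r, hr, hrd, hrx⟩ := B.T.lab x hx1
      have h2 := hcon x hx1 (Pel.of_mem_sylow hx)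
      rcases B.cases hr hrd with h | h | h
      · subst h
        obtain ⟨S', hS'⟩ := label_iff.1 hrx
        rw [← sq]; exact B.elem hS'
      · subst h; exact absurd h2.1 hrx
      · subst h; exact absurd h2.2 hrx
    intro a ha b hb
    have h2 := h1 _ (S.mul_mem ha hb)
    have ia : a⁻¹ = a := inv_eq_of_mul_eq_one_right (h1 a ha)
    have ib : b⁻¹ = b := inv_eq_of_mul_eq_one_right (h1 b hb)
    have iab : (a * b)⁻¹ = a * b := inv_eq_of_mul_eq_one_right h2
    rw [mul_inv_rev, ia, ib] at iab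
    exact iab.symm
  -- the order of the centre
  have hcc : ∀ S S' : Sylow 2 G, Nat.card (CC (S : Subgroup G)) = Nat.card (CC (S' : Subgroup G)) := card_CC_eq
  have hZ : (∀ S : Sylow 2 G, Nat.card (CC (S : Subgroup G)) = 2) ∨ (∀ S : Sylow 2 G, 4 ≤ Nat.card (CC (S : Subgroup G))) := by
    let S : Sylow 2 G := default
    have h1 : IsPGroup 2 (CC (S : Subgroup G)) := S.isPGroup'.to_le (B.CC_le S)
    obtain ⟨n, hn⟩ := IsPGroup.iff_card.1 h1
    have hn0 : n ≠ 0 := by
      rintro rfl
      rw [pow_zero] at hn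
      obtain ⟨z, hzS, hz, hzc⟩ := exists_center_order S.isPGroup' (S.ne_bot_of_dvd_card B.h2d)
      have hz1 := ne_one_of_prime Nat.prime_two hz
      have hzC : z ∈ CC (S : Subgroup G) := mem_CC.2 fun y hy => mem_cz.2 (hzc y hy)
      rw [Subgroup.card_eq_one] at hn
      rw [hn] at hzC
      exact hz1 hzC
    by_cases hn1 : n = 1
    · left
      intro S'
      rw [hcc S' S, hn, hn1, pow_one]
    · right
      intro S'
      rw [hcc S' S, hn]
      calc 4 = 2 ^ 2 := rfl
        _ ≤ 2 ^ n := Nat.pow_le_pow_right (by norm_num) (by omega)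
  have key : ∀ {u v : ℕ} (_ : BB G u v), ¬ u ∣ (cz y).index → False := by
    intro u v B hyl
    haveI : Fact u.Prime := ⟨B.hu⟩
    haveI : Fact v.Prime := ⟨B.hv⟩
    obtain ⟨U, K, T0, y, L⟩ := B.exLoc hy1 hy2 hyl
    rcases hZ with hZ | hZ
    · obtain ⟨S, hS⟩ := L.hT2.exists_le_sylow
      exact L.false_two B hS (hZ S) (B.unique_of_two (hZ S))
    · obtain ⟨S, hS⟩ := L.bound B hZ
      exact B.false_ge_four hZ U default S hS
  rcases hyl with h | h
  · exact key B h
  · exact key B.swap h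

/-- **the Sylow 2-subgroups of a simple group in the configuration are abelian** -/
theorem Tri.sylow_two_ab [IsSimpleGroup G] (T : Tri G) (hna : ¬ ∀ a b : G, a * b = b * a) (S : Sylow 2 G) : Ab (S : Subgroup G) := by
  by_contra hS
  obtain ⟨u, v, hu, hv, hu2, hv2, huv, hpf⟩ := T.primes (T.even hna)
  haveI : Fact u.Prime := ⟨hu⟩
  haveI : Fact v.Prime := ⟨hv⟩
  have B0 : BB0 G u v :=
    { T := T, hu := hu, hv := hv, hu2 := hu2, hv2 := hv2, huv := huv, hpf := hpf
      uab := fun U => T.ab_of hna (v := v) hu2 hpf S hS U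
      vab := fun U => T.ab_of hna (v := u) hv2 (by rw [hpf, Finset.pair_comm]) S hS U
      sab := fun S' h => hS (h.conj S) }
  exact BB.false (G := G) (u := u) (v := v) { B0 with
    au := fun U => B0.al_u hna U
    av := fun V => B0.symm.al_u hna V }

end Cfsg.Agent.H35.TP
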