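import Cfsg.Agent.H35.TPg

/-!
# Groups whose class sizes have at most two prime divisors, part I: inheritance
-/

set_option autoImplicit false
set_option linter.style.haveILetI false
set_option linter.unusedSectionVars false

namespace Cfsg.Agent.H35.TP

open Cfsg.Agent.SC Cfsg.Agent.H35.CR Cfsg.Agent.H35.PS

universe u v

variable {G : Type u} [Group G] [Finite G]

theorem relIndex_dvd_index_normal (H N : Subgroup G) (hN : N.Normal) : H.relIndex N ∣ H.index := by
  have h1 := Cfsg.Agent.Solv.mul_card_sup_of_normal H N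
  have h2 := Subgroup.card_mul_index (H.subgroupOf N)
  have h3 := Subgroup.card_mul_index (H.subgroupOf (H ⊔ N))
  have h4 : Nat.card (H.subgroupOf (H ⊔ N)) = Nat.card H := Nat.card_congr (Subgroup.subgroupOfEquivOfLe le_sup_left).toEquiv
  have h5 : Nat.card (H.subgroupOf N) = Nat.card (H ⊓ N : Subgroup G) := by
    rw [← Subgroup.subgroupOf_map_subtype H N, Subgroup.card_map_of_injective N.subtype_injective]
  change _ * H.relIndex N = _ at h2
  change _ * H.relIndex (H ⊔ N) = _ at h3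
  rw [h4] at h3
  rw [h5] at h2
  have h6 : H.relIndex N = H.relIndex (H ⊔ N) := by
    rw [← h2, ← h3] at h1
    have hp : 0 < Nat.card H * Nat.card (H ⊓ N : Subgroup G) := Nat.mul_pos Nat.card_pos Nat.card_pos
    apply Nat.eq_of_mul_eq_mul_left hp
    calc Nat.card H * Nat.card (H ⊓ N : Subgroup G) * H.relIndex N = Nat.card H * (Nat.card (H ⊓ N : Subgroup G) * H.relIndex N) := by ring
      _ = Nat.card H * H.relIndex (H ⊔ N) * Nat.card (H ⊓ N : Subgroup G) := h1.symm
      _ = _ := by ring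
  rw [h6, ← Subgroup.relIndex_mul_index (le_sup_left : H ≤ H ⊔ N)]
  exact dvd_mul_right _ _

theorem index_cz_normal {N : Subgroup G} (hN : N.Normal) (x : N) : (cz x).index ∣ (cz (x : G)).index := by
  have h1 : (cz (x : G)).subgroupOf N = cz x := by
    ext y
    rw [Subgroup.mem_subgroupOf, mem_cz, mem_cz]
    exact ⟨fun h => Subtype.ext h, fun h => congrArg Subtype.val h⟩
  have h2 := relIndex_dvd_index_normal (cz (x : G)) N hN
  rwa [Subgroup.relIndex, h1] at h2

theorem index_cz_surj {Q : Type v} [Group Q] (f : G →* Q) (hf : Function.Surjective f) (x : G) :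
    (cz (f x)).index ∣ (cz x).index := by
  rw [← Subgroup.index_comap_of_surjective _ hf]
  apply Subgroup.index_dvd_of_le
  intro g hg
  rw [Subgroup.mem_comap, mem_cz, ← map_mul, ← map_mul, mem_cz.1 hg]

theorem TwoPr.normal (h : TwoPr G) {N : Subgroup G} (hN : N.Normal) : TwoPr N := fun x =>
  (Finset.card_le_card (Nat.primeFactors_mono (index_cz_normal hN x) Subgroup.index_ne_zero_of_finite)).trans (h x)

theorem TwoPr.surj (h : TwoPr G) {Q : Type v} [Group Q] (f : G →* Q) (hf : Function.Surjective f) : TwoPr Q := by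
  intro y
  obtain ⟨x, rfl⟩ := hf y
  exact (Finset.card_le_card (Nat.primeFactors_mono (index_cz_surj f hf x) Subgroup.index_ne_zero_of_finite)).trans (h x)

theorem Tri.exists_two (T : Tri G) {l : ℕ} (hl : l.Prime) : ∃ (x : G) (r s : ℕ), x ≠ 1 ∧ r.Prime ∧ s.Prime ∧ r ≠ s ∧
    r ≠ l ∧ s ≠ l ∧ r ∣ (cz x).index ∧ s ∣ (cz x).index := by
  classical
  obtain ⟨x, r0, hx, hr0, hr0d, hlab, hlr⟩ : ∃ (x : G) (r0 : ℕ), x ≠ 1 ∧ r0.Prime ∧ r0 ∣ Nat.card G ∧
      ¬ r0 ∣ (cz x).index ∧ (l ∣ Nat.card G → l = r0) := by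
    by_cases hld : l ∣ Nat.card G
    · haveI : Fact l.Prime := ⟨hl⟩
      obtain ⟨x, hxP, hx, hxc⟩ := exists_center_order ((default : Sylow l G)).isPGroup'
        (Sylow.ne_bot_of_dvd_card (default : Sylow l G) hld)
      refine ⟨x, l, ne_one_of_prime hl hx, hl, hld, ?_, fun _ => rfl⟩
      exact label_iff.2 ⟨default, mem_CC.2 fun y hy => mem_cz.2 (hxc y hy)⟩
    · obtain ⟨x, hx⟩ : ∃ x : G, x ≠ 1 := by
        by_contra hcon
        push Not at hcon
        haveI : Subsingleton G := ⟨fun a b => by rw [hcon a, hcon b]⟩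
        have h3 := T.h3
        rw [Nat.card_of_subsingleton (1 : G)] at h3
        simp at h3
      obtain ⟨r, hr, hrd, hrx⟩ := T.lab x hx
      exact ⟨x, r, hx, hr, hrd, hrx, fun h => absurd h hld⟩
  have h1 : r0 ∈ (Nat.card G).primeFactors := Nat.mem_primeFactors.2 ⟨hr0, hr0d, Nat.card_pos.ne'⟩
  have h3 : ((Nat.card G).primeFactors.erase r0).card = 2 := by
    rw [Finset.card_erase_of_mem h1, T.h3]
  obtain ⟨r, s, hrs, h⟩ := Finset.card_eq_two.1 h3
  have hr : r ∈ (Nat.card G).primeFactors.erase r0 := by rw [h]; simp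
  have hs : s ∈ (Nat.card G).primeFactors.erase r0 := by rw [h]; simp
  rw [Finset.mem_erase] at hr hs
  have hrp := Nat.prime_of_mem_primeFactors hr.2
  have hsp := Nat.prime_of_mem_primeFactors hs.2
  have hrd := Nat.dvd_of_mem_primeFactors hr.2
  have hsd := Nat.dvd_of_mem_primeFactors hs.2
  refine ⟨x, r, s, hx, hrp, hsp, hrs, ?_, ?_, ?_, ?_⟩
  · rintro rfl; exact hr.1 (hlr hrd)
  · rintro rfl; exact hs.1 (hlr hsd)
  · by_contra h4
    exact hr.1 (T.uniq x r r0 hx hrp hr0 hrd hr0d h4 hlab)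
  · by_contra h4
    exact hs.1 (T.uniq x s r0 hx hsp hr0 hsd hr0d h4 hlab)

theorem not_three (hP : TwoPr G) {x : G} {r s t : ℕ} (hr : r.Prime) (hs : s.Prime) (ht : t.Prime) (hrs : r ≠ s) (hrt : r ≠ t)
    (hst : s ≠ t) (h1 : r ∣ (cz x).index) (h2 : s ∣ (cz x).index) (h3 : t ∣ (cz x).index) : False := by
  have h4 := hP x
  have h5 : ({r, s, t} : Finset ℕ) ⊆ (cz x).index.primeFactors := by
    intro a ha
    simp only [Finset.mem_insert, Finset.mem_singleton] at ha
    rw [Nat.mem_primeFactors]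
    rcases ha with rfl | rfl | rfl
    · exact ⟨hr, h1, Subgroup.index_ne_zero_of_finite⟩
    · exact ⟨hs, h2, Subgroup.index_ne_zero_of_finite⟩
    · exact ⟨ht, h3, Subgroup.index_ne_zero_of_finite⟩
  have h6 := Finset.card_le_card h5
  rw [Finset.card_eq_three.2 ⟨r, s, t, hrs, hrt, hst, rfl⟩] at h6
  omega

/-- the centralizer of a normal simple group is central -/
theorem CC_le_center (hP : TwoPr G) {S : Subgroup G} (hS : S.Normal) (T : Tri S) (hz : ∀ x ∈ S, x ∈ CC S → x = 1) :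
    CC S ≤ Subgroup.center G := by
  intro c hc
  by_contra hcc
  have h1 : (cz c).index ≠ 1 := fun h => hcc (index_cz_eq_one.1 h)
  obtain ⟨l, hl, hld⟩ := Nat.exists_prime_and_dvd h1
  obtain ⟨x, r, s, hx, hr, hs, hrs, hrl, hsl, hrx, hsx⟩ := T.exists_two hl
  have hNN : NN S = ⊤ := Subgroup.normalizer_eq_top_iff.2 hS
  have hkey : ∀ g ∈ cz ((x : G) * c), g ∈ cz (x : G) ∧ g ∈ cz c := by
    intro g hg
    have h2 : g * ((x : G) * c) = (x : G) * c * g := mem_cz.1 hg
    have h3 : (x : G)⁻¹ * (g * x * g⁻¹) = c * (g * c * g⁻¹)⁻¹ := by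
      calc (x : G)⁻¹ * (g * x * g⁻¹) = (x : G)⁻¹ * (g * (x * c)) * (c⁻¹ * g⁻¹) := by group
        _ = (x : G)⁻¹ * (x * c * g) * (c⁻¹ * g⁻¹) := by rw [h2]
        _ = _ := by group
    have h4 : (x : G)⁻¹ * (g * x * g⁻¹) ∈ S := S.mul_mem (S.inv_mem x.2) (hS.conj_mem _ x.2 g)
    have h5 : (x : G)⁻¹ * (g * x * g⁻¹) ∈ CC S := by
      rw [h3]
      exact Subgroup.mul_mem _ hc (Subgroup.inv_mem _ (conj_mem_CC (by rw [hNN]; trivial) hc))
    have h6 := hz _ h4 h5
    have h7 : g * (x : G) * g⁻¹ = x := (inv_mul_eq_one.1 h6).symm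
    rw [h6] at h3
    have h8 : g * c * g⁻¹ = c := (mul_inv_eq_one.1 h3.symm).symm
    exact ⟨mem_cz.2 (mul_inv_eq_iff_eq_mul.1 h7), mem_cz.2 (mul_inv_eq_iff_eq_mul.1 h8)⟩
  have h2 : (cz (x : G)).index ∣ (cz ((x : G) * c)).index := Subgroup.index_dvd_of_le fun g hg => (hkey g hg).1
  have h3 : (cz c).index ∣ (cz ((x : G) * c)).index := Subgroup.index_dvd_of_le fun g hg => (hkey g hg).2
  have h4 := index_cz_normal hS x
  exact not_three hP hr hs hl hrs hrl hsl ((hrx.trans h4).trans h2) ((hsx.trans h4).trans h2) (hld.trans h3)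

end Cfsg.Agent.H35.TP
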