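import Cfsg.Agent.AutPSL.Lang
import Cfsg.Agent.AutPSL.Two
import Cfsg.Agent.AutPSL.Main

/-!
# Groups whose class sizes have at most two prime divisors, part J: field automorphisms of PSL(2,4), PSL(2,8)
-/

set_option autoImplicit false
set_option linter.style.haveILetI false
set_option linter.unusedSectionVars false

namespace Cfsg.Agent.H35.TP

open Matrix Cfsg.Agent.AutPSL

universe u

variable {F : Type u} [Field F] [Fintype F] [CharP F 2]

theorem sigma_pow {f : ℕ} (hF : Fintype.card F = 2 ^ f) (σ : RingAut F) : σ ^ f = 1 := by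
  haveI hp : Fact (Nat.Prime 2) := ⟨Nat.prime_two⟩
  obtain ⟨_, hcard⟩ := ringAut_cyclic_card F hF
  rw [← hcard]
  exact pow_card_eq_one'

theorem sigma_fix {f : ℕ} (hF : Fintype.card F = 2 ^ f) (hf : f.Prime) {σ : RingAut F} (hσ : σ ≠ 1) {b : F} (hb : σ b = b) :
    b = 0 ∨ b = 1 := by
  haveI hp : Fact (Nat.Prime 2) := ⟨Nat.prime_two⟩
  obtain ⟨_, hcard⟩ := ringAut_cyclic_card F hF
  haveI hfin : Finite (RingAut F) :=
    Finite.of_injective (fun τ : RingAut F => (τ : F → F)) (fun a b h => RingEquiv.ext (congrFun h))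
  have h1 : Subgroup.zpowers σ = ⊤ := by
    apply Subgroup.eq_top_of_card_eq
    rw [Nat.card_zpowers, hcard]
    have h2 : orderOf σ ∣ f := orderOf_dvd_of_pow_eq_one (sigma_pow hF σ)
    rcases (Nat.dvd_prime hf).1 h2 with h3 | h3
    · exact absurd (orderOf_eq_one_iff.1 h3) hσ
    · exact h3
  have h2 : (frobeniusEquiv F 2 : RingAut F) ∈ Subgroup.zpowers σ := by rw [h1]; trivial
  rw [← mem_powers_iff_mem_zpowers] at h2
  obtain ⟨k, hk⟩ := h2
  have h3 : ∀ j : ℕ, (σ ^ j : RingAut F) b = b := by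
    intro j
    induction j with
    | zero => rw [pow_zero]; rfl
    | succ j ih => rw [pow_succ', RingAut.mul_apply, ih, hb]
  have h4 : (frobeniusEquiv F 2 : RingAut F) b = b := by
    have h5 : (σ ^ k : RingAut F) = (frobeniusEquiv F 2 : RingAut F) := hk
    rw [← h5]; exact h3 k
  have h5 : b ^ 2 = b := h4
  have h6 : b * (b - 1) = 0 := by linear_combination h5
  rcases mul_eq_zero.1 h6 with h7 | h7
  · exact Or.inl h7
  · exact Or.inr (sub_eq_zero.1 h7)

theorem cAut_uu (σ : F ≃+* F) (b : F) : cAut 1 σ (uu b) = uu (σ b) := by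
  unfold uu
  rw [cAut_toPSL]
  refine congrArg toPSL (Subtype.ext ?_)
  rw [coe_conjSL, coe_mapSL]
  ext i j
  fin_cases i <;> fin_cases j <;> simp [uSL]

theorem commute_uu_one {s : Matrix.ProjectiveSpecialLinearGroup (Fin 2) F} (h : s * uu 1 = uu 1 * s) : ∃ b : F, s = uu b := by
  obtain ⟨A, rfl⟩ := toPSL_surjective s
  unfold uu at h
  rw [← map_mul, ← map_mul] at h
  obtain ⟨z, hz⟩ := toPSL_eq_iff.1 h
  rw [Matrix.SpecialLinearGroup.coe_mul, Matrix.SpecialLinearGroup.coe_mul] at hz
  have hdet := A.2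
  rw [Matrix.det_fin_two] at hdet
  have e00 := congrFun (congrFun hz 0) 0
  have e01 := congrFun (congrFun hz 0) 1
  have e10 := congrFun (congrFun hz 1) 0
  have e11 := congrFun (congrFun hz 1) 1
  simp [uSL, Matrix.mul_apply, Fin.sum_univ_two] at e00 e01 e10 e11
  set a := A 0 0
  set b := A 0 1
  set c := A 1 0
  set d := A 1 1
  change a * d - b * c = 1 at hdet
  have h2 : (2 : F) = 0 := CharP.cast_eq_zero F 2
  -- `c = z c`
  have hc : c = 0 := by
    by_contra hc
    have hz1 : z = 1 := by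
      have : (z - 1) * c = 0 := by linear_combination -e10
      exact sub_eq_zero.1 ((mul_eq_zero.1 this).resolve_right hc)
    rw [hz1, one_mul] at e00
    apply hc
    linear_combination e00
  have ha : a ≠ 0 := by
    intro ha
    rw [ha, hc] at hdet
    simp at hdet
  have hz1 : z = 1 := by
    have : (z - 1) * a = 0 := by rw [hc] at e00; linear_combination -e00
    exact sub_eq_zero.1 ((mul_eq_zero.1 this).resolve_right ha)
  rw [hz1, one_mul] at e01
  have hda : d = a := by linear_combination e01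
  have ha1 : a = 1 := by
    rw [hda, hc] at hdet
    have h3 : (a - 1) ^ 2 = 0 := by linear_combination hdet + (1 - a) * h2
    exact sub_eq_zero.1 (pow_eq_zero_iff (two_ne_zero) |>.1 h3)
  refine ⟨b, ?_⟩
  unfold uu
  refine congrArg toPSL (Subtype.ext ?_)
  ext i j
  fin_cases i <;> fin_cases j
  · exact ha1
  · rfl
  · exact hc
  · exact hda.trans ha1

theorem fix_le_two {f : ℕ} (hF : Fintype.card F = 2 ^ f) (hf : f = 2 ∨ f = 3) {σ : RingAut F} (hσ : σ ≠ 1) :
    ∃ a : F, ∀ s : Matrix.ProjectiveSpecialLinearGroup (Fin 2) F, uu a * cAut 1 σ s * (uu a)⁻¹ = s →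
      s = 1 ∨ s = uu 1 := by
  have hfp : f.Prime := by rcases hf with rfl | rfl <;> norm_num
  have h2 : (2 : F) = 0 := CharP.cast_eq_zero F 2
  have uu0 : (uu (0 : F) : Matrix.ProjectiveSpecialLinearGroup (Fin 2) F) = 1 := by
    have h := uu_add (0 : F) 0
    rw [add_zero] at h
    exact (left_eq_mul.1 h)
  obtain ⟨a, ha⟩ : ∃ a : F, ∀ s : Matrix.ProjectiveSpecialLinearGroup (Fin 2) F, uu a * cAut 1 σ s * (uu a)⁻¹ = s →
      s * uu 1 = uu 1 * s := by
    have hpow := cAut_one_pow (n := 2) σ f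
    rw [sigma_pow hF σ] at hpow
    have hone : (cAut 1 (1 : RingAut F) : MulAut (Matrix.ProjectiveSpecialLinearGroup (Fin 2) F)) = 1 := cAut_one
    rw [hone] at hpow
    have hstep : ∀ (a : F) (s : Matrix.ProjectiveSpecialLinearGroup (Fin 2) F), uu a * cAut 1 σ s * (uu a)⁻¹ = s →
        cAut 1 σ s = (uu a)⁻¹ * s * uu a := by
      intro a s h
      have : (uu a)⁻¹ * (uu a * cAut 1 σ s * (uu a)⁻¹) * uu a = cAut 1 σ s := by group
      rw [h] at this
      exact this.symm
    have hcomm : ∀ x y : F, (uu x * uu y : Matrix.ProjectiveSpecialLinearGroup (Fin 2) F) = uu y * uu x := by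
      intro x y; rw [← uu_add, ← uu_add, add_comm]
    rcases hf with rfl | rfl
    · -- degree two
      obtain ⟨a, ha⟩ : ∃ a : F, σ a ≠ a := by
        by_contra hcon
        push Not at hcon
        exact hσ (RingEquiv.ext hcon)
      have hss : ∀ x : F, σ (σ x) = x := by
        intro x
        have h3 := sigma_pow hF σ
        have h4 : (σ ^ 2 : RingAut F) x = x := by rw [h3]; rfl
        rwa [pow_two, RingAut.mul_apply] at h4
      have htr : a + σ a = 1 := by
        rcases sigma_fix hF hfp hσ (b := a + σ a) (by rw [map_add, hss, add_comm]) with h3 | h3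
        · exfalso; apply ha
          have : σ a = a + σ a - 2 * a + a := by ring
          rw [this, h3, h2]; ring
        · exact h3
      refine ⟨a, fun s hs => ?_⟩
      have h3 := hstep a s hs
      have h4 : cAut 1 σ (cAut 1 σ s) = s := by
        have h5 := congrArg (fun α : MulAut (Matrix.ProjectiveSpecialLinearGroup (Fin 2) F) => α s) hpow
        simp only [pow_two, MulAut.mul_apply, MulAut.one_apply] at h5
        exact h5
      have h5 : (uu 1)⁻¹ * s * uu 1 = s := by
        rw [← htr, uu_add]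
        conv_rhs => rw [← h4, h3, map_mul, map_mul, map_inv, cAut_uu, h3]
        group
      calc s * uu 1 = uu 1 * ((uu 1)⁻¹ * s * uu 1) := by group
        _ = uu 1 * s := by rw [h5]
    · -- degree three
      refine ⟨1, fun s hs => ?_⟩
      have h3 := hstep 1 s hs
      have h4 : cAut 1 σ (cAut 1 σ (cAut 1 σ s)) = s := by
        have h5 := congrArg (fun α : MulAut (Matrix.ProjectiveSpecialLinearGroup (Fin 2) F) => α s) hpow
        simp only [pow_succ, pow_zero, one_mul, MulAut.mul_apply, MulAut.one_apply] at h5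
        exact h5
      have k1 : cAut 1 σ (uu 1) = (uu 1 : Matrix.ProjectiveSpecialLinearGroup (Fin 2) F) := by rw [cAut_uu, map_one]
      have k2 : cAut 1 σ (cAut 1 σ s) = (uu 1)⁻¹ * ((uu 1)⁻¹ * s * uu 1) * uu 1 := by
        rw [h3, map_mul, map_mul, map_inv, k1, h3]
      have k3 : cAut 1 σ (cAut 1 σ (cAut 1 σ s)) = (uu 1)⁻¹ * ((uu 1)⁻¹ * ((uu 1)⁻¹ * s * uu 1) * uu 1) * uu 1 := by
        rw [k2, map_mul, map_mul, map_inv, k1, map_mul, map_mul, map_inv, k1, h3]
      have h5 : (uu 1 * uu 1 * uu 1)⁻¹ * s * (uu 1 * uu 1 * uu 1) = s := by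
        conv_rhs => rw [← h4, k3]
        group
      have h6 : (uu 1 * uu 1 * uu 1 : Matrix.ProjectiveSpecialLinearGroup (Fin 2) F) = uu 1 := by
        rw [← uu_add, ← uu_add]
        congr 1
        linear_combination h2
      rw [h6] at h5
      calc s * uu 1 = uu 1 * ((uu 1)⁻¹ * s * uu 1) := by group
        _ = uu 1 * s := by rw [h5]
  refine ⟨a, fun s hs => ?_⟩
  obtain ⟨b, rfl⟩ := commute_uu_one (ha s hs)
  rw [cAut_uu] at hs
  have h3 : (uu a * uu (σ b) * (uu a)⁻¹ : Matrix.ProjectiveSpecialLinearGroup (Fin 2) F) = uu (σ b) := by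
    rw [← uu_add, add_comm, uu_add]; group
  rw [h3] at hs
  rcases sigma_fix hF hfp hσ (uu_injective hs) with h4 | h4
  · left; rw [h4, uu0]
  · right; rw [h4]

end Cfsg.Agent.H35.TP
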