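import Cfsg.Agent.H35.TPi
import Cfsg.Agent.H35.TPj
import Cfsg.Agent.H14.SubField

/-!
# Groups whose class sizes have at most two prime divisors, part K: no outer automorphisms are induced
-/

set_option autoImplicit false
set_option linter.style.haveILetI false
set_option linter.unusedSectionVars false

namespace Cfsg.Agent.H35.TP

open Cfsg.Agent.SC Cfsg.Agent.H35.CR Cfsg.Agent.H35.PS Cfsg.Agent.AutPSL

universe u v

variable {F : Type v} [Field F] [Fintype F] [CharP F 2]

theorem cAut_inner (m : GL (Fin 2) F) (σ : F ≃+* F) :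
    ∃ s0 : Matrix.ProjectiveSpecialLinearGroup (Fin 2) F, ∀ x, cAut m σ x = s0 * cAut 1 σ x * s0⁻¹ := by
  obtain ⟨c, hc⟩ := FiniteField.isSquare_of_char_two (F := F) (ringChar.eq F 2) (Matrix.det (m : Matrix (Fin 2) (Fin 2) F))
  have hdet : Matrix.det (m : Matrix (Fin 2) (Fin 2) F) ≠ 0 := by
    have h1 := congrArg Matrix.det (Units.mul_inv m)
    rw [Matrix.det_mul, Matrix.det_one] at h1
    exact left_ne_zero_of_mul_eq_one h1
  have hc0 : c ≠ 0 := by rintro rfl; rw [mul_zero] at hc; exact hdet hc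
  let A : Matrix.SpecialLinearGroup (Fin 2) F := ⟨c⁻¹ • (m : Matrix (Fin 2) (Fin 2) F), by
    rw [Matrix.det_smul, hc, Fintype.card_fin]; field_simp⟩
  refine ⟨toPSL A, fun x => ?_⟩
  obtain ⟨s, rfl⟩ := toPSL_surjective x
  rw [cAut_toPSL, cAut_toPSL, ← map_inv, ← map_mul, ← map_mul]
  refine congrArg toPSL ?_
  rw [eq_mul_inv_iff_mul_eq]
  apply Subtype.ext
  rw [Matrix.SpecialLinearGroup.coe_mul, Matrix.SpecialLinearGroup.coe_mul, coe_conjSL, coe_conjSL]
  have h1 : ((m⁻¹ : GL (Fin 2) F) : Matrix (Fin 2) (Fin 2) F) * (m : Matrix (Fin 2) (Fin 2) F) = 1 := Units.inv_mul m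
  have h2 : (A : Matrix (Fin 2) (Fin 2) F) = c⁻¹ • (m : Matrix (Fin 2) (Fin 2) F) := rfl
  have h3 : (((1 : GL (Fin 2) F)⁻¹ : GL (Fin 2) F) : Matrix (Fin 2) (Fin 2) F) = 1 := by rw [inv_one]; rfl
  rw [h2, h3, Units.val_one, one_mul, mul_one, Matrix.mul_smul, Matrix.smul_mul, Matrix.mul_assoc, h1, mul_one]

variable {G : Type u} [Group G] [Finite G]

theorem sup_eq_top (hP : TwoPr G) {S : Subgroup G} (hS : S.Normal) (hF : Fintype.card F = 4 ∨ Fintype.card F = 8)
    (e : S ≃* Matrix.ProjectiveSpecialLinearGroup (Fin 2) F) : S ⊔ CC S = ⊤ := by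
  haveI := hS
  have hcard : Nat.card S = Fintype.card F * ((Fintype.card F - 1) * (Fintype.card F + 1)) := by
    rw [Nat.card_congr e.toEquiv]
    exact Cfsg.Agent.H14.SubField.card_PSL2_even (by rcases hF with h | h <;> rw [h] <;> decide)
  obtain ⟨f, hFf, hf⟩ : ∃ f : ℕ, Fintype.card F = 2 ^ f ∧ (f = 2 ∨ f = 3) := by
    rcases hF with h | h
    · exact ⟨2, by rw [h]; norm_num, Or.inl rfl⟩
    · exact ⟨3, by rw [h]; norm_num, Or.inr rfl⟩
  rw [eq_top_iff]
  intro g _
  let φ : MulAut (Matrix.ProjectiveSpecialLinearGroup (Fin 2) F) := MulAut.congr e (MulAut.conjNormal g)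
  have hφ : ∀ y : S, φ (e y) = e (MulAut.conjNormal g y) := by
    intro y
    show e ((MulAut.conjNormal g) (e.symm (e y))) = _
    rw [e.symm_apply_apply]
  obtain ⟨m, σ, hmσ⟩ := aut_classify_two φ
  obtain ⟨s0, hs0⟩ := cAut_inner m σ
  have hφ' : ∀ x, φ x = s0 * cAut 1 σ x * s0⁻¹ := by
    intro x; rw [hmσ]; exact hs0 x
  by_cases hσ : σ = RingEquiv.refl F
  · -- inner
    have h1 : ∀ x, φ x = s0 * x * s0⁻¹ := by
      intro x
      rw [hφ', hσ, cAut_one, MulAut.one_apply]
    have h2 : ∀ y ∈ S, g * y * g⁻¹ = (e.symm s0 : G) * y * (e.symm s0 : G)⁻¹ := by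
      intro y hy
      have h3 := h1 (e ⟨y, hy⟩)
      rw [hφ] at h3
      have h4 : MulAut.conjNormal g (⟨y, hy⟩ : S) = e.symm s0 * ⟨y, hy⟩ * (e.symm s0)⁻¹ := by
        apply e.injective
        rw [h3, map_mul, map_mul, map_inv, e.apply_symm_apply]
      have h5 := congrArg Subtype.val h4
      rw [MulAut.conjNormal_apply] at h5
      exact h5
    have h3 : (e.symm s0 : G)⁻¹ * g ∈ CC S := by
      rw [Subgroup.mem_centralizer_iff]
      intro y hy
      have h4 := h2 y hy
      calc y * ((e.symm s0 : G)⁻¹ * g) = (e.symm s0 : G)⁻¹ * ((e.symm s0 : G) * y * (e.symm s0 : G)⁻¹) * g := by group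
        _ = (e.symm s0 : G)⁻¹ * (g * y * g⁻¹) * g := by rw [h4]
        _ = _ := by group
    have h4 : g = (e.symm s0 : G) * ((e.symm s0 : G)⁻¹ * g) := by group
    rw [h4]
    exact Subgroup.mul_mem_sup (e.symm s0).2 h3
  · -- outer: contradiction
    exfalso
    obtain ⟨a, ha⟩ := fix_le_two hFf hf (σ := (σ : RingAut F)) (fun h => hσ h)
    set t : S := e.symm (uu a * s0⁻¹) with ht
    set g' : G := (t : G) * g with hg'
    have hfix : ∀ y : S, (y : G) ∈ cz g' → y = 1 ∨ y = e.symm (uu 1) := by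
      intro y hy
      have h1 : g' * (y : G) * g'⁻¹ = y := by
        rw [← mem_cz.1 hy]; group
      have h2 : t * MulAut.conjNormal g y * t⁻¹ = y := by
        apply Subtype.ext
        rw [Subgroup.coe_mul, Subgroup.coe_mul, Subgroup.coe_inv, MulAut.conjNormal_apply]
        rw [hg'] at h1
        calc (t : G) * (g * y * g⁻¹) * (t : G)⁻¹ = (t : G) * g * y * ((t : G) * g)⁻¹ := by group
          _ = y := h1
      have h3 := congrArg e h2
      rw [map_mul, map_mul, map_inv, ← hφ, hφ', ht, e.apply_symm_apply] at h3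
      have h4 : uu a * cAut 1 σ (e y) * (uu a)⁻¹ = e y := by
        calc uu a * cAut 1 σ (e y) * (uu a)⁻¹ =
            uu a * s0⁻¹ * (s0 * cAut 1 σ (e y) * s0⁻¹) * (uu a * s0⁻¹)⁻¹ := by group
          _ = _ := h3
      rcases ha _ h4 with h5 | h5
      · left; exact e.injective (by rw [h5, map_one])
      · right; rw [← h5, e.symm_apply_apply]
    have h1 : Nat.card ((cz g').subgroupOf S) ≤ 2 := by
      have h2 : (((cz g').subgroupOf S : Subgroup S) : Set S) ⊆ {1, e.symm (uu 1)} := by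
        intro y hy
        exact hfix y hy
      have h3 := Set.ncard_le_ncard h2 (Set.toFinite _)
      exact h3.trans ((Set.ncard_insert_le _ _).trans (by rw [Set.ncard_singleton]))
    have h2 := Subgroup.card_mul_index ((cz g').subgroupOf S)
    change _ * (cz g').relIndex S = _ at h2
    have h3 := relIndex_dvd_index_normal (cz g') S hS
    have h0 : 0 < Nat.card ((cz g').subgroupOf S) := Nat.card_pos
    have h4 : Nat.card ((cz g').subgroupOf S) = 1 ∨ Nat.card ((cz g').subgroupOf S) = 2 := by omega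
    rw [hcard] at h2
    have p5 : Nat.Prime 5 := by norm_num
    have p7 : Nat.Prime 7 := by norm_num
    rcases hF with hF | hF
    · rw [hF] at h2
      have h5 : 30 ∣ (cz g').relIndex S := by
        rcases h4 with h4 | h4 <;> rw [h4] at h2 <;> omega
      have h6 := h5.trans h3
      exact not_three hP Nat.prime_two Nat.prime_three p5 (by norm_num) (by norm_num) (by norm_num)
        ((by norm_num : 2 ∣ 30).trans h6) ((by norm_num : 3 ∣ 30).trans h6) ((by norm_num : 5 ∣ 30).trans h6)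
    · rw [hF] at h2
      have h5 : 252 ∣ (cz g').relIndex S := by
        rcases h4 with h4 | h4 <;> rw [h4] at h2 <;> omega
      have h6 := h5.trans h3
      exact not_three hP Nat.prime_two Nat.prime_three p7 (by norm_num) (by norm_num) (by norm_num)
        ((by norm_num : 2 ∣ 252).trans h6) ((by norm_num : 3 ∣ 252).trans h6) ((by norm_num : 7 ∣ 252).trans h6)

end Cfsg.Agent.H35.TP
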