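import Mathlib

/-!
# Groups whose class sizes have at most two prime divisors: arithmetic
-/

set_option autoImplicit false

namespace Cfsg.Agent.H35.TPN

/-- number of prime divisors -/
def w (n : ℕ) : ℕ := n.primeFactors.card

theorem w_mul {a b : ℕ} (h : a.Coprime b) : w (a * b) = w a + w b := by
  rw [w, h.primeFactors_mul, Finset.card_union_of_disjoint h.disjoint_primeFactors]; rfl

theorem w_pos {a : ℕ} (h : 1 < a) : 1 ≤ w a := by
  rw [w, Nat.one_le_iff_ne_zero, Finset.card_ne_zero, Nat.nonempty_primeFactors]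
  exact h

theorem w_four {a b c d : ℕ} (ha : 1 < a) (hb : 1 < b) (hc : 1 < c) (hd : 1 < d) (h1 : (a * b * c).Coprime d)
    (h2 : (a * b).Coprime c) (h3 : a.Coprime b) : 4 ≤ w (a * b * c * d) := by
  rw [w_mul h1, w_mul h2, w_mul h3]
  have := w_pos ha; have := w_pos hb; have := w_pos hc; have := w_pos hd
  omega

theorem odd_coprime_of_sub {a b c k : ℕ} (ha : Odd a) (h : b = a + c) (hc : c ∣ 2 ^ k) : a.Coprime b := by
  rw [Nat.coprime_iff_gcd_eq_one]
  have h1 : Nat.gcd a b ∣ c := by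
    have h2 := Nat.gcd_dvd_left a b
    have h3 := Nat.gcd_dvd_right a b
    rw [h] at h3
    rw [h] at h2 ⊢
    exact (Nat.dvd_add_right h2).1 h3
  have h2 : (Nat.gcd a b).Coprime (2 ^ k) := by
    apply Nat.Coprime.pow_right
    apply Nat.Coprime.coprime_dvd_left (Nat.gcd_dvd_left a b)
    exact (Nat.coprime_two_right).2 ha
  exact Nat.Coprime.eq_one_of_dvd h2 (h1.trans hc)

/-- Suzuki orders have at least four prime divisors -/
theorem suz {m : ℕ} (hm : 1 ≤ m) :
    4 ≤ w ((2 ^ (2 * m + 1)) ^ 2 * ((2 ^ (2 * m + 1)) ^ 2 + 1) * (2 ^ (2 * m + 1) - 1)) := by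
  set r := 2 ^ (m + 1) with hr
  set q := 2 ^ (2 * m + 1) with hq
  have hrq : r * r = 2 * q := by rw [hr, hq]; ring
  have hr2 : r < q := by
    rw [hr, hq]; exact Nat.pow_lt_pow_right (by norm_num) (by omega)
  have hr4 : 4 ≤ r := by
    rw [hr]
    calc 4 = 2 ^ 2 := rfl
      _ ≤ _ := Nat.pow_le_pow_right (by norm_num) (by omega)
  have hq8 : 8 ≤ q := by
    rw [hq]
    calc 8 = 2 ^ 3 := rfl
      _ ≤ _ := Nat.pow_le_pow_right (by norm_num) (by omega)
  have hqe : Even q := by rw [hq]; exact ⟨2 ^ (2 * m), by ring⟩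
  have hre : Even r := by rw [hr]; exact ⟨2 ^ m, by ring⟩
  obtain ⟨d, hd⟩ := Nat.exists_eq_add_of_lt hr2
  -- `q = r + d + 1`, `A = q - r + 1 = d + 2`, `B = q + r + 1`
  have hAB : q ^ 2 + 1 = (d + 2) * (q + r + 1) := by
    have h1 : (q : ℤ) = r + d + 1 := by rw [hd]; push_cast; ring
    have h2 : (r : ℤ) * r = 2 * q := by exact_mod_cast hrq
    have : ((q ^ 2 + 1 : ℕ) : ℤ) = ((d + 2) * (q + r + 1) : ℕ) := by
      push_cast
      have h3 : (d : ℤ) = q - r - 1 := by linarith
      rw [h3]; linear_combination h2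
    exact_mod_cast this
  have hdo : Odd (d + 2) := by
    rw [Nat.even_iff] at hqe hre
    rw [Nat.odd_iff]; omega
  have hBo : Odd (q + r + 1) := by
    rw [Nat.even_iff] at hqe hre
    rw [Nat.odd_iff]; omega
  have hq1o : Odd (q - 1) := by
    rw [Nat.even_iff] at hqe
    rw [Nat.odd_iff]; omega
  have hcopAB : (d + 2).Coprime (q + r + 1) := by
    apply odd_coprime_of_sub (c := 2 * r) (k := m + 2) hdo (by omega)
    rw [hr]; exact ⟨1, by ring⟩
  have hcopq1 : (q - 1).Coprime (q ^ 2 + 1) := by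
    have h1 : q ^ 2 + 1 = (q - 1) * (q + 1) + 2 := by
      obtain ⟨e, he⟩ := Nat.exists_eq_add_of_le (show 1 ≤ q by omega)
      rw [he]; simp only [Nat.add_sub_cancel_left]; ring
    rw [h1, Nat.coprime_mul_left_add_right]
    exact (Nat.coprime_two_right).2 hq1o
  have h2odd : ∀ x : ℕ, Odd x → (q ^ 2).Coprime x := by
    intro x hx
    apply Nat.Coprime.pow_left
    rw [hq]; apply Nat.Coprime.pow_left
    exact (Nat.coprime_two_left).2 hx
  rw [hAB] at hcopq1 ⊢
  rw [← mul_assoc]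
  apply w_four
  · nlinarith
  · omega
  · omega
  · omega
  · apply Nat.Coprime.symm
    rw [mul_assoc]
    apply Nat.Coprime.mul_right
    · exact (h2odd _ hq1o).symm
    · exact hcopq1
  · apply Nat.Coprime.mul_left
    · exact h2odd _ hBo
    · exact hcopAB
  · exact h2odd _ hdo

theorem two_pow_of_even {q p k : ℕ} (hp : p.Prime) (hk : q ^ 2 = p ^ k) (he : Even q) : ∃ m, q = 2 ^ m := by
  have h1 : 2 ∣ q := he.two_dvd
  have hp2 : p = 2 := by
    have h2 : 2 ∣ p ^ k := by rw [← hk]; exact h1.trans (dvd_pow_self q two_ne_zero)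
    exact ((Nat.prime_dvd_prime_iff_eq Nat.prime_two hp).1 (Nat.prime_two.dvd_of_dvd_pow h2)).symm
  subst hp2
  have h2 : q ∣ 2 ^ k := by rw [← hk]; exact dvd_pow_self q two_ne_zero
  obtain ⟨m, -, hm⟩ := (Nat.dvd_prime_pow Nat.prime_two).1 h2
  exact ⟨m, hm⟩

/-- orders of unitary groups have at least four prime divisors -/
theorem psu {q m N : ℕ} (hq : q = 2 ^ m) (hq4 : 4 ≤ q)
    (hN : Nat.gcd 3 (q + 1) * N = q ^ 3 * ((q ^ 2 - 1) * (q ^ 3 + 1))) : 4 ≤ w N := by
  have hm : 2 ≤ m := by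
    by_contra h
    have : 2 ^ m ≤ 2 ^ 1 := Nat.pow_le_pow_right (by norm_num) (by omega)
    omega
  have hqe : Even q := by rw [hq]; exact (Nat.even_pow.2 ⟨even_two, by omega⟩)
  have hqe' := hqe
  rw [Nat.even_iff] at hqe'
  obtain ⟨e, he⟩ := Nat.exists_eq_add_of_le (show 1 ≤ q by omega)
  -- `q^2 - q + 1`
  have h1 : q ^ 2 - 1 = (q - 1) * (q + 1) := by
    rw [he]; simp only [Nat.add_sub_cancel_left]
    have : (1 + e) ^ 2 = e * (1 + e + 1) + 1 := by ring
    rw [this]; omega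
  have h2 : q ^ 3 + 1 = (q + 1) * (q * (q - 1) + 1) := by
    rw [he]; simp only [Nat.add_sub_cancel_left]; ring
  have hodd1 : Odd (q - 1) := by rw [Nat.odd_iff]; omega
  have hodd2 : Odd (q + 1) := by rw [Nat.odd_iff]; omega
  have hodd3 : Odd (q * (q - 1) + 1) := (hqe.mul_right (q - 1)).add_one
  have hc12 : (q - 1).Coprime (q + 1) := odd_coprime_of_sub (c := 2) (k := 1) hodd1 (by omega) (by norm_num)
  have hc13 : (q - 1).Coprime (q * (q - 1) + 1) := by
    rw [mul_comm, add_comm, Nat.coprime_add_mul_left_right]; exact Nat.coprime_one_right _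
  have h2odd : ∀ x : ℕ, Odd x → (q ^ 3).Coprime x := by
    intro x hx
    apply Nat.Coprime.pow_left
    rw [hq]; apply Nat.Coprime.pow_left
    exact (Nat.coprime_two_left).2 hx
  -- the key factor
  obtain ⟨x, hx1, hx2, hx3, hx4, hx5⟩ : ∃ x, 1 < x ∧ Odd x ∧ (q - 1).Coprime x ∧ (q + 1).Coprime x ∧
      N = q ^ 3 * ((q - 1) * (q + 1) ^ 2 * x) := by
    have hlin : q * (q - 1) + 1 + 3 * q = (q + 1) * (q + 1) := by
      rw [he]; simp only [Nat.add_sub_cancel_left]; ring
    have hbig : 13 ≤ q * (q - 1) + 1 := by nlinarith [show 3 ≤ q - 1 by omega]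
    by_cases h3 : 3 ∣ q + 1
    · obtain ⟨k, hk⟩ := h3
      have h4 : Nat.gcd 3 (q + 1) = 3 := Nat.gcd_eq_left ⟨k, hk⟩
      rw [h4, h1, h2] at hN
      have hk2 : 2 ≤ k := by omega
      obtain ⟨j, hj⟩ := Nat.exists_eq_add_of_le hk2
      have hqj : q = 3 * j + 5 := by omega
      have h5 : q * (q - 1) + 1 = 3 * (3 * (j * j + 3 * j + 2) + 1) := by
        rw [hqj]
        have : 3 * j + 5 - 1 = 3 * j + 4 := by omega
        rw [this]; ring
      set x := 3 * (j * j + 3 * j + 2) + 1 with hx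
      have hxd : x ∣ q * (q - 1) + 1 := ⟨3, by rw [h5]; ring⟩
      refine ⟨x, by omega, ?_, Nat.Coprime.coprime_dvd_right hxd hc13, ?_, ?_⟩
      · rcases Nat.even_or_odd x with h6 | h6
        · exfalso
          rw [h5] at hodd3
          exact (Nat.not_even_iff_odd.2 hodd3) (h6.mul_left 3)
        · exact h6
      · -- gcd divides 3
        have h6 : Nat.gcd (q + 1) x ∣ 3 := by
          have h7 : Nat.gcd (q + 1) x ∣ q * (q - 1) + 1 := (Nat.gcd_dvd_right _ _).trans hxd
          have h8 : Nat.gcd (q + 1) x ∣ (q + 1) * (q + 1) := (Nat.gcd_dvd_left _ _).mul_right _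
          rw [← hlin] at h8
          have h9 : Nat.gcd (q + 1) x ∣ 3 * q := (Nat.dvd_add_right h7).1 h8
          have h10 : Nat.gcd (q + 1) x ∣ 3 * q + 3 := by
            have : 3 * q + 3 = 3 * (q + 1) := by ring
            rw [this]; exact (Nat.gcd_dvd_left _ _).mul_left _
          exact (Nat.dvd_add_right h9).1 h10
        rcases (Nat.dvd_prime Nat.prime_three).1 h6 with h7 | h7
        · exact h7
        · exfalso
          have h8 : 3 ∣ x := by rw [← h7]; exact Nat.gcd_dvd_right _ _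
          rw [hx] at h8
          omega
      · have h6 : 3 * N = 3 * (q ^ 3 * ((q - 1) * (q + 1) ^ 2 * x)) := by
          rw [hN, h5]; ring
        exact Nat.eq_of_mul_eq_mul_left (by norm_num) h6
    · have h4 : Nat.gcd 3 (q + 1) = 1 := (Nat.Prime.coprime_iff_not_dvd Nat.prime_three).2 h3
      rw [h4, one_mul, h1, h2] at hN
      refine ⟨q * (q - 1) + 1, by omega, hodd3, hc13, ?_, by rw [hN]; ring⟩
      have h6 : Nat.gcd (q + 1) (q * (q - 1) + 1) ∣ 3 := by
        have h7 : Nat.gcd (q + 1) (q * (q - 1) + 1) ∣ q * (q - 1) + 1 := Nat.gcd_dvd_right _ _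
        have h8 : Nat.gcd (q + 1) (q * (q - 1) + 1) ∣ (q + 1) * (q + 1) := (Nat.gcd_dvd_left _ _).mul_right _
        rw [← hlin] at h8
        have h9 : Nat.gcd (q + 1) (q * (q - 1) + 1) ∣ 3 * q := (Nat.dvd_add_right h7).1 h8
        have h10 : Nat.gcd (q + 1) (q * (q - 1) + 1) ∣ 3 * q + 3 := by
          have : 3 * q + 3 = 3 * (q + 1) := by ring
          rw [this]; exact (Nat.gcd_dvd_left _ _).mul_left _
        exact (Nat.dvd_add_right h9).1 h10
      rcases (Nat.dvd_prime Nat.prime_three).1 h6 with h7 | h7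
      · exact h7
      · exfalso
        exact h3 (by rw [← h7]; exact Nat.gcd_dvd_left _ _)
  have h6 : N = q ^ 3 * (q - 1) * (q + 1) ^ 2 * x := by rw [hx5]; ring
  rw [h6]
  apply w_four
  · exact Nat.one_lt_pow (by norm_num) (by omega)
  · omega
  · exact Nat.one_lt_pow (by norm_num) (by omega)
  · exact hx1
  · apply Nat.Coprime.mul_left
    · apply Nat.Coprime.mul_left
      · exact h2odd _ hx2
      · exact hx3
    · exact Nat.Coprime.pow_left 2 hx4
  · apply Nat.Coprime.mul_left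
    · exact h2odd _ (hodd2.pow)
    · exact Nat.Coprime.pow_right 2 hc12
  · exact h2odd _ hodd1

theorem eq_pow_of_w_one {n : ℕ} (h : w n = 1) : ∃ p k : ℕ, p.Prime ∧ n = p ^ k := by
  obtain ⟨a, ha⟩ := Finset.card_eq_one.1 h
  have hap : a.Prime := Nat.prime_of_mem_primeFactors (by rw [ha]; exact Finset.mem_singleton_self a)
  have hn : n ≠ 0 := by
    rintro rfl
    simp [w] at h
  have h0 := Nat.prod_factorization_pow_eq_self hn
  rw [Finsupp.prod, Nat.support_factorization, ha, Finset.prod_singleton] at h0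
  exact ⟨a, _, hap, h0.symm⟩

/-- `PSL(2,2^n)` with three primes -/
theorem psl {n : ℕ} (hq4 : 4 ≤ 2 ^ n) (h : w (2 ^ n * ((2 ^ n - 1) * (2 ^ n + 1))) = 3) : 2 ^ n = 4 ∨ 2 ^ n = 8 := by
  set q := 2 ^ n with hq
  have hn : 2 ≤ n := by
    by_contra h
    have : 2 ^ n ≤ 2 ^ 1 := Nat.pow_le_pow_right (by norm_num) (by omega)
    omega
  have hqe : Even q := by rw [hq]; exact (Nat.even_pow.2 ⟨even_two, by omega⟩)
  have hqe' := hqe
  rw [Nat.even_iff] at hqe'
  have hodd1 : Odd (q - 1) := by rw [Nat.odd_iff]; omega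
  have hodd2 : Odd (q + 1) := by rw [Nat.odd_iff]; omega
  have hc12 : (q - 1).Coprime (q + 1) := odd_coprime_of_sub (c := 2) (k := 1) hodd1 (by omega) (by norm_num)
  have h2odd : ∀ x : ℕ, Odd x → q.Coprime x := by
    intro x hx
    rw [hq]; apply Nat.Coprime.pow_left
    exact (Nat.coprime_two_left).2 hx
  rw [w_mul (h2odd _ (hodd1.mul hodd2)), w_mul hc12] at h
  have a1 := w_pos (show 1 < q by omega)
  have a2 := w_pos (show 1 < q - 1 by omega)
  have a3 := w_pos (show 1 < q + 1 by omega)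
  have h1 : w (q - 1) = 1 := by omega
  have h2 : w (q + 1) = 1 := by omega
  rcases Nat.even_or_odd' n with ⟨m, hm | hm⟩
  · -- even
    left
    have h3 : q - 1 = (2 ^ m - 1) * (2 ^ m + 1) := by
      rw [hq, hm, pow_mul', sq]
      obtain ⟨e, he⟩ := Nat.exists_eq_add_of_le (show 1 ≤ 2 ^ m from Nat.one_le_two_pow)
      rw [he]; simp only [Nat.add_sub_cancel_left]
      have : (1 + e) * (1 + e) = e * (1 + e + 1) + 1 := by ring
      rw [this]; omega
    have hm1 : 1 ≤ m := by omega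
    by_contra h4
    have hm2 : 2 ≤ m := by
      by_contra h5
      have : m = 1 := by omega
      apply h4
      rw [hq, hm, this]
      norm_num
    have h5 : 4 ≤ 2 ^ m := by
      calc 4 = 2 ^ 2 := rfl
        _ ≤ _ := Nat.pow_le_pow_right (by norm_num) hm2
    have h6 : Even (2 ^ m) := (Nat.even_pow.2 ⟨even_two, by omega⟩)
    rw [Nat.even_iff] at h6
    have h7 : (2 ^ m - 1).Coprime (2 ^ m + 1) :=
      odd_coprime_of_sub (c := 2) (k := 1) (by rw [Nat.odd_iff]; omega) (by omega) (by norm_num)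
    rw [h3, w_mul h7] at h1
    have b1 := w_pos (show 1 < 2 ^ m - 1 by omega)
    have b2 := w_pos (show 1 < 2 ^ m + 1 by omega)
    omega
  · right
    have hm1 : 1 ≤ m := by omega
    obtain ⟨p, k, hp, hpk⟩ := eq_pow_of_w_one h2
    have h3 : 3 ∣ q + 1 := by
      rw [hq, hm, pow_succ, pow_mul]
      have h4 : (2 ^ 2) ^ m % 3 = 1 := by
        rw [Nat.pow_mod]; norm_num
      omega
    have hp3 : p = 3 := by
      rw [hpk] at h3
      exact ((Nat.prime_dvd_prime_iff_eq Nat.prime_three hp).1 (Nat.prime_three.dvd_of_dvd_pow h3)).symm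
    subst hp3
    have h8 : 8 ∣ q := by
      rw [hq]
      calc 8 = 2 ^ 3 := rfl
        _ ∣ _ := pow_dvd_pow 2 (by omega)
    rcases Nat.even_or_odd' k with ⟨l, hl | hl⟩
    · rw [hl, pow_mul', sq] at hpk
      have hl0 : l ≠ 0 := by
        rintro rfl
        simp at hpk; omega
      have hl3 : 3 ≤ 3 ^ l := by
        calc 3 = 3 ^ 1 := rfl
          _ ≤ _ := Nat.pow_le_pow_right (by norm_num) (by omega)
      obtain ⟨e, he⟩ := Nat.exists_eq_add_of_le (show 1 ≤ 3 ^ l by omega)
      have h9 : q = e * (e + 2) := by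
        rw [he] at hpk
        have : (1 + e) * (1 + e) = e * (e + 2) + 1 := by ring
        omega
      obtain ⟨a, -, ha⟩ := (Nat.dvd_prime_pow Nat.prime_two).1 (show e ∣ 2 ^ n from ⟨e + 2, by rw [← hq, h9]⟩)
      obtain ⟨b, -, hb⟩ := (Nat.dvd_prime_pow Nat.prime_two).1 (show (e + 2) ∣ 2 ^ n from ⟨e, by rw [← hq, h9]; ring⟩)
      have he2 : 2 ≤ e := by omega
      by_cases ha1 : a = 1
      · rw [ha1, pow_one] at ha
        rw [h9, ha]
      · exfalso
        have ha0 : a ≠ 0 := by rintro rfl; simp at ha; omega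
        have h10 : 4 ∣ e := by
          rw [ha]
          calc 4 = 2 ^ 2 := rfl
            _ ∣ _ := pow_dvd_pow 2 (by omega)
        have hb2 : 2 ≤ b := by
          by_contra hb2
          have : 2 ^ b ≤ 2 ^ 1 := Nat.pow_le_pow_right (by norm_num) (by omega)
          omega
        have h11 : 4 ∣ e + 2 := by
          rw [hb]
          calc 4 = 2 ^ 2 := rfl
            _ ∣ _ := pow_dvd_pow 2 (by omega)
        omega
    · exfalso
      rw [hl, pow_succ, pow_mul] at hpk
      have h9 : (3 ^ 2) ^ l % 8 = 1 := by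
        rw [Nat.pow_mod]; norm_num
      omega

end Cfsg.Agent.H35.TPN
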